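import Cfsg.Agent.P2R.Defs

/-!
# Divisors of `p ^ 4 - 1`
-/

set_option autoImplicit false

namespace Cfsg.Agent.P2R

theorem fac (p : ℕ) (hp : 1 ≤ p) : p ^ 4 - 1 = (p - 1) * (p + 1) * (p ^ 2 + 1) := by
  obtain ⟨q, rfl⟩ := Nat.exists_eq_add_of_le' hp
  rw [Nat.add_sub_cancel, Nat.sub_eq_iff_eq_add (Nat.one_le_pow _ _ (by omega))]
  ring

theorem fac2 (p : ℕ) (hp : 1 ≤ p) : p ^ 2 - 1 = (p - 1) * (p + 1) := by
  obtain ⟨q, rfl⟩ := Nat.exists_eq_add_of_le' hp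
  rw [Nat.add_sub_cancel, Nat.sub_eq_iff_eq_add (Nat.one_le_pow _ _ (by omega))]
  ring

/-- divisors `≡ 1 mod p` of `p ^ 2 + 1` -/
theorem dvd_sq_add {p n : ℕ} (hp : 2 ≤ p) (h1 : n % p = 1) (h : n ∣ p ^ 2 + 1) :
    n = 1 ∨ n = p ^ 2 + 1 := by
  obtain ⟨s, hs⟩ := h
  have h2 : s % p = 1 := by
    have : (n * s) % p = 1 := by rw [← hs, sq, Nat.mul_add_mod, Nat.mod_eq_of_lt hp]
    rwa [Nat.mul_mod, h1, one_mul, Nat.mod_mod] at this
  have h3 := Nat.div_add_mod n p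
  have h4 := Nat.div_add_mod s p
  rcases Nat.eq_zero_or_pos (n / p) with e | e
  · left; rw [e, h1] at h3; omega
  rcases Nat.eq_zero_or_pos (s / p) with e' | e'
  · right; rw [e', h2] at h4; rw [hs, ← h4]; simp
  have h5 : p + 1 ≤ n := by nlinarith
  have h6 : p + 1 ≤ s := by nlinarith
  nlinarith [Nat.mul_le_mul h5 h6]

/-- divisors `≡ 1 mod p` of `p ^ 2 - 1` -/
theorem dvd_sq_sub {p n : ℕ} (hp : 2 ≤ p) (h1 : n % p = 1) (h : n ∣ p ^ 2 - 1) :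
    n = 1 ∨ n = p + 1 := by
  refine PSL2Rec.eq_one_or_eq_succ hp ⟨n / p, ?_⟩ (fac2 p (by omega) ▸ h)
  have := Nat.div_add_mod n p
  omega

theorem a2 {p r i : ℕ} (hp : p.Prime) (h5 : 5 < p) (hr : r.Prime) (hi : i ≠ 0)
    (h1 : r ^ i ≡ 1 [MOD p]) (h2 : 2 * r ^ i ∣ p ^ 4 - 1) : r = 2 ∧ r ^ i = p + 1 := by
  have ho := odd_of hp h5
  have h0 : r ^ i ≠ 1 := (Nat.one_lt_pow hi hr.one_lt).ne'
  rw [Nat.ModEq, Nat.mod_eq_of_lt hp.one_lt] at h1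
  obtain ⟨k, hk⟩ : ∃ k, p ^ 2 + 1 = 2 * (2 * k + 1) := by
    obtain ⟨q, rfl⟩ : ∃ q, p = 2 * q + 1 := ⟨p / 2, by omega⟩
    exact ⟨q * q + q, by ring⟩
  have he : ∀ n, r ^ i = n → 2 ∣ n → r = 2 := fun n e h =>
    ((Nat.prime_dvd_prime_iff_eq Nat.prime_two hr).1 (Nat.prime_two.dvd_of_dvd_pow (e ▸ h))).symm
  rw [fac p hp.pos, ← fac2 p hp.pos, hk, mul_left_comm] at h2
  replace h2 := Nat.dvd_of_mul_dvd_mul_left two_pos h2
  by_cases h : r ∣ 2 * k + 1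
  · have h3 : ¬ r ∣ p ^ 2 - 1 := fun e => by
      have h4 : r ∣ 2 := by
        have := Nat.dvd_sub (hk ▸ h.mul_left 2) e
        have h6 := Nat.one_le_pow 2 p hp.pos
        rwa [show p ^ 2 + 1 - (p ^ 2 - 1) = 2 by omega] at this
      rw [(Nat.prime_dvd_prime_iff_eq hr Nat.prime_two).1 h4] at h
      omega
    have h4 := ((hr.coprime_iff_not_dvd.2 h3).pow_left i).dvd_of_dvd_mul_left h2
    have h6 := (dvd_sq_add hp.two_le h1 (hk ▸ h4.mul_left 2)).resolve_left h0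
    rw [he _ h6 ⟨_, hk⟩] at h
    omega
  · have h4 := ((hr.coprime_iff_not_dvd.2 h).pow_left i).dvd_of_dvd_mul_right h2
    have h6 := (dvd_sq_sub hp.two_le h1 h4).resolve_left h0
    exact ⟨he _ h6 (by omega), h6⟩

theorem a1 {p r : ℕ} (hp : 2 ≤ p) (hr : 2 ≤ r) (hd : r * p + 1 ∣ p ^ 4 - 1) :
    r * p + 1 ∣ r ^ 4 - 1 ∧ p ≤ r ^ 2 + r + 1 := by
  have h1 := Nat.one_le_pow 4 p (by omega)
  have h2 := Nat.one_le_pow 4 r (by omega)
  have key : ((r * p + 1 : ℕ) : ℤ) ∣ (r : ℤ) ^ 4 - 1 := by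
    have h3 : ((r * p + 1 : ℕ) : ℤ) ∣ (p : ℤ) ^ 4 - 1 := by exact_mod_cast hd
    have h4 : ((r * p + 1 : ℕ) : ℤ) ∣ ((r : ℤ) * p) ^ 4 - 1 :=
      ⟨(r * p - 1) * ((r * p) ^ 2 + 1), by push_cast; ring⟩
    have := dvd_sub h4 (h3.mul_left (r ^ 4))
    rwa [show ((r : ℤ) * p) ^ 4 - 1 - r ^ 4 * (p ^ 4 - 1) = r ^ 4 - 1 by ring] at this
  refine ⟨by exact_mod_cast key, ?_⟩
  obtain ⟨j, hj⟩ := key
  push_cast at hj
  have hr' : (2 : ℤ) ≤ r := by exact_mod_cast hr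
  have hp' : (2 : ℤ) ≤ p := by exact_mod_cast hp
  have h3 : (0 : ℤ) < j := by
    refine pos_of_mul_pos_left (a := j) (b := r * p + 1) ?_ (by positivity)
    rw [mul_comm, ← hj]
    nlinarith [pow_le_pow_left₀ (by norm_num) hr' 4]
  obtain ⟨i, hi⟩ : (r : ℤ) ∣ j + 1 := ⟨r ^ 3 - p * j, by linear_combination -hj⟩
  have h4 : (r : ℤ) - 1 ≤ j := by
    have : 0 < i := pos_of_mul_pos_left (a := i) (b := r) (by rw [mul_comm]; omega) (by positivity)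
    nlinarith
  have h5 : ((r : ℤ) * p + 1) * (r - 1) ≤ (r ^ 3 + r ^ 2 + r + 1) * (r - 1) := by
    nlinarith [mul_le_mul_of_nonneg_left h4 (by positivity : (0 : ℤ) ≤ r * p + 1)]
  have h6 := le_of_mul_le_mul_right h5 (by omega)
  have h7 : (r : ℤ) * p ≤ r * (r ^ 2 + r + 1) := by nlinarith
  exact_mod_cast le_of_mul_le_mul_left h7 (by omega)

theorem a3 {p e r : ℕ} (hp : p.Prime) (h5 : 5 < p) (he : 2 ≤ e) (hep : e ∣ p - 1) (hr : 2 ≤ r)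
    (h4 : 4 ∣ e * (r * p + 1)) (hd : 2 * (e * (r * p + 1)) ∣ p ^ 4 - 1)
    (hle : 2 * (e * (r * p + 1)) ^ 2 ≤ p ^ 4 - 1) : e * (r + 1) + 1 < p ∧ e * (e + 2) + 1 ≤ p := by
  obtain ⟨h1, h2⟩ := a1 hp.two_le hr (((dvd_mul_left _ e).mul_left 2).trans hd)
  have h7 := seven_le hp h5
  have h3 : 2 * (e * r) ^ 2 < p ^ 2 := by
    by_contra h
    have h6 : p ^ 2 * p ^ 2 ≤ 2 * (e * r) ^ 2 * p ^ 2 := Nat.mul_le_mul_right _ (not_lt.1 h)
    have h8 : (e * r * p) ^ 2 ≤ (e * (r * p + 1)) ^ 2 := Nat.pow_le_pow_left (by nlinarith) 2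
    have h9 := Nat.one_le_pow 4 p hp.pos
    have : p ^ 4 ≤ 2 * (e * r * p) ^ 2 := by nlinarith
    omega
  have h8 : 7 * (e * r) < 5 * p := by
    by_contra h
    have := Nat.pow_le_pow_left (not_lt.1 h) 2
    nlinarith
  rcases Nat.lt_or_ge r 4 with h | h
  · have hp13 : p ≤ 13 := by nlinarith
    have he5 : e ≤ 5 := by nlinarith
    interval_cases r <;> interval_cases p <;> interval_cases e <;> simp_all
  · have h9 : 4 * e ≤ e * r := by nlinarith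
    refine ⟨by rw [mul_add]; omega, ?_⟩
    obtain ⟨t, ht⟩ := hep
    have h10 : 7 * e < 5 * r + 7 := by
      by_contra h'
      nlinarith [Nat.mul_le_mul_right r (not_lt.1 h')]
    have h11 : e + 2 ≤ t := by
      by_contra h'
      have : e * t ≤ e * (e + 1) := Nat.mul_le_mul_left e (by omega)
      have h12 : e * (7 * r) < e * (5 * e + 8) := by
        have : 5 * p = 5 * (e * t) + 5 := by omega
        nlinarith
      have := Nat.lt_of_mul_lt_mul_left h12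
      omega
    have := Nat.mul_le_mul_left e h11
    omega

end Cfsg.Agent.P2R
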