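import Cfsg.Agent.PSL2Rec.DegPSL
import Cfsg.Agent.Small.Rho

/-!
# Groups with a self-centralising Sylow subgroup of order `p ^ 2` and order dividing `|PSL₂(p ^ 2)|`
-/

set_option autoImplicit false

namespace Cfsg.Agent.P2R

open Subgroup

/-- `y` is a self-centralising element of prime order `p` generating a non-normal subgroup. -/
structure Pre (p w : ℕ) {S : Type*} [Group S] (y : S) : Prop where
  pr : p.Prime
  h5 : 5 < p
  ord : orderOf y = p
  cen : ∀ g, Commute g y → g ∈ zpowers y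
  nn : ¬ (zpowers y).Normal
  card : Nat.card S = p * w
  dvd : 2 * w ∣ p ^ 4 - 1

/-- moreover the conjugates of `y` generate -/
structure Good (p w : ℕ) {S : Type*} [Group S] (y : S) : Prop extends Pre p w y where
  gen : normalClosure {y} = ⊤

/-- the main hypothesis -/
structure Hyp (p m : ℕ) (H : Type*) [Group H] : Prop where
  pr : p.Prime
  h5 : 5 < p
  card : Nat.card H = p ^ 2 * m
  dvd : 2 * m ∣ p ^ 4 - 1
  self : ∀ P : Subgroup H, Nat.card P = p ^ 2 → ∀ g, (∀ x ∈ P, Commute g x) → g ∈ P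
  core : ∀ N : Subgroup H, N.Normal → IsPGroup p N → N = ⊥

theorem not_dvd_of_dvd {p w : ℕ} (hp : p.Prime) (h : 2 * w ∣ p ^ 4 - 1) : ¬ p ∣ w := fun e => by
  have h1 : p ∣ p ^ 4 - 1 := (e.mul_left 2).trans h
  have h2 : p ∣ p ^ 4 := dvd_pow_self p (by norm_num)
  have h3 : 1 ≤ p ^ 4 := Nat.one_le_pow _ _ hp.pos
  exact hp.one_lt.ne' (Nat.dvd_one.1 (by simpa [Nat.sub_sub_self h3] using Nat.dvd_sub h2 h1))

theorem odd_of {p : ℕ} (hp : p.Prime) (h5 : 5 < p) : p % 2 = 1 :=
  (hp.eq_two_or_odd).resolve_left (by omega)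

theorem seven_le {p : ℕ} (hp : p.Prime) (h5 : 5 < p) : 7 ≤ p := by
  have := odd_of hp h5
  omega

end Cfsg.Agent.P2R
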