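import Cfsg.Agent.P2R.Good

/-!
# The exceptional degree
-/

set_option autoImplicit false
set_option linter.unusedSectionVars false

namespace Cfsg.Agent.P2R

open Finset Subgroup Cfsg.Agent.Local Cfsg.Agent.Small Cfsg.Agent.Char Cfsg.Agent.Zass Cfsg.Agent.M11
open scoped ComplexConjugate

theorem a4 {p e r D U : ℕ} {ε : ℤ} (hp : p.Prime) (hε : ε = 1 ∨ ε = -1) (hU : 1 ≤ U) (h2 : 2 ≤ e)
    (hr : 1 ≤ r) (h4 : e * (r + 1) + 1 < p) (h1 : (D : ℤ) + e * ε = p * U)
    (hd : D ∣ e * (r * p + 1)) (hle : D * D ≤ p * (e * (r * p + 1))) : False := by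
  have hw : p < e * (r * p + 1) := by nlinarith [Nat.mul_le_mul h2 (Nat.mul_le_mul_right p hr)]
  have h3 : D < e * (r * p + 1) := (Nat.le_of_dvd (by omega) hd).lt_of_ne fun h => by
    rw [h] at hle
    exact (Nat.le_of_mul_le_mul_right hle (by omega)).not_gt hw
  have hep : e < p := by nlinarith
  have hε2 : ε * ε = 1 := by rcases hε with rfl | rfl <;> rfl
  obtain ⟨c, hc⟩ := hd
  zify at h3 hc h4 hU h2 hr hep
  have hD : (0 : ℤ) < D := by rcases hε with rfl | rfl <;> nlinarith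
  have hZ : (0 : ℤ) < e * r + ε * U := by
    rcases hε with rfl | rfl
    · positivity
    · have : (p : ℤ) * U < p * (e * r) := by nlinarith
      have := lt_of_mul_lt_mul_left this (by positivity)
      omega
  obtain ⟨κ, hκ⟩ : ∃ κ : ℤ, e * (e * r + ε * U) = D * κ :=
    ⟨ε * (U * c - e * r), by linear_combination ε * U * hc + ε * e * r * h1 - e * e * r * hε2⟩
  have h5 : 0 < κ := pos_of_mul_pos_left (a := κ) (b := D) (by rw [mul_comm, ← hκ]; positivity) hD.le
  have h6 : κ * U * p = e * (e * r + ε * U + ε * κ) := by linear_combination -hκ - κ * h1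
  obtain ⟨l, hl⟩ : (e : ℤ) ∣ κ * U := (Nat.isCoprime_iff_coprime.2 ((Nat.coprime_of_lt_prime
    (by omega) (by omega) hp).symm)).dvd_of_dvd_mul_right ⟨_, h6⟩
  have h7 : 0 < l := pos_of_mul_pos_left (a := l) (b := e) (by rw [mul_comm, ← hl]; positivity) (by omega)
  have h8 : l * p = e * r + ε * U + ε * κ :=
    mul_left_cancel₀ (by omega : (e : ℤ) ≠ 0) (by rw [← h6, hl]; ring)
  have h9 : (U : ℤ) + κ ≤ e * l + 1 := by nlinarith
  have h10 : l * p ≤ e * r + e * l + 1 := by rcases hε with rfl | rfl <;> omega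
  nlinarith

theorem comb {ι : Type*} [Fintype ι] [DecidableEq ι] {p : ℕ} [hp : Fact p.Prime] {e : ℕ} {o : ι}
    {d : ι → ℕ} {a : ZMod p → ι → ℤ} {E : Finset (ZMod p)} (E0 : 0 ∉ E) (E1 : 1 ∈ E)
    (Einv : ∀ i ∈ E, i⁻¹ ∈ E) (Ecard : E.card = e)
    (gram : ∀ k l, k ≠ 0 → l ≠ 0 → ∑ χ, a k χ * a l χ = e + if k * l⁻¹ ∈ E then 1 else 0)
    (deg0 : ∀ k, ∑ χ, a k χ * d χ = 0) (ao : ∀ k, k ≠ 0 → a k o = 1) (a0 : ∀ χ, a 0 χ = 0)
    (dpos : ∀ χ, 0 < d χ) (h3 : e * (e + 2) + 1 ≤ p) :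
    ∃ (ψ : ι) (ε : ℤ), (ε = 1 ∨ ε = -1) ∧ ∑ k, a k ψ = e * ε ∧
      ∀ χ, d χ = d ψ ∨ ∀ k, k ≠ 0 → a k χ = a 1 χ := by
  have ne0 : ∀ {k}, k ∈ E → k ≠ 0 := fun hk e => E0 (e ▸ hk)
  have hcc : (insert 0 E)ᶜ.card + e + 1 = p := by
    have := card_add_card_compl (insert 0 E)
    rw [card_insert_of_notMem E0, ZMod.card, Ecard] at this
    omega
  have he0 : 0 < e := Ecard ▸ card_pos.2 ⟨1, E1⟩
  have eqo : ∀ k ∈ E, ∀ χ, a k χ = a 1 χ := fun k hk χ => by
    have h1 := gram k k (ne0 hk) (ne0 hk)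
    have h2 := gram k 1 (ne0 hk) one_ne_zero
    have h4 := gram 1 1 one_ne_zero one_ne_zero
    rw [mul_inv_cancel₀ (ne0 hk), if_pos E1] at h1
    rw [inv_one, mul_one, if_pos hk] at h2
    rw [inv_one, mul_one, if_pos E1] at h4
    have h5 : ∑ χ, (a k χ - a 1 χ) ^ 2 = 0 := by
      simp only [sub_sq, sum_add_distrib, sum_sub_distrib, mul_assoc, ← mul_sum]
      simp only [pow_two]
      linarith
    exact sub_eq_zero.1 (pow_eq_zero_iff two_ne_zero |>.1
      ((sum_eq_zero_iff_of_nonneg fun _ _ => sq_nonneg _).1 h5 χ (mem_univ _)))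
  obtain ⟨l₀, hl₀⟩ : ((insert 0 E)ᶜ).Nonempty := card_pos.1 (by nlinarith)
  have hL : ∀ l : ↥(insert 0 E)ᶜ, (l : ZMod p) ≠ 0 ∧ (l : ZMod p) ∉ E := fun l => by
    simpa using l.2
  have g1 := gram 1 1 one_ne_zero one_ne_zero
  rw [inv_one, mul_one, if_pos E1] at g1
  have g2 : ∀ m : ↥(insert 0 E)ᶜ, ∑ χ, a 1 χ * a m χ = e := fun m => by
    rw [gram 1 m one_ne_zero (hL m).1, one_mul, if_neg fun e => (hL m).2 (by simpa using Einv _ e),
      add_zero]
  have hw : ∀ l m : ↥(insert 0 E)ᶜ, ∑ χ, (a 1 χ - a l χ) * (a 1 χ - a m χ) =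
      1 + if (l : ZMod p) * (m : ZMod p)⁻¹ ∈ E then 1 else 0 := fun l m => by
    have h2 := g2 m
    have h3 := g2 l
    have h4 := gram l m (hL l).1 (hL m).1
    simp only [sub_mul, mul_sub, sum_sub_distrib, mul_comm (a l _) (a 1 _)]
    linarith
  obtain ⟨ψ, ε, ρ, hε, hρ⟩ := coh (⟨l₀, hl₀⟩ : ↥(insert 0 E)ᶜ)
    (w := fun l χ => a 1 χ - a l χ) dpos
    (fun l => by simp only [pow_two, hw, mul_inv_cancel₀ (hL l).1, if_pos E1]; rfl)
    (fun l => by simp only [sub_mul, sum_sub_distrib, deg0]; rfl)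
    (fun l m => by rw [hw]; split_ifs <;> omega)
  have hε2 : ε * ε = 1 := by rcases hε with rfl | rfl <;> rfl
  have hε0 : ε ≠ 0 := by rintro rfl; simp at hε2
  have hd : ∀ l, d (ρ l) = d ψ := fun l => by
    have h1 : ∑ χ, (a 1 χ - a l χ) * d χ = 0 := by
      simp only [sub_mul, sum_sub_distrib, deg0]; rfl
    simp only [(hρ l).2, mul_assoc, ← mul_sum, sum_pm] at h1
    exact_mod_cast (sub_eq_zero.1 ((mul_eq_zero.1 h1).resolve_left hε0)).symm
  have hx : ∀ l, a 1 (ρ l) = a 1 ψ - ε := fun l => by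
    have h1 : ∑ χ, (a 1 χ - a l χ) * a 1 χ = 1 := by
      simp only [sub_mul, sum_sub_distrib, mul_comm (a l _) (a 1 _), g1, g2]; ring
    simp only [(hρ l).2, mul_assoc, ← mul_sum, sum_pm] at h1
    linear_combination -ε * h1 + (a 1 ψ - a 1 (ρ l)) * hε2
  have hρρ : ∀ l m, ρ l = ρ m → (l : ZMod p) * (m : ZMod p)⁻¹ ∈ E := fun l m => by
    have h1 := hw l m
    simp only [(hρ l).2, mul_assoc, ← mul_sum, sum_pm] at h1
    rw [(hρ m).2, (hρ m).2, if_pos rfl, if_neg (hρ m).1, if_neg (hρ l).1.symm] at h1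
    have h2 : ∀ x y : ℤ, ε * (ε * x - ε * y) = x - y := fun x y => by
      linear_combination (x - y) * hε2
    rw [h2] at h1
    split_ifs at h1 <;> simp_all
  set R := univ.image ρ with hR
  have hRc : (insert 0 E)ᶜ.card ≤ e * R.card := by
    rw [← Fintype.card_coe, ← card_univ]
    refine card_le_mul_card_image _ _ fun x hx => ?_
    obtain ⟨m, -, rfl⟩ := mem_image.1 hx
    rw [← Ecard]
    exact card_le_card_of_injOn (fun l => (l : ZMod p) * (m : ZMod p)⁻¹)
      (fun l hl => hρρ l m (mem_filter.1 hl).2)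
      fun l _ l' _ e => Subtype.ext (mul_right_cancel₀ (inv_ne_zero (hL m).1) e)
  have hR1 : e + 1 ≤ R.card := Nat.le_of_mul_le_mul_left (by nlinarith) he0
  have hal : ∀ (l : ↥(insert 0 E)ᶜ) χ, a l χ =
      a 1 χ - ε * ((if χ = ψ then 1 else 0) - if χ = ρ l then 1 else 0) := fun l χ => by
    rw [← (hρ l).2]; ring
  have hoR : o ∉ R := fun h => by
    obtain ⟨m, -, h⟩ := mem_image.1 h
    have := hal m o
    rw [ao _ (hL m).1, ao _ one_ne_zero, if_neg (h ▸ (hρ m).1.symm), if_pos h.symm] at this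
    exact hε0 (by linarith)
  have h0 : a 1 ψ - ε = 0 := by
    have h1 : ∑ χ ∈ insert o R, a 1 χ * a 1 χ ≤ ∑ χ, a 1 χ * a 1 χ :=
      sum_le_sum_of_subset_of_nonneg (subset_univ _) fun _ _ _ => mul_self_nonneg _
    rw [sum_insert hoR, ao _ one_ne_zero, g1, sum_congr rfl (g := fun _ => (a 1 ψ - ε) * (a 1 ψ - ε))
      fun χ hχ => by obtain ⟨m, -, rfl⟩ := mem_image.1 hχ; rw [hx], sum_const, nsmul_eq_mul] at h1
    by_contra h
    have h2 : 1 ≤ (a 1 ψ - ε) * (a 1 ψ - ε) := mul_self_pos.2 h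
    zify at hR1
    nlinarith
  refine ⟨ψ, ε, hε, ?_, fun χ => ?_⟩
  · rw [← sum_add_sum_compl (insert 0 E), sum_insert E0, a0, sum_congr rfl fun k hk => eqo k hk ψ,
      sum_const, Ecard, ← sum_coe_sort (insert 0 E)ᶜ]
    simp only [hal, if_pos, if_neg (hρ _).1, sub_zero, mul_one, h0]
    simp [sub_eq_zero.1 h0]
  · by_cases h1 : χ = ψ
    · exact Or.inl (h1 ▸ rfl)
    by_cases h2 : ∃ l, χ = ρ l
    · obtain ⟨l, rfl⟩ := h2
      exact Or.inl (hd l)
    refine Or.inr fun k hk => ?_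
    by_cases h4 : k ∈ E
    · exact eqo k h4 χ
    · rw [hal ⟨k, by simp [hk, h4]⟩, if_neg h1, if_neg fun e => h2 ⟨_, e⟩]
      simp

variable {S : Type*} [Group S] [Finite S] {p w : ℕ} {y : S}

theorem Good.exc (h : Good p w y) {e r : ℕ}
    (he : Nat.card (normalizer (zpowers y : Set S)) = p * e) (hw : w = e * (r * p + 1))
    (hr : 1 ≤ r) (h2 : 2 ≤ e) (h3 : e * (e + 2) + 1 ≤ p) (h4 : e * (r + 1) + 1 < p) : False := by
  classical
  have := Fintype.ofFinite S
  have := Fact.mk h.pr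
  have h5 := h.h5
  have P : PP p y := ⟨by omega, h.ord, h.sq⟩
  have hp0 : (p : ℂ) ≠ 0 := Nat.cast_ne_zero.2 h.pr.ne_zero
  have hcc : cc y = p := by rw [cc, h.ceq, h.czp]
  have hE : (EE p y).card = e := Nat.eq_of_mul_eq_mul_left h.pr.pos (by rw [← he, ← P.card_norm, hcc])
  obtain ⟨ψ, φ, θ, H⟩ := P.exists_phi
  choose a ha using fun k (χ : IrrCharacter S) =>
    inner_gen_gen (H.gen k) (gen_of_char (irr_isCharacter χ.2))
  choose m hm using fun (χ : IrrCharacter S) k => char_param_mult (char_conj' (irr_isCharacter χ.2))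
    (fun i : ZMod p => y ^ i.val) P.add (fun i => ψ (i * k))
    (fun u v => by rw [add_mul, AddChar.map_add_eq_mul])
  simp only [ZMod.card] at hm
  have := Fintype.ofFinite P.npc.compl
  have hX : Nat.card P.npc.compl = 1 :=
    Nat.eq_of_mul_eq_mul_left h.pr.pos (by rw [← P.cc_eq, hcc, mul_one])
  have := (Nat.card_eq_one_iff_unique.1 hX).1
  have ham : ∀ χ k, a k χ = m χ 0 - m χ k := fun χ k => by
    have h1 := H.inner k (irr_isClassFunction χ.2)
    have h0 := hm χ 0
    simp only [mul_zero, AddChar.map_zero_eq_one, one_mul] at h0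
    simp only [Fintype.sum_subsingleton _ (1 : P.npc.compl), OneMemClass.coe_one, mul_one, ha, hcc,
      sub_mul, one_mul, sum_sub_distrib, h0, hm, ← mul_sub, inv_mul_cancel_left₀ hp0] at h1
    exact_mod_cast h1
  have hinv : ∀ (χ : IrrCharacter S) (j : ZMod p),
      conj (χ.1 (y ^ j.val)) = ∑ k, ψ (-j * k) * m χ k := fun χ j => by
    refine mul_left_cancel₀ hp0 ?_
    simp only [mul_sum, mul_left_comm (p : ℂ), ← hm]
    rw [sum_comm]
    have h6 : ∀ i : ZMod p, ∑ k, ψ (-j * k) * ψ (i * k) = if i = j then (p : ℂ) else 0 := fun i => by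
      simp only [← AddChar.map_add_eq_mul, ← add_mul, mul_comm (-j + i)]
      simpa [neg_add_eq_zero, eq_comm (a := j)] using AddChar.sum_mulShift (-j + i) H.prim
    simp only [← mul_assoc, ← sum_mul, h6]
    simp
  have hdeg : ∀ χ : IrrCharacter S, deg χ.1 = ∑ k, m χ k := fun χ => by
    have := hinv χ 0
    simp only [ZMod.val_zero, pow_zero, irr_deg χ.2, map_natCast, neg_zero, zero_mul,
      AddChar.map_zero_eq_one, one_mul] at this
    exact_mod_cast this
  obtain ⟨χ, ε, hε, h6, h7⟩ := comb (o := (⟨1, irr_one⟩ : IrrCharacter S)) (d := fun χ => deg χ.1)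
    (a := a) P.E0 P.E1 P.Einv hE (fun k l hk hl => by
      have := H.gram hk hl
      rw [inner_eq_sum_irr (gen_isClassFunction (H.gen k)), hE] at this
      simp only [ha, map_intCast] at this
      exact_mod_cast this) (fun k => by
      have := H.reg k (g := 1) (by simp)
      simp only [H.apply ha, fun χ : IrrCharacter S => irr_deg χ.2] at this
      exact_mod_cast this) (fun k hk => by
      have := H.coef irr_one k
      rw [if_pos (Block.one_inB0 p S), ha k ⟨1, irr_one⟩] at this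
      simp only [Pi.one_apply, map_one, mul_one, sum_sub_distrib, AddChar.sum_mulShift _ H.prim,
        if_neg hk, sum_const, card_univ, ZMod.card, nsmul_eq_mul, Nat.cast_zero, sub_zero] at this
      exact_mod_cast (mul_eq_left₀ hp0).1 this) (fun χ => by rw [ham, sub_self])
    (fun χ => irr_deg_pos χ.2) h3
  have h8 : (deg χ.1 : ℤ) + e * ε = p * m χ 0 := by
    rw [← h6, hdeg]
    simp [ham]
  rcases Nat.eq_zero_or_pos (m χ 0) with h0 | h0
  · have h9 : deg χ.1 = e := by
      have := irr_deg_pos χ.2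
      rw [h0] at h8
      rcases hε with rfl | rfl <;> omega
    have hc := char_mul (irr_isCharacter χ.2) (char_conj' (irr_isCharacter χ.2))
    choose n hn using fun η : IrrCharacter S => inner_char_char hc (irr_isCharacter η.2)
    have h10 := classFun_apply (char_isClassFunction hc) 1
    simp only [hn, Pi.mul_apply, fun η : IrrCharacter S => irr_deg η.2, map_natCast, h9] at h10
    replace h10 : e * e = ∑ η, n η * deg η.1 := by exact_mod_cast h10
    have h11 : n ⟨1, irr_one⟩ = 1 := by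
      have := hn ⟨1, irr_one⟩
      rw [inner_mul_left] at this
      simp only [Complex.conj_conj, Pi.one_apply, mul_one] at this
      exact_mod_cast this.symm.trans (inner_irr_self χ.2)
    have h12 : ∀ η ∈ univ.erase (⟨1, irr_one⟩ : IrrCharacter S), e ∣ n η * deg η.1 := fun η hη => by
      rcases Nat.eq_zero_or_pos (n η) with h13 | h13
      · simp [h13]
      rcases h7 η with h14 | h14
      · exact (h9 ▸ h14.symm.dvd).mul_left _
      have h15 : deg η.1 ≤ e * e := h10 ▸ (Nat.le_mul_of_pos_left _ h13).trans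
        (single_le_sum (f := fun η : IrrCharacter S => n η * deg η.1) (fun _ _ => Nat.zero_le _)
          (mem_univ η))
      have h16 : ∀ k, k ≠ 0 → m η k = m η 1 := fun k hk => by
        have := h14 k hk
        rw [ham, ham] at this
        omega
      have h17 : m η 1 = 0 := by
        have h18 := hdeg η
        rw [← add_sum_erase _ _ (mem_univ 0), sum_congr rfl fun k hk => h16 k (ne_of_mem_erase hk),
          sum_const, card_erase_of_mem (mem_univ _), card_univ, ZMod.card, smul_eq_mul] at h18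
        by_contra h19
        have := Nat.mul_le_mul_left (p - 1) (Nat.one_le_iff_ne_zero.2 h19)
        have : e * e + 2 * e + 1 ≤ p := by nlinarith
        omega
      obtain ⟨K, hK, h18, -⟩ := char_exists_ker (irr_isCharacter η.2)
      have h19 : y ∈ K := (h18 y).2 (by
        have h20 := hinv η 1
        have h21 := hinv η 0
        rw [sum_eq_single 0 (fun k _ hk => by simp [h16 k hk, h17]) (by simp)] at h20 h21
        rw [mul_zero] at h20 h21
        rw [P.one', ← h21, ZMod.val_zero, pow_zero] at h20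
        exact (starRingEnd ℂ).injective h20)
      exact absurd (Subtype.ext (eq_one_of_inKer_top η.2 fun g _ =>
        (h18 g).1 (h.eq_top h19 ▸ mem_top g))) (ne_of_mem_erase hη)
    rw [← add_sum_erase _ _ (mem_univ ⟨1, irr_one⟩), h11, deg_one] at h10
    have := (Nat.dvd_add_left (dvd_sum h12)).1 (h10 ▸ dvd_mul_right e e)
    have := Nat.le_of_dvd (by simp) this
    omega
  · have h9 : ¬ p ∣ deg χ.1 := fun h10 => by
      have h11 : (p : ℤ) ∣ e * ε := (dvd_add_right (Int.natCast_dvd_natCast.2 h10)).1 ⟨_, h8⟩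
      have h12 : p ∣ e := by rcases hε with rfl | rfl <;> simpa [Int.natCast_dvd_natCast] using h11
      have := Nat.le_of_dvd (by omega) h12
      nlinarith
    refine a4 h.pr hε h0 h2 hr h4 h8 (hw ▸ ((h.pr.coprime_iff_not_dvd).2 h9).symm.dvd_of_dvd_mul_left
      (h.card ▸ deg_dvd_card χ.2)) ?_
    rw [← hw, ← h.card, ← sum_deg]
    exact single_le_sum (f := fun η : IrrCharacter S => deg η.1 * deg η.1) (fun _ _ => Nat.zero_le _)
      (mem_univ χ)

theorem Good.cls (h : Good p w y) (hw : 2 * w ^ 2 ≤ p ^ 4 - 1) :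
    (normalizer (zpowers y : Set S)).index = p + 1 ∧
    ((w = p + 1 ∧ (∃ j, p + 1 = 2 ^ j) ∧ ∃ V : Subgroup S, V.Normal ∧ Nat.card V = p + 1) ∨
      2 * w = p ^ 2 - 1) := by
  obtain ⟨e, r, h1, h2, h3, h4, h5⟩ := h.data
  have h0 : e ≠ 0 := by
    rintro rfl
    exact Nat.card_pos.ne' h1
  rcases Nat.lt_or_ge e 2 with he | he
  · obtain rfl : e = 1 := by omega
    have := h.one (by rwa [mul_one] at h1)
    exact ⟨by rw [h3, ← this.1, h4, one_mul], Or.inl this⟩
  rcases Nat.lt_or_ge r 2 with hr | hr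
  · obtain rfl : r = 1 := by omega
    rw [one_mul] at h3 h4
    exact ⟨h3, Or.inr (h.zass h1 he h4)⟩
  · obtain ⟨h6, h7⟩ := a3 h.pr h.h5 he h2 hr (h4 ▸ h.four_dvd) (h4 ▸ h.dvd) (h4 ▸ hw)
    exact (h.exc h1 h4 h5 he h7 h6).elim

theorem Pre.cls (h : Pre p w y) (hw : 2 * w ^ 2 ≤ p ^ 4 - 1) :
    (normalizer (zpowers y : Set S)).index = p + 1 ∧
    (((∃ j, p + 1 = 2 ^ j) ∧ ∃ V : Subgroup S, V.Normal ∧ Nat.card V = p + 1) ∨
      2 * Nat.card (normalClosure ({y} : Set S)) = p * (p ^ 2 - 1)) := by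
  have := Fact.mk h.pr
  obtain ⟨w', h1, h2⟩ := h.good
  have hw0 : 0 < w := Nat.pos_of_ne_zero fun e => h.nd (e ▸ dvd_zero p)
  obtain ⟨h3, h4⟩ := h2.cls ((Nat.mul_le_mul_left 2
    (Nat.pow_le_pow_left (Nat.le_of_dvd hw0 h1) 2)).trans hw)
  set N := normalClosure ({y} : Set S)
  have hy : y ∈ N := subset_normalClosure rfl
  have hS := h.syl.of_le (zpowers_le_of_mem hy) le_top
  refine ⟨?_, h4.imp (fun ⟨h5, h6, V, hV, h7⟩ => ⟨h6, V.map N.subtype, ?_, ?_⟩) fun h5 => ?_⟩
  · have h5 : N ⊔ normalizer (zpowers y : Set S) = ⊤ := eq_top_iff.2 fun g _ => by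
      obtain ⟨n, hn, h2⟩ := hS.frattini (le_normalizer_of_normal' ⊤ N (mem_top g))
      simpa using mul_mem (mem_sup_left hn) (mem_sup_right h2)
    have h6 := card_sup_mul_card_inf (le_normalizer_of_normal' (normalizer (zpowers y : Set S)) N)
    have h7 : zpowers (⟨y, hy⟩ : N) = (zpowers y).subgroupOf N := by
      ext g
      simp [mem_subgroupOf, mem_zpowers_iff, Subtype.ext_iff]
    rw [h5, Subgroup.card_top, ← (normalizer (zpowers y : Set S)).card_mul_index, inf_comm,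
      ← card_inf_mul_relIndex (normalizer (zpowers y : Set S)) N, mul_comm, mul_comm _ (index _),
      ← mul_assoc] at h6
    rw [Nat.eq_of_mul_eq_mul_left Nat.card_pos (Nat.eq_of_mul_eq_mul_right Nat.card_pos h6), relIndex,
      subgroupOf_normalizer_eq hS.le, ← h7]
    exact h3
  · rw [h2.card, mul_left_comm, h5]
  · obtain ⟨j, hj⟩ := h6
    have h8 := V.card_mul_index
    rw [h2.card, h7, h5, mul_comm p] at h8
    have h9 : IsSylowIn 2 (V.map N.subtype) N := ⟨map_subtype_le V,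
      IsPGroup.of_card (by rw [Subgroup.card_subtype, h7, hj]), by
        rw [relIndex, subgroupOf, comap_map_eq_self_of_injective N.subtype_injective,
          Nat.eq_of_mul_eq_mul_left p.succ_pos h8]
        have := odd_of h.pr h.h5
        omega⟩
    refine normal_of_forall_mem_normalizer fun g => h9.normalizer_le (fun n hn => ?_)
      (le_normalizer_of_normal' ⊤ N (mem_top g))
    refine mem_normalizer_of_conj_mem ?_
    rintro _ ⟨v, hv, rfl⟩
    exact ⟨_, hV.conj_mem v hv ⟨n, hn⟩, rfl⟩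
  · rw [Subgroup.card_subtype, h7]

end Cfsg.Agent.P2R
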