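import Cfsg.Agent.P2R.Arith
import Cfsg.Agent.Small.B0b
import Cfsg.Agent.Zass.Main
import Cfsg.Agent.FT.Final
import Cfsg.Agent.PSL2Rec.TwoFix

/-!
# Self-centralising elements of order `p`: elementary facts
-/

set_option autoImplicit false
set_option linter.unusedSectionVars false

namespace Cfsg.Agent.P2R

open Subgroup Cfsg.Agent.Local Cfsg.Agent.PSL2Rec MulAction

variable {S : Type*} [Group S] [Finite S] {p w : ℕ} {y : S}

/-- an element of odd order lies in every subgroup of index two -/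
theorem mem_of_index_two {M : Subgroup S} (hM : M.index = 2) {x : S} (hx : orderOf x % 2 = 1) :
    x ∈ M := by
  have h1 : x ^ 2 ∈ M := sq_mem_of_index_two hM x
  have h2 : x = (x ^ 2) ^ (orderOf x / 2 + 1) := by
    rw [← pow_mul, show 2 * (orderOf x / 2 + 1) = orderOf x + 1 by omega, pow_succ,
      pow_orderOf_eq_one, one_mul]
  exact h2 ▸ pow_mem h1 _

theorem exists_index_two {T : Type*} [Group T] [Finite T] (h2 : Nat.card T % 4 = 2) :
    ∃ M : Subgroup T, M.index = 2 := by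
  obtain ⟨P⟩ : Nonempty (Sylow 2 T) := inferInstance
  refine exists_index_two_of_cyclic_sylow (by omega) P (isCyclic_of_prime_card (p := 2) ?_)
  have h1 : ¬ 2 ^ 2 ∣ Nat.card T := by omega
  have h3 : (Nat.card T).factorization 2 = 1 := by
    have h4 := (Nat.prime_two.pow_dvd_iff_le_factorization (Nat.card_pos (α := T)).ne' (k := 1)).1
      (by omega)
    have h5 := (Nat.prime_two.pow_dvd_iff_le_factorization (Nat.card_pos (α := T)).ne' (k := 2)).not.1 h1
    omega
  rw [P.card_eq_multiplicity, h3, pow_one]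

namespace Pre

variable (h : Pre p w y)
include h

omit [Finite S] in
theorem nd : ¬ p ∣ w := not_dvd_of_dvd h.pr h.dvd

omit [Finite S] in
theorem czp : Nat.card (zpowers y) = p := by rw [Nat.card_zpowers, h.ord]

omit [Finite S] in
theorem sq : ¬ p * p ∣ Nat.card S := fun e =>
  h.nd (Nat.dvd_of_mul_dvd_mul_left h.pr.pos (h.card ▸ e))

omit [Finite S] in
theorem syl : IsSylowIn p (zpowers y) ⊤ := ⟨le_top, isPGroup_zpowers_of_orderOf_eq h.ord, by
  have := (zpowers y).card_mul_index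
  rw [h.czp, h.card] at this
  rw [relIndex_top_right, Nat.eq_of_mul_eq_mul_left h.pr.pos this]
  exact h.nd⟩

omit [Finite S] in
theorem ceq : centralizer {y} = zpowers y := le_antisymm
  (fun g hg => h.cen g (mem_centralizer_singleton_iff.1 hg))
  (zpowers_le_of_mem (mem_centralizer_singleton_iff.2 rfl))

theorem inf_bot {K : Subgroup S} (hK : ¬ p ∣ Nat.card K) : K ⊓ zpowers y = ⊥ :=
  eq_bot_iff.2 fun _ hg => eq_one_of_mem_of_coprime
    (h.czp ▸ ((h.pr.coprime_iff_not_dvd).2 hK).symm) hg.1 hg.2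

theorem fpf {K : Subgroup S} (hK : ¬ p ∣ Nat.card K) (hy : y ∈ normalizer (K : Set S)) :
    Nat.card K ≡ 1 [MOD p] := by
  have := Small.card_modEq_cent h.pr h.ord hy
  rwa [h.ceq, h.inf_bot hK, card_bot] at this

theorem dvd_w {K : Subgroup S} (hK : ¬ p ∣ Nat.card K) : Nat.card K ∣ w :=
  ((h.pr.coprime_iff_not_dvd).2 hK).symm.dvd_of_dvd_mul_left (h.card ▸ card_subgroup_dvd_card K)

theorem rgrp {r : ℕ} (hr : r.Prime) (hrp : r ≠ p) {T : Subgroup S} (hT : IsPGroup r T) (h0 : T ≠ ⊥)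
    (hy : y ∈ normalizer (T : Set S)) : r = 2 ∧ Nat.card T = p + 1 := by
  have := Fact.mk hr
  obtain ⟨i, hi⟩ := hT.exists_card_eq
  have h1 : ¬ p ∣ Nat.card T := fun e =>
    hrp ((Nat.prime_dvd_prime_iff_eq h.pr hr).1 (h.pr.dvd_of_dvd_pow (hi ▸ e))).symm
  rw [hi]
  exact a2 h.pr h.h5 hr (fun e => h0 (card_eq_one.1 (by rw [hi, e, pow_zero]))) (hi ▸ h.fpf h1 hy)
    ((Nat.mul_dvd_mul_left 2 (hi ▸ h.dvd_w h1)).trans h.dvd)

theorem inv {K : Subgroup S} (hK : ¬ p ∣ Nat.card K) (h0 : K ≠ ⊥) (hy : y ∈ normalizer (K : Set S)) :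
    Nat.card K = p + 1 ∧ ∃ j, p + 1 = 2 ^ j := by
  have hex : ∀ r : ℕ, r.Prime → r ∣ Nat.card K → r = 2 ∧ ∃ T, IsSylowIn r T K ∧ Nat.card T = p + 1 :=
    fun r hr hd => by
      have := Fact.mk hr
      obtain ⟨T, h1, h2⟩ := exists_invariant_isSylowIn (zpowers_le_of_mem hy)
        (h.czp ▸ (h.pr.coprime_iff_not_dvd).2 hK) (Or.inl (isSolvable_zpowers y)) r
      have h3 := h.rgrp hr (fun e => hK (e ▸ hd)) h1.isPGroup (h1.ne_bot hd) (h2 (mem_zpowers y))
      exact ⟨h3.1, T, h1, h3.2⟩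
  obtain ⟨r, hr, hd⟩ := Nat.exists_prime_and_dvd (card_eq_one.not.2 h0)
  obtain ⟨rfl, T, h1, h2⟩ := hex r hr hd
  obtain ⟨j, hj⟩ := h1.isPGroup.exists_card_eq
  refine ⟨?_, j, h2 ▸ hj⟩
  have h3 : T.relIndex K = 1 := by
    by_contra e
    obtain ⟨r, hr, hd⟩ := Nat.exists_prime_and_dvd e
    exact h1.not_dvd ((hex r hr (hd.trans (relIndex_dvd_card T K))).1 ▸ hd)
  rw [← card_mul_relIndex h1.le, h3, h2, mul_one]

theorem data : ∃ e r, Nat.card (normalizer (zpowers y : Set S)) = p * e ∧ e ∣ p - 1 ∧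
    (normalizer (zpowers y : Set S)).index = r * p + 1 ∧ w = e * (r * p + 1) ∧ 1 ≤ r := by
  have := Fact.mk h.pr
  obtain ⟨P, hP⟩ := h.syl.exists_sylow_of_top
  have key := card_dvd_of_injective _
    (QuotientGroup.kerLift_injective (P : Subgroup S).normalizerMonoidHom)
  have : IsCyclic (P : Subgroup S) := hP ▸ isCyclic_zpowers y
  rw [normalizerMonoidHom_ker, ← index, ← relIndex, IsCyclic.card_mulAut, hP, h.czp,
    Nat.totient_prime h.pr, Wong.centralizer_zpowers, h.ceq] at key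
  have h1 := card_mul_relIndex (le_normalizer (H := zpowers y))
  have h2 := card_sylow_modEq_one p S
  rw [P.card_eq_index_normalizer, Nat.ModEq, Nat.mod_eq_of_lt h.pr.one_lt] at h2
  change (normalizer ((P : Subgroup S) : Set S)).index % p = 1 at h2
  rw [hP] at h2
  have h3 := Nat.div_add_mod' (normalizer (zpowers y : Set S)).index p
  have h4 := (normalizer (zpowers y : Set S)).card_mul_index
  rw [h2] at h3
  rw [h.czp] at h1
  refine ⟨_, _, h1.symm, key, h3.symm, ?_, Nat.pos_of_ne_zero fun e => h.nn ?_⟩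
  · rw [h3]
    exact Nat.eq_of_mul_eq_mul_left h.pr.pos (by rw [← h.card, ← h4, ← h1, mul_assoc])
  · rw [e, zero_mul, zero_add, eq_comm, index_eq_one] at h3
    exact normalizer_eq_top_iff.1 h3

theorem mem_normal {N : Subgroup S} [hN : N.Normal] (hd : p ∣ Nat.card N) : y ∈ N := by
  have := Fact.mk h.pr
  have h1 := h.syl.inf_of_le_normalizer le_top (le_normalizer_of_normal' _ N)
  obtain ⟨x, hx, h2⟩ := exists_mem_orderOf_eq_of_dvd_card h.pr (h1.dvd_card_iff.2 hd)
  have h3 : zpowers x = zpowers y := eq_of_le_of_card_ge (zpowers_le_of_mem hx.1)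
    (by rw [h.czp, Nat.card_zpowers, h2])
  exact zpowers_le_of_mem hx.2 (h3 ▸ mem_zpowers y)

end Pre

namespace Good

variable (h : Good p w y)
include h

omit [Finite S] in
theorem eq_top {N : Subgroup S} [N.Normal] (hy : y ∈ N) : N = ⊤ :=
  eq_top_iff.2 (h.gen ▸ normalClosure_le_normal (by simpa using hy))

theorem no_two (M : Subgroup S) : M.index ≠ 2 := fun e => by
  have := M.normal_of_index_eq_two e
  rw [h.eq_top (mem_of_index_two e (h.ord ▸ odd_of h.pr h.h5)), index_top] at e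
  omega

theorem four_dvd : 4 ∣ w := by
  have ho := odd_of h.pr h.h5
  have h1 : w % 2 = 0 := by
    by_contra e
    have hs := FT.oddOrder S (h.card ▸ (Nat.odd_iff.2 ho).mul (Nat.odd_iff.2 (by omega)))
    have : Nontrivial S := ⟨y, 1, ne_one_of_orderOf_eq_prime h.pr h.ord⟩
    refine fittingSubgroup_ne_bot hs (eq_bot_iff.2 (fittingSubgroup_le_of_forall_pCore_le
      fun r hr hd => le_of_eq (by_contra fun h0 => ?_)))
    have := Fact.mk hr
    by_cases hrp : r = p
    · subst hrp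
      have h2 := pCore_le_sylow h.syl
      have h3 := ((isPGroup_pCore (G := S) r).card_eq_or_dvd).resolve_left (card_eq_one.not.2 h0)
      exact h.nn (le_antisymm h2 (zpowers_le_of_mem (h.mem_normal h3)) ▸ inferInstance)
    · rw [(h.rgrp hr hrp (isPGroup_pCore r) h0 (le_normalizer_of_normal' ⊤ _ trivial)).1, h.card] at hd
      have := (Nat.odd_iff.2 ho).mul (Nat.odd_iff.2 (by omega : w % 2 = 1))
      rw [Nat.odd_iff] at this
      omega
  by_contra e
  obtain ⟨k, hk⟩ : ∃ k, w = 2 * (2 * k + 1) := ⟨w / 4, by omega⟩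
  obtain ⟨M, hM⟩ := exists_index_two (T := S) (by
    obtain ⟨q, hq⟩ : ∃ q, p = 2 * q + 1 := ⟨p / 2, by omega⟩
    rw [h.card, hk, hq, show (2 * q + 1) * (2 * (2 * k + 1)) = 4 * (2 * q * k + q + k) + 2 by ring]
    omega)
  exact h.no_two M hM

theorem one (he : Nat.card (normalizer (zpowers y : Set S)) = p) :
    w = p + 1 ∧ (∃ j, p + 1 = 2 ^ j) ∧ ∃ V : Subgroup S, V.Normal ∧ Nat.card V = p + 1 := by
  have := Fact.mk h.pr
  obtain ⟨P, hP⟩ := h.syl.exists_sylow_of_top
  have h1 : normalizer ((P : Subgroup S) : Set S) ≤ centralizer ((P : Subgroup S) : Set S) := by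
    rw [hP, Wong.centralizer_zpowers, h.ceq]
    exact (eq_of_le_of_card_ge le_normalizer (by rw [he, h.czp])).ge
  have hc := (MonoidHom.ker_transferSylow_isComplement' P h1).card_mul_card
  rw [show Nat.card (P : Subgroup S) = p by rw [hP, h.czp], h.card, mul_comm] at hc
  replace hc := Nat.eq_of_mul_eq_mul_left h.pr.pos hc
  have h2 := h.inv (hc ▸ h.nd) (fun e => ?_) (le_normalizer_of_normal' ⊤ _ trivial)
  · exact ⟨hc ▸ h2.1, h2.2, _, inferInstance, h2.1⟩
  · have := h.four_dvd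
    rw [← hc, e, card_bot] at this
    omega

theorem simple {e : ℕ} (he : Nat.card (normalizer (zpowers y : Set S)) = p * e) (h2 : 2 ≤ e)
    (hw : w = e * (p + 1)) : IsSimpleGroup S := by
  have : Nontrivial S := ⟨y, 1, ne_one_of_orderOf_eq_prime h.pr h.ord⟩
  refine ⟨fun N hN => or_iff_not_imp_left.2 fun h0 => ?_⟩
  by_cases hd : p ∣ Nat.card N
  · exact h.eq_top (h.mem_normal hd)
  exfalso
  have h1 := (h.inv hd h0 (le_normalizer_of_normal' ⊤ _ trivial)).1
  have h3 : Disjoint N (normalizer (zpowers y : Set S)) := disjoint_def.2 fun {g} hg hg' => by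
    have h4 : g * y * g⁻¹ * y⁻¹ ∈ N ⊓ zpowers y := ⟨by
      simpa [mul_assoc] using N.mul_mem hg (hN.conj_mem _ (N.inv_mem hg) y),
      (zpowers y).mul_mem (conj_mem_of_mem_normalizer hg' (mem_zpowers y))
        ((zpowers y).inv_mem (mem_zpowers y))⟩
    rw [h.inf_bot hd, mem_bot, mul_inv_eq_one, mul_inv_eq_iff_eq_mul] at h4
    exact mem_bot.1 (h.inf_bot hd ▸ mem_inf.2 ⟨hg, h.cen g h4⟩)
  have h4 : N ⊔ normalizer (zpowers y : Set S) = ⊤ := eq_top_of_card_eq _ (by
    rw [card_sup_of_disjoint (le_normalizer_of_normal' _ N) h3, h1, he, h.card, hw]; ring)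
  have h5 : N ⊔ zpowers y = ⊤ := eq_top_iff.2 (h.gen ▸ (closure_le _).2 fun x hx => by
    obtain ⟨_, hy, hx'⟩ := Group.mem_conjugatesOfSet_iff.1 hx
    obtain ⟨g, rfl⟩ := isConj_iff.1 (hy ▸ hx' : IsConj y x)
    obtain ⟨n, hn, a, ha, rfl⟩ := (mem_sup_of_right_le_normalizer (le_normalizer_of_normal' _ N)).1
      (h4 ▸ mem_top g)
    have := mul_mem (mul_mem (mem_sup_left hn)
      (mem_sup_right (conj_mem_of_mem_normalizer ha (mem_zpowers y)))) (inv_mem (mem_sup_left hn))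
    simpa [mul_assoc] using this)
  have h6 := card_sup_of_disjoint (le_normalizer_of_normal' (zpowers y) N) (h3.mono_right le_normalizer)
  rw [h5, card_top, h.card, h1, h.czp, hw, mul_comm, mul_comm e] at h6
  have := Nat.eq_of_mul_eq_mul_right h.pr.pos h6
  nlinarith

theorem zass {e : ℕ} (he : Nat.card (normalizer (zpowers y : Set S)) = p * e) (h2 : 2 ≤ e)
    (hw : w = e * (p + 1)) : 2 * w = p ^ 2 - 1 := by
  have := Fact.mk h.pr
  have := h.simple he h2 hw
  obtain ⟨P, hP⟩ := h.syl.exists_sylow_of_top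
  have hPc : Nat.card (P : Subgroup S) = p := by rw [hP, h.czp]
  have hB : ∀ r : ℕ, r.Prime → r ≠ p → ∀ x : S, orderOf x ≠ p * r := fun r hr hrp x hx => by
    have h1 : orderOf (x ^ r) = p := by
      rw [orderOf_pow' x hr.ne_zero, hx, Nat.gcd_eq_right (dvd_mul_left r p), Nat.mul_div_cancel _ hr.pos]
    obtain ⟨g, -, hg⟩ := h.syl.exists_le_conj (isPGroup_zpowers_of_orderOf_eq h1) le_top
    have h3 : g⁻¹ * x ^ r * g ∈ zpowers y := by
      simpa [-map_pow, -smul_pow'] using mem_pointwise_smul_iff_inv_smul_mem.1 (hg (mem_zpowers _))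
    have h4 : zpowers (g⁻¹ * x ^ r * g) = zpowers y := eq_of_le_of_card_ge (zpowers_le_of_mem h3) (by
      rw [h.czp, Nat.card_zpowers, ← h1]
      exact ((MulAut.conj g⁻¹).orderOf_eq (x ^ r)).ge.trans_eq (by simp))
    obtain ⟨k, hk⟩ := h4 ▸ mem_zpowers y
    have h5 := orderOf_dvd_card_of_mem (h.cen (g⁻¹ * x * g) (hk ▸ Commute.zpow_right (by
      have := ((Commute.refl x).pow_right r).map (MulAut.conj g⁻¹)
      simpa using this) k))
    have h6 : orderOf (g⁻¹ * x * g) = p * r := hx ▸ (by simpa using (MulAut.conj g⁻¹).orderOf_eq x)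
    rw [h6, h.czp] at h5
    have := Nat.le_of_dvd h.pr.pos h5
    nlinarith [hr.two_le, h.pr.pos]
  have hcs : ∀ Q : Sylow p S, Nat.card Q = p := fun Q => (Nat.card_congr (Q.equiv P).toEquiv).trans hPc
  have hti := sylowTI_of_comm hB fun Q => (isCyclic_of_prime_card (hcs Q)).isMulCommutative
  have hn : Nat.card (Sylow p S) = p + 1 := by
    have h1 := (normalizer (zpowers y : Set S)).card_mul_index
    rw [he, h.card, hw, mul_assoc] at h1
    rw [P.card_eq_index_normalizer]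
    change (normalizer ((P : Subgroup S) : Set S)).index = _
    rw [hP]
    exact Nat.eq_of_mul_eq_mul_left (by omega) (Nat.eq_of_mul_eq_mul_left h.pr.pos h1)
  obtain ⟨Q, v, hz⟩ := hti.exists_zdata hB P (by rw [hn, hPc])
  have h3 := hz.card_eq
  rw [h.card, hw, show Nat.card (P : Subgroup S) = p from hPc, mul_assoc] at h3
  replace h3 := Nat.eq_of_mul_eq_mul_right p.succ_pos (Nat.eq_of_mul_eq_mul_left h.pr.pos h3)
  obtain ⟨k, hk, hk1⟩ := (stabilizer S P ⊓ stabilizer S Q).bot_or_exists_ne_one.resolve_left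
    (card_eq_one.not.1 (by omega))
  have : Nontrivial {R : Sylow p S // R ≠ P} := by
    classical
    have := Fintype.ofFinite (Sylow p S)
    rw [← Fintype.one_lt_card_iff_nontrivial, Fintype.card_subtype_compl, Fintype.card_subtype_eq,
      ← Nat.card_eq_fintype_card, hn]
    exact h.pr.one_lt
  obtain ⟨R, hR⟩ := exists_ne (⟨Q, hz.ne.symm⟩ : {R : Sylow p S // R ≠ P})
  have hZ : IsZassenhausGroup S (Sylow p S) := by
    refine ⟨⟨fun {a b} e => ?_⟩, is_two_pretransitive_iff.2 fun {a b c d} h1 h4 => ?_, hz.noThree,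
      ⟨k, hk1, P, Q, hz.ne, hk.1, hk.2⟩, fun N hN ht => ⟨P, fun e => ?_⟩⟩
    · exact mul_inv_eq_one.1 (hz.three _ R.1 R.2 (fun e => hR (Subtype.ext e))
        (by rw [mul_smul, e, smul_inv_smul]) (by rw [mul_smul, e, smul_inv_smul])
        (by rw [mul_smul, e, smul_inv_smul]))
    · obtain ⟨g, rfl, rfl⟩ := hz.exists_pair h1
      obtain ⟨g', rfl, rfl⟩ := hz.exists_pair h4
      exact ⟨g' * g⁻¹, by simp [mul_smul], by simp [mul_smul]⟩
    · rcases hN.eq_bot_or_eq_top with rfl | rfl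
      · obtain ⟨⟨n, hn⟩, e'⟩ := exists_smul_eq (⊥ : Subgroup S) P Q
        obtain rfl := mem_bot.1 hn
        exact hz.ne ((one_smul S P).symm.trans e')
      · have h1 : (⟨k, trivial⟩ : (⊤ : Subgroup S)) ∈ stabilizer (⊤ : Subgroup S) P := hk.1
        rw [e, mem_bot] at h1
        exact hk1 (congrArg Subtype.val h1)
  rcases Zass.simple_zass hZ with ⟨F, _, _, h4, ⟨φ⟩⟩ | ⟨j, -, h4, -⟩
  · have h5 := card_psl2 (F := F)
    have ho := odd_of h.pr h.h5
    rw [hn, Nat.add_right_cancel_iff] at h4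
    rw [← Nat.card_congr φ.toEquiv, h4, h.card, Nat.gcd_eq_left (by omega), mul_left_comm, mul_assoc,
      ← fac2 p h.pr.pos] at h5
    exact Nat.eq_of_mul_eq_mul_left h.pr.pos h5
  · rw [hn, Nat.add_right_cancel_iff] at h4
    have := h.pr.eq_one_or_self_of_dvd 2 (h4 ▸ (dvd_pow_self 2 (by omega)).pow (by omega))
    have := h.h5
    omega

end Good

/-- the normal closure -/
theorem Pre.good (h : Pre p w y) : ∃ w', w' ∣ w ∧
    Good p w' (⟨y, subset_normalClosure rfl⟩ : normalClosure ({y} : Set S)) := by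
  have := Fact.mk h.pr
  set N := normalClosure ({y} : Set S)
  have hy : y ∈ N := subset_normalClosure rfl
  obtain ⟨w', hw⟩ : p ∣ Nat.card N := h.ord ▸ orderOf_dvd_card_of_mem hy
  have h1 : w' ∣ w := Nat.dvd_of_mul_dvd_mul_left h.pr.pos (hw ▸ h.card ▸ card_subgroup_dvd_card N)
  have hS := h.syl.of_le (zpowers_le_of_mem hy) le_top
  have key : ∀ g : S, ∃ n ∈ N, ∃ k : ℤ, g * y * g⁻¹ = n * y ^ k * n⁻¹ := fun g => by
    obtain ⟨n, hn, h2⟩ := hS.frattini (le_normalizer_of_normal' ⊤ N (mem_top g))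
    obtain ⟨k, hk⟩ := conj_mem_of_mem_normalizer h2 (mem_zpowers y)
    exact ⟨n, hn, k, by simp only at hk; rw [hk]; group⟩
  refine ⟨w', h1, ⟨h.pr, h.h5, (orderOf_mk _ _).trans h.ord, fun g hg => ?_, fun e => h.nn ?_, hw,
    (Nat.mul_dvd_mul_left 2 h1).trans h.dvd⟩, eq_top_iff.2 fun x _ => ?_⟩
  · obtain ⟨k, hk⟩ := h.cen g (congrArg Subtype.val hg)
    exact ⟨k, Subtype.ext hk⟩
  · refine normal_of_forall_mem_normalizer fun g => mem_normalizer_of_conj_mem ?_
    rintro _ ⟨i, rfl⟩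
    obtain ⟨n, hn, k, hk⟩ := key g
    obtain ⟨l, hl⟩ := e.conj_mem _ (zpow_mem (mem_zpowers _) k) ⟨n, hn⟩
    simp only [← conj_zpow, hk]
    exact zpow_mem (mem_zpowers_iff.2 ⟨l, by simpa using congrArg Subtype.val hl⟩) i
  · have h2 : N ≤ (normalClosure {(⟨y, hy⟩ : N)}).map N.subtype := by
      refine (closure_le (k := Group.conjugatesOfSet {y}) _).2 fun x hx => ?_
      obtain ⟨_, hy', hx'⟩ := Group.mem_conjugatesOfSet_iff.1 hx
      obtain ⟨g, rfl⟩ := isConj_iff.1 (hy' ▸ hx' : IsConj y x)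
      obtain ⟨n, hn, k, hk⟩ := key g
      have h3 : (⟨y, hy⟩ : N) ∈ normalClosure {(⟨y, hy⟩ : N)} := subset_normalClosure rfl
      exact mem_map.2 ⟨⟨n, hn⟩ * (⟨y, hy⟩ : N) ^ k * (⟨n, hn⟩ : N)⁻¹,
        normalClosure_normal.conj_mem _ (zpow_mem h3 k) _, hk.symm⟩
    obtain ⟨z, hz, e⟩ := h2 x.2
    exact (Subtype.ext e : z = x) ▸ hz

end Cfsg.Agent.P2R
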