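import Cfsg.Agent.P2R.Reg

/-!
# The centraliser of an element lying in two Sylow subgroups
-/

set_option autoImplicit false
set_option linter.unusedSectionVars false

namespace Cfsg.Agent.P2R

open Subgroup Cfsg.Agent.Local MulAction
open scoped Pointwise

variable {H : Type*} [Group H] [Finite H] {p m : ℕ}

theorem relIndex_stab {Ω : Type*} [MulAction H Ω] (A : Subgroup H) (b : Ω) :
    (stabilizer H b).relIndex A = (orbit A b).ncard := index_stabilizer A b

theorem mem_stab_quot {N : Subgroup H} {g a : H} :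
    a ∈ stabilizer H (g : H ⧸ N) ↔ g⁻¹ * a * g ∈ N := by
  rw [mem_stabilizer_iff, MulAction.Quotient.smul_coe, eq_comm, QuotientGroup.eq, smul_eq_mul, mul_assoc]

namespace Hyp

variable (h : Hyp p m H)
include h

theorem pc {x z : H} (hx : orderOf x = p) (hz : IsPGroup p (zpowers z))
    (hn : z ∈ normalizer (zpowers x : Set H)) : Commute z x := by
  have := Fact.mk h.pr
  obtain ⟨P, h1, h2⟩ := h.exists_ge ((isPGroup_zpowers_of_orderOf_eq hx).to_sup_of_normal_left' hz
    (zpowers_le_of_mem hn))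
  exact h.comm h1 (h2 (mem_sup_right (mem_zpowers z))) (h2 (mem_sup_left (mem_zpowers x)))

theorem le_cen {P : Subgroup H} (hP : Nat.card P = p ^ 2) {x : H} (hx : x ∈ P) :
    P ≤ centralizer {x} := fun _ hy => mem_centralizer_singleton_iff.2 (h.comm hP hy hx)

/-- a regular orbit -/
theorem stab_bot {P : Subgroup H} (hP : Nat.card P = p ^ 2) {x g : H} (hx : orderOf x = p)
    (hg : ∀ y ∈ P, Commute y (g * x * g⁻¹) → y = 1) :
    (stabilizer H (g : H ⧸ normalizer (zpowers x : Set H))).relIndex P = p ^ 2 := by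
  have h1 : stabilizer H (g : H ⧸ normalizer (zpowers x : Set H)) ⊓ P = ⊥ := eq_bot_iff.2 fun y hy => by
    have h2 : IsPGroup p (zpowers (g⁻¹ * y * g)) := by
      have := ((IsPGroup.of_card hP).to_le (zpowers_le_of_mem hy.2)).map (MulAut.conj g⁻¹).toMonoidHom
      rwa [MonoidHom.map_zpowers, show (MulAut.conj g⁻¹).toMonoidHom y = g⁻¹ * y * g by simp] at this
    have := (h.pc hx h2 (mem_stab_quot.1 hy.1)).map (MulAut.conj g)
    exact hg y hy.2 (by simpa [mul_assoc, Commute, SemiconjBy] using this)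
  have := card_inf_mul_relIndex (stabilizer H (g : H ⧸ normalizer (zpowers x : Set H))) P
  rwa [h1, card_bot, one_mul, hP] at this

theorem lt_index {x g : H} (hg : g ∉ normalizer (zpowers x : Set H)) :
    (stabilizer H (g : H ⧸ normalizer (zpowers x : Set H))).relIndex (normalizer (zpowers x : Set H)) <
      (normalizer (zpowers x : Set H)).index := by
  rw [relIndex_stab, index, ← Set.ncard_univ]
  refine Set.ncard_lt_ncard (Set.ssubset_univ_iff.2 fun e => hg ?_)
  obtain ⟨a, ha⟩ : ((1 : H) : H ⧸ normalizer (zpowers x : Set H)) ∈ orbit (normalizer (zpowers x : Set H))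
    (g : H ⧸ normalizer (zpowers x : Set H)) := e ▸ Set.mem_univ _
  have h1 : ((1 : H) : H ⧸ normalizer (zpowers x : Set H)) = (a.1 * g : H) := ha.symm
  rw [QuotientGroup.eq, inv_one, one_mul] at h1
  exact (mul_mem_cancel_left a.2).1 h1

theorem notMem {P : Subgroup H} {x g : H} (hx : orderOf x = p) (hxP : x ∈ P)
    (hg : ∀ y ∈ P, Commute y (g * x * g⁻¹) → y = 1) : g ∉ normalizer (zpowers x : Set H) := fun e =>
  ne_one_of_orderOf_eq_prime h.pr hx (hg x hxP
    (comm_zp (conj_mem_of_mem_normalizer e (mem_zpowers x)) (Commute.refl x)))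

theorem cen_le (x : H) : centralizer {x} ≤ normalizer (zpowers x : Set H) :=
  Wong.centralizer_zpowers x ▸ centralizer_le_normalizer _

theorem big {P : Subgroup H} (hP : Nat.card P = p ^ 2) {x g : H} (hx : orderOf x = p) (hxP : x ∈ P)
    (hg : ∀ y ∈ P, Commute y (g * x * g⁻¹) → y = 1) :
    p ^ 2 + 1 ≤ (normalizer (zpowers x : Set H)).index :=
  (h.stab_bot hP hx hg ▸ relIndex_le_of_le_right ((h.le_cen hP hxP).trans (h.cen_le x))
    FiniteIndex.index_ne_zero).trans_lt (h.lt_index (h.notMem hx hxP hg))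

/-- the local structure -/
theorem loc {P Q : Subgroup H} (hP : Nat.card P = p ^ 2) (hQ : Nat.card Q = p ^ 2) (hPQ : P ≠ Q)
    {x : H} (hx : orderOf x = p) (hxP : x ∈ P) (hxQ : x ∈ Q) {w : ℕ}
    (hw : Nat.card (centralizer ({x} : Set H)) = p ^ 2 * w) (hle : 2 * w ≤ p ^ 2 - 1) :
    (normalizer (P : Set H)).relIndex (centralizer {x}) = p + 1 ∧
      (((∃ j, p + 1 = 2 ^ j) ∧ ∃ V ≤ centralizer {x}, Nat.card V = p + 1 ∧
        centralizer {x} ≤ normalizer (V : Set H)) ∨ 2 * w = p ^ 2 - 1) := by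
  have := Fact.mk h.pr
  set C := centralizer ({x} : Set H)
  have hXC : zpowers x ≤ C := zpowers_le_of_mem (mem_centralizer_singleton_iff.2 rfl)
  have hN : ((zpowers x).subgroupOf C).Normal := (normal_subgroupOf_iff_le_normalizer hXC).2 (h.cen_le x)
  have hXc : Nat.card ((zpowers x).subgroupOf C) = p := by
    rw [Nat.card_congr (subgroupOfEquivOfLe hXC).toEquiv, Nat.card_zpowers, hx]
  obtain ⟨y, hyP, hy⟩ : ∃ y ∈ P, y ∉ zpowers x := by
    by_contra! e
    have := card_le_of_le e
    rw [hP, Nat.card_zpowers, hx] at this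
    nlinarith [h.pr.two_le]
  set f := QuotientGroup.mk' ((zpowers x).subgroupOf C)
  have hf := QuotientGroup.mk'_surjective ((zpowers x).subgroupOf C)
  have hPC := h.le_cen hP hxP
  set y' : C := ⟨y, hPC hyP⟩
  have h1 : (zpowers (f y')).comap f = P.subgroupOf C := by
    rw [← MonoidHom.map_zpowers, comap_map_eq, QuotientGroup.ker_mk', ← h.sup hP hx hxP hyP hy,
      subgroupOf_sup hXC (zpowers_le_of_mem y'.2), sup_comm]
    congr 1
    ext g
    simp [mem_subgroupOf, mem_zpowers_iff, Subtype.ext_iff, y']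
  have h2 : orderOf (f y') = p := by
    have := card_comap_mk' (zpowers (f y'))
    rw [h1, hXc, Nat.card_congr (subgroupOfEquivOfLe hPC).toEquiv, hP, sq, Nat.card_zpowers] at this
    exact (Nat.eq_of_mul_eq_mul_left h.pr.pos this).symm
  have h3 : (normalizer (zpowers (f y') : Set _)).comap f = (normalizer (P : Set H)).subgroupOf C := by
    rw [comap_normalizer_eq_of_surjective _ hf, h1, subgroupOf_normalizer_eq hPC]
  have hwm : w ∣ m := Nat.dvd_of_mul_dvd_mul_left (pow_pos h.pr.pos 2)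
    (hw ▸ h.card ▸ card_subgroup_dvd_card C)
  have hin : ∀ g ∈ normalizer (P : Set H), IsPGroup p (zpowers g) → g ∈ P := fun g hg e =>
    zpowers_le.1 ((h.syl hP).le_of_le_normalizer' e le_top (zpowers_le_of_mem hg))
  have hpre : Pre p w (f y') := by
    refine ⟨h.pr, h.h5, h2, fun g hg => ?_, fun e => hPQ ?_, ?_, (Nat.mul_dvd_mul_left 2 hwm).trans h.dvd⟩
    · obtain ⟨g, rfl⟩ := hf g
      have h4 : g ∈ (normalizer (P : Set H)).subgroupOf C :=
        h3 ▸ centralizer_le_normalizer _ (Wong.centralizer_zpowers (f y') ▸ mem_centralizer_singleton_iff.2 hg)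
      have h5 : (g * y' * g⁻¹ * y'⁻¹ : C) ∈ (zpowers x).subgroupOf C := by
        rw [← QuotientGroup.ker_mk' ((zpowers x).subgroupOf C), MonoidHom.mem_ker]
        simp only [map_mul, map_inv]
        rw [mul_inv_eq_one, mul_inv_eq_iff_eq_mul]
        exact hg
      obtain ⟨k, hk⟩ := h5
      replace hk : x ^ k = g.1 * y * g.1⁻¹ * y⁻¹ := hk
      have hgx : Commute g.1 x := mem_centralizer_singleton_iff.1 g.2
      have h6 : ∀ i : ℕ, g.1 ^ i * y = (x ^ k) ^ i * y * g.1 ^ i := fun i => by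
        induction i with
        | zero => simp
        | succ i ih =>
          rw [pow_succ' g.1, mul_assoc, ih, ← mul_assoc, ← mul_assoc, ((hgx.zpow_right k).pow_right i).eq,
            pow_succ (x ^ k), hk]
          group
      have h7 : g.1 ^ p ∈ P := h.mem_of_comm hP hx hxP hyP hy (hgx.pow_left p) (by
        have := h6 p
        rwa [← zpow_natCast (x ^ k), ← zpow_mul, mul_comm k, zpow_mul, zpow_natCast, ← hx,
          pow_orderOf_eq_one, one_zpow, one_mul, hx] at this)
      have h8 : g.1 ∈ P := hin g h4 (IsPGroup.of_card_dvd_pow (n := 3) (by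
        rw [Nat.card_zpowers, orderOf_dvd_iff_pow_eq_one, pow_succ' p, pow_mul, ← orderOf_dvd_iff_pow_eq_one]
        exact hP ▸ orderOf_dvd_card_of_mem h7))
      exact (h1.ge h8 : g ∈ comap f _)
    · rw [normalizer_eq_top_iff.2 e, comap_top, eq_comm, subgroupOf_eq_top] at h3
      exact (eq_of_le_of_card_ge (fun g hg => hin g (h3 (h.le_cen hQ hxQ hg))
        ((IsPGroup.of_card hQ).to_le (zpowers_le_of_mem hg))) (by rw [hP, hQ])).symm
    · have := card_eq_card_quotient_mul_card_subgroup ((zpowers x).subgroupOf C)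
      rw [hw, hXc, sq, mul_right_comm] at this
      exact (Nat.eq_of_mul_eq_mul_right h.pr.pos this).symm
  have h9 : 1 ≤ p ^ 2 := Nat.one_le_pow _ _ h.pr.pos
  obtain ⟨h4, h5⟩ := hpre.cls (by
    rw [fac p h.pr.pos, ← fac2 p h.pr.pos]
    nlinarith [Nat.mul_le_mul hle (show w ≤ p ^ 2 + 1 by omega)])
  refine ⟨by rw [relIndex, ← h3, index_comap_of_surjective _ hf, h4],
    h5.imp (fun ⟨⟨j, hj⟩, V, hV, h6⟩ => ⟨⟨j, hj⟩, ?_⟩) fun h6 => le_antisymm hle ?_⟩
  · have := card_le_card_group (normalClosure {f y'})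
    rw [hpre.card] at this
    exact Nat.le_of_mul_le_mul_left (by nlinarith) h.pr.pos
  set W := (V.comap f).map C.subtype
  have hW : Nat.card W = p * 2 ^ j := by rw [card_subtype, card_comap_mk', hXc, h6, hj]
  have hXW : zpowers x ≤ W := fun g hg => ⟨⟨g, hXC hg⟩, by
    rw [SetLike.mem_coe, mem_comap, show f ⟨g, hXC hg⟩ = 1 from (QuotientGroup.eq_one_iff _).2 hg]
    exact V.one_mem, rfl⟩
  obtain ⟨T, hT⟩ := exists_isSylowIn 2 W
  have ho : ¬ 2 ∣ p := by have := odd_of h.pr h.h5; omega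
  have hTc : Nat.card T = 2 ^ j := by
    rw [hT.card_eq, hW, Nat.factorization_mul h.pr.ne_zero (by positivity), Finsupp.add_apply,
      Nat.factorization_eq_zero_of_not_dvd ho, Nat.prime_two.factorization_pow, Finsupp.single_eq_same,
      zero_add]
  have hTC : T ≤ C := hT.le.trans (map_subtype_le _)
  have hXT : zpowers x ≤ normalizer (T : Set H) := zpowers_le_of_mem (mem_normalizer_of_conj_mem
    fun t ht => by rwa [← mem_centralizer_singleton_iff.1 (hTC ht), mul_inv_cancel_right])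
  have h7 : T ⊔ zpowers x = W := eq_of_le_of_card_ge (sup_le hT.le hXW) (by
    rw [card_sup_of_disjoint hXT (disjoint_def.2 (eq_one_of_mem_of_coprime (by
      rw [hTc, Nat.card_zpowers, hx]
      exact ((Nat.prime_two.coprime_iff_not_dvd).2 ho).pow_left j))), hW, hTc, Nat.card_zpowers, hx,
      mul_comm])
  refine ⟨T, hTC, hTc.trans hj.symm, fun g hg => hT.normalizer_le (h7 ▸ sup_le le_normalizer hXT)
    (mem_normalizer_of_conj_mem ?_)⟩
  rintro _ ⟨v, hv, rfl⟩
  exact ⟨_, (hV.comap f).conj_mem v hv ⟨g, hg⟩, rfl⟩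

end Hyp

end Cfsg.Agent.P2R
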