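import Cfsg.Agent.P2R.Defs
import Cfsg.Agent.PSL2Rec.CS
import Cfsg.Agent.Block.STMain

/-!
# Reduction modulo the centre of the character
-/

set_option autoImplicit false

namespace Cfsg.Agent.P2R

open Subgroup Cfsg.Agent.Char Cfsg.Agent.Zass Cfsg.Agent.Local

universe u

variable {G : Type u} [Group G] [Finite G] {p m : ℕ} {χ : G → ℂ}

theorem dvd_mult (hχ : IsCharacter G χ) (P R : Subgroup G) [Fintype R]
    (hc : ∀ u ∈ P, ∀ r ∈ R, Commute u r) (h0 : ∀ u ∈ P, u ≠ 1 → ∀ r ∈ R, χ (u * r) = 0)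
    {η : R → ℂ} (hη : IsCharacter R η) :
    ∃ m : ℕ, classInner (fun r : R => χ r) η = Nat.card P * m := by
  classical
  have := Fintype.ofFinite P
  obtain ⟨F, hF⟩ : ∃ F : P × R →* G, ∀ u r, F (u, r) = u * r :=
    ⟨P.subtype.noncommCoprod R.subtype fun u r => hc u u.2 r r.2, fun _ _ => rfl⟩
  obtain ⟨m, hm⟩ := inner_char_char (char_comp hχ F) (char_comp hη (MonoidHom.snd _ _))
  refine ⟨m, ?_⟩
  rw [← hm, classInner, classInner, Fintype.sum_prod_type, Finset.sum_eq_single 1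
    (fun u _ hu => Finset.sum_eq_zero fun r _ => by
      simp [hF, h0 u u.2 (fun e => hu (Subtype.ext e)) r r.2]) (by simp), Nat.card_prod]
  have h1 : (Nat.card P : ℂ) ≠ 0 := card_ne_zero' P
  simp only [hF, OneMemClass.coe_one, one_mul, MonoidHom.coe_snd]
  push_cast
  rw [mul_inv, mul_assoc, mul_inv_cancel_left₀ h1]

/-- a `p'`-element centralising a Sylow `p`-subgroup acts as a scalar -/
theorem norm_eq (hp : p.Prime) (hG : Nat.card G = p ^ 2 * m) (hm : ¬ p ∣ m)
    (hχ : IsIrrCharacter G χ) (h1 : χ 1 = (p ^ 2 : ℕ)) {P : Subgroup G} (hP : Nat.card P = p ^ 2)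
    {d : G} (hd : ¬ p ∣ orderOf d) (hc : ∀ x ∈ P, Commute d x) : (‖χ d‖ : ℂ) = χ 1 := by
  have := Fintype.ofFinite (zpowers d)
  have hp0 : ((p ^ 2 : ℕ) : ℂ) ≠ 0 := Nat.cast_ne_zero.2 (pow_pos hp.pos 2).ne'
  have hcm : ∀ u ∈ P, ∀ r ∈ zpowers d, Commute u r := by
    rintro u hu _ ⟨k, rfl⟩
    exact ((hc u hu).symm).zpow_right k
  have h0 : ∀ u ∈ P, u ≠ 1 → ∀ r ∈ zpowers d, χ (u * r) = 0 := fun u hu hu1 r hr => by
    refine PSL2Rec.irr_eq_zero_of_dvd hχ hp hG (deg_of_eq h1).symm.dvd hm ?_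
    obtain ⟨k, -, hk⟩ := (Nat.dvd_prime_pow hp).1 (hP ▸ orderOf_dvd_card_of_mem hu)
    have h2 : ¬ p ∣ orderOf r := fun e => hd (e.trans (orderOf_dvd_of_mem_zpowers hr))
    rw [(hcm u hu r hr).orderOf_mul_eq_mul_orderOf_of_coprime
      (hk ▸ ((Nat.Prime.coprime_iff_not_dvd hp).2 h2).pow_left k), hk]
    exact (dvd_pow_self p fun e => hu1 (orderOf_eq_one_iff.1 (by simpa [e] using hk))).mul_right _
  have hf : IsCharacter (zpowers d) (((p ^ 2 : ℕ) : ℂ)⁻¹ • fun r : zpowers d => χ r) := by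
    refine isCharacter_of_inner (classFun_smul _ (classFun_restrict (irr_isClassFunction hχ) _))
      fun η hη => ?_
    obtain ⟨n, hn⟩ := dvd_mult (irr_isCharacter hχ) P (zpowers d) hcm h0 (irr_isCharacter hη)
    exact ⟨n, by rw [Char.inner_smul_left, hn, hP, inv_mul_cancel_left₀ hp0]⟩
  obtain ⟨f, hf'⟩ := char_exists_monoidHom hf (by simp [h1, hp.ne_zero])
  have h2 := congrFun hf' ⟨d, mem_zpowers d⟩
  have h3 : ‖f ⟨d, mem_zpowers d⟩‖ = 1 :=
    norm_eq_one_of_pow_orderOf (g := (⟨d, mem_zpowers d⟩ : zpowers d))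
      (by rw [← map_pow, pow_orderOf_eq_one, map_one])
  simp only [Pi.smul_apply, smul_eq_mul] at h2
  rw [inv_mul_eq_iff_eq_mul₀ hp0] at h2
  rw [h2, norm_mul, h3, mul_one, h1, Complex.norm_natCast, Complex.ofReal_natCast]

theorem red_faithful (hp : p.Prime) (h5 : 5 < p) (hG : Nat.card G = p ^ 2 * m)
    (hm : 2 * m ∣ p ^ 4 - 1) (hχ : IsIrrCharacter G χ) (h1 : χ 1 = (p ^ 2 : ℕ))
    (hf : ∀ g, χ g = χ 1 → g = 1) : ∃ m', Hyp p m' (G ⧸ center G) := by
  have := Fact.mk hp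
  have hpm := not_dvd_of_dvd hp hm
  have hbot : ∀ (Y : Subgroup G) [Y.Normal], IsPGroup p Y → Y = ⊥ := fun Y _ hY =>
    Small.Rho.eq_bot hp ⟨χ, hχ, (deg_of_eq h1).symm.dvd⟩ hG hpm hY
  have hZ : ¬ p ∣ Nat.card (center G) := fun e => by
    obtain ⟨z, hz, hzp⟩ := exists_mem_orderOf_eq_of_dvd_card hp e
    have : (zpowers z).Normal := ⟨fun x hx g => by
      rw [mem_center_iff.1 (zpowers_le_of_mem hz hx) g, mul_inv_cancel_right]; exact hx⟩
    have h2 := hbot _ (isPGroup_zpowers_of_orderOf_eq hzp)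
    exact ne_one_of_orderOf_eq_prime hp hzp (zpowers_eq_bot.1 h2)
  have hco : (p ^ 2).Coprime (Nat.card (center G)) :=
    ((Nat.Prime.coprime_iff_not_dvd hp).2 hZ).pow_left 2
  have h2 := (center G).card_mul_index
  obtain ⟨m', hm'⟩ : p ^ 2 ∣ (center G).index :=
    hco.dvd_of_dvd_mul_left (by rw [h2, hG]; exact dvd_mul_right _ _)
  have hmm : m = Nat.card (center G) * m' := by
    apply Nat.eq_of_mul_eq_mul_left (pow_pos hp.pos 2)
    rw [← hG, ← h2, hm']
    ring
  have hker : (QuotientGroup.mk' (center G)).ker = center G := QuotientGroup.ker_mk' _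
  refine ⟨m', hp, h5, hm', (mul_dvd_mul_left 2 (Dvd.intro_left _ hmm.symm)).trans hm,
    fun Q hQ g hg => ?_, fun Y hY hYp => ?_⟩
  · obtain ⟨g, rfl⟩ := QuotientGroup.mk'_surjective _ g
    obtain ⟨P, hP⟩ := exists_isSylowIn p (Q.comap (QuotientGroup.mk' (center G)))
    have hZQ : center G ≤ Q.comap (QuotientGroup.mk' (center G)) := fun z hz => by
      rw [mem_comap, (hker.ge hz : QuotientGroup.mk' (center G) z = 1)]
      exact Q.one_mem
    have hQc : Nat.card (Q.comap (QuotientGroup.mk' (center G))) = Nat.card (center G) * p ^ 2 := by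
      rw [← card_mul_relIndex hZQ, ← PSL2Rec.card_map_mk,
        map_comap_eq_self_of_surjective (QuotientGroup.mk'_surjective _), hQ]
    have hPc : Nat.card P = p ^ 2 := by
      obtain ⟨k, hk⟩ := hP.isPGroup.exists_card_eq
      have h3 := card_mul_relIndex hP.le
      have h4 : p ^ 2 ∣ Nat.card P := (((Nat.Prime.coprime_iff_not_dvd hp).2 hP.not_dvd).pow_left
        2).dvd_of_dvd_mul_right (by rw [h3, hQc]; exact dvd_mul_left _ _)
      have h5 : Nat.card P ∣ p ^ 2 := (hk ▸ ((Nat.Prime.coprime_iff_not_dvd hp).2 hZ).pow_left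
        k).dvd_of_dvd_mul_left (by rw [← hQc, ← h3]; exact dvd_mul_right _ _)
      exact Nat.dvd_antisymm h5 h4
    have hgc : g ∈ centralizer (P : Set G) := fun x hx => by
      have h3 : g * x * g⁻¹ * x⁻¹ ∈ center G := by
        rw [← hker, MonoidHom.mem_ker, map_mul, map_mul, map_mul, (hg _ (hP.le hx)).eq, map_inv,
          map_inv]
        group
      have h4 : x ^ p ^ 2 = 1 := orderOf_dvd_iff_pow_eq_one.1 (hPc ▸ orderOf_dvd_card_of_mem hx)
      have h5 : (g * x * g⁻¹ * x⁻¹) ^ p ^ 2 = 1 := by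
        have h6 : Commute (g * x * g⁻¹ * x⁻¹) x := (mem_center_iff.1 h3 x).symm
        have h7 := h6.mul_pow (p ^ 2)
        rwa [inv_mul_cancel_right, conj_pow, h4, mul_one, mul_inv_cancel, mul_one, eq_comm] at h7
      have h6 := Nat.eq_one_of_dvd_coprimes hco (orderOf_dvd_of_pow_eq_one h5)
        (orderOf_dvd_card_of_mem h3)
      rw [orderOf_eq_one_iff, mul_inv_eq_one, mul_inv_eq_iff_eq_mul] at h6
      exact h6.symm
    have hPt : IsSylowIn p P ⊤ := by
      refine ⟨le_top, hP.isPGroup, fun e => hpm ?_⟩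
      have h4 := P.card_mul_index
      rw [hPc, hG] at h4
      rwa [relIndex_top_right, Nat.eq_of_mul_eq_mul_left (pow_pos hp.pos 2) h4] at e
    refine le_of_forall_exists_isSylowIn_le (B := Q.comap (QuotientGroup.mk' (center G)))
      (fun r hr _ => ?_) hgc
    have := Fact.mk hr
    obtain ⟨R, hR⟩ := exists_isSylowIn r (centralizer (P : Set G))
    refine ⟨R, hR, ?_⟩
    by_cases hrp : r = p
    · subst hrp
      exact (hPt.le_of_le_normalizer' hR.isPGroup le_top
        (hR.le.trans (centralizer_le_normalizer _))).trans hP.le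
    · refine fun y hy => hZQ (mem_center_iff.2 fun x => ?_)
      obtain ⟨k, hk⟩ := hR.isPGroup.exists_card_eq
      have h4 := hf _ (char_commutator_of_norm_eq (irr_isCharacter hχ) (norm_eq hp hG hpm hχ h1 hPc
        (d := y) (fun e => hrp ((Nat.prime_dvd_prime_iff_eq hp hr).1
          (hp.dvd_of_dvd_pow (hk ▸ e.trans (orderOf_dvd_card_of_mem hy)))).symm)
          fun x hx => (hR.le hy x hx).symm) x)
      rw [mul_inv_eq_one, mul_inv_eq_iff_eq_mul] at h4
      exact h4.symm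
  · obtain ⟨T, hT⟩ := exists_isSylowIn p (Y.comap (QuotientGroup.mk' (center G)))
    have h3 : Y.comap (QuotientGroup.mk' (center G)) ≤ normalizer (T : Set G) :=
      le_of_forall_exists_isSylowIn_le fun r hr _ => by
        by_cases hrp : r = p
        · exact ⟨T, hrp ▸ hT, le_normalizer⟩
        have := Fact.mk hr
        obtain ⟨R, hR⟩ := exists_isSylowIn r (Y.comap (QuotientGroup.mk' (center G)))
        refine ⟨R, hR, le_trans ?_ (center_le_normalizer _)⟩
        rw [← hker, ← Subgroup.map_eq_bot_iff]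
        exact disjoint_self.1 (IsPGroup.disjoint_of_ne r p hrp _ _ (hR.isPGroup.map _)
          (hYp.to_le (map_le_iff_le_comap.2 hR.le)))
    have : T.Normal := normalizer_eq_top_iff.1 (eq_top_iff.2 fun g _ => by
      obtain ⟨n, hn, hn'⟩ := hT.frattini (g := g) (le_normalizer_of_normal' ⊤ _ (mem_top g))
      exact (mul_mem_cancel_left (inv_mem (h3 hn))).1 hn')
    have h4 := hT.map (QuotientGroup.mk' (center G))
    rw [hbot T hT.isPGroup, Subgroup.map_bot,
      map_comap_eq_self_of_surjective (QuotientGroup.mk'_surjective _)] at h4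
    exact h4.eq_of_le hYp bot_le le_rfl

theorem red (hp : p.Prime) (h5 : 5 < p) (hG : Nat.card G = p ^ 2 * m) (hm : 2 * m ∣ p ^ 4 - 1)
    (hχ : IsIrrCharacter G χ) (h1 : χ 1 = (p ^ 2 : ℕ)) :
    ∃ (H : Type u) (_ : Group H) (_ : Finite H) (f : G →* H) (m' : ℕ),
      Function.Surjective f ∧ Hyp p m' H := by
  obtain ⟨K, hK, hk, -⟩ := char_exists_ker (irr_isCharacter hχ)
  obtain ⟨ψ, hψ, e⟩ := Block.irr_descend (QuotientGroup.mk'_surjective K) hχ fun k h =>
    (hk k).1 (by rwa [QuotientGroup.ker_mk'] at h)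
  have h2 : ψ 1 = (p ^ 2 : ℕ) := by rw [← h1, e]; simp only [map_one]
  obtain ⟨m₁, hm₁⟩ := irr_degree_dvd_card hψ h2
  have h3 : m₁ ∣ m := Nat.dvd_of_mul_dvd_mul_left (pow_pos hp.pos 2)
    (by rw [← hm₁, ← hG]; exact card_quotient_dvd_card K)
  obtain ⟨m', h⟩ := red_faithful hp h5 hm₁ ((mul_dvd_mul_left 2 h3).trans hm) hψ h2 fun g hg => by
    obtain ⟨g, rfl⟩ := QuotientGroup.mk'_surjective K g
    exact (QuotientGroup.eq_one_iff g).2 ((hk g).2 (by rw [e]; simpa using hg))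
  exact ⟨_, inferInstance, inferInstance, (QuotientGroup.mk' _).comp (QuotientGroup.mk' K), m',
    (QuotientGroup.mk'_surjective _).comp (QuotientGroup.mk'_surjective K), h⟩

end Cfsg.Agent.P2R
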