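import Cfsg.Agent.P2R.NoB
import Cfsg.Agent.P2R.Red

/-!
# The recognition theorem
-/

set_option autoImplicit false

namespace Cfsg.Agent.P2R

open Subgroup MulAction Cfsg.Agent.PSL2Rec Cfsg.Agent.Local

universe u

variable {H : Type u} [Group H] [Finite H] {p m : ℕ}

theorem Hyp.half (h : Hyp p m H) {M : Subgroup H} (hM : M.index = 2) :
    ∃ m', m = 2 * m' ∧ Hyp p m' M := by
  have := Fact.mk h.pr
  have := normal_of_index_eq_two hM
  have h1 := M.card_mul_index
  rw [hM, h.card] at h1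
  have ho := odd_of h.pr h.h5
  obtain ⟨m', rfl⟩ : 2 ∣ m := ((Nat.coprime_two_left.2 (Nat.odd_iff.2 ho)).pow_right 2).dvd_of_dvd_mul_left
    (h1 ▸ dvd_mul_left _ _)
  refine ⟨m', rfl, h.pr, h.h5, by linarith, (Dvd.intro 2 (by ring)).trans h.dvd, fun P hP g hg => ?_,
    fun N hN hNp => ?_⟩
  · obtain ⟨x, hx, e⟩ := h.self (P.map M.subtype) (by rw [card_map_of_injective M.subtype_injective, hP])
      g (by
        rintro _ ⟨x, hx, rfl⟩
        exact (hg x hx).map M.subtype)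
    exact Subtype.ext e ▸ hx
  · have : (pCore p M).Characteristic := characteristic_iff_map_le.2 fun φ =>
      le_pCore (Normal.map inferInstance _ φ.surjective) ((isPGroup_pCore p).map _)
    have h2 := h.core ((pCore p M).map M.subtype) inferInstance ((isPGroup_pCore p).map _)
    rw [Subgroup.map_eq_bot_iff_of_injective _ M.subtype_injective] at h2
    exact eq_bot_iff.2 (h2 ▸ le_pCore hN hNp)

theorem Hyp.full (h : Hyp p m H) (h2 : ∀ M : Subgroup H, M.index ≠ 2) : 2 * m = p ^ 4 - 1 := by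
  have := Fact.mk h.pr
  obtain ⟨P⟩ : Nonempty (Sylow p H) := inferInstance
  have hm := not_dvd_of_dvd h.pr h.dvd
  have hp := h.pr.two_le
  have hP : Nat.card P = p ^ 2 := by
    rw [P.card_eq_multiplicity, h.card, Nat.factorization_mul (pow_pos h.pr.pos 2).ne'
      (by rintro rfl; exact hm (dvd_zero p)), Finsupp.add_apply, Nat.factorization_eq_zero_of_not_dvd hm,
      h.pr.factorization_pow, Finsupp.single_eq_same, add_zero]
  have hP1 : (P : Subgroup H) ≠ ⊥ := fun e => by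
    have : Nat.card (P : Subgroup H) = p ^ 2 := hP
    rw [e, card_bot] at this
    nlinarith
  have hi : (P : Subgroup H).index = m := by
    have h1 := (P : Subgroup H).card_mul_index
    rw [h.card, show Nat.card (P : Subgroup H) = p ^ 2 from hP] at h1
    exact Nat.eq_of_mul_eq_mul_left (pow_pos h.pr.pos 2) h1
  have hf : p ^ 4 - 1 = (p ^ 2 - 1) * (p ^ 2 + 1) := by rw [fac p h.pr.pos, fac2 p h.pr.pos]
  have hn : Nat.card (Sylow p H) = Nat.card P + 1 := by
    rw [hP]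
    refine (eq_one_or_eq_succ (by nlinarith) (hP ▸ h.ti.card_dvd P)
      (hf ▸ ((hi ▸ P.card_dvd_index).mul_left 2).trans h.dvd)).resolve_left fun e => ?_
    have := (Nat.card_eq_one_iff_unique.1 e).1
    exact hP1 (h.core _ P.normal_of_subsingleton P.isPGroup')
  obtain ⟨Q, w, hZ⟩ := h.ti.exists_zdata (h.hB h.ti h2) P hn
  have h3 := hZ.card_eq
  rw [h.card, show Nat.card (P : Subgroup H) = p ^ 2 from hP, mul_assoc] at h3
  have h4 := Nat.eq_of_mul_eq_mul_left (pow_pos h.pr.pos 2) h3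
  have h5 := h.dvd
  rw [h4, hf, ← mul_assoc] at h5
  have h6 := Nat.le_of_dvd (by have : 4 ≤ p ^ 2 := by nlinarith
                               omega) (Nat.dvd_of_mul_dvd_mul_right (by positivity) h5)
  have h7 : p ^ 2 % 4 = 1 := by
    obtain ⟨k, hk⟩ : ∃ k, p = 2 * k + 1 := ⟨p / 2, by have := odd_of h.pr h.h5; omega⟩
    rw [hk, show (2 * k + 1) ^ 2 = 1 + 4 * (k ^ 2 + k) by ring, Nat.add_mul_mod_self_left]
  obtain ⟨h8, -⟩ := hZ.exists_swap_of_half hP1 (by
    by_contra ho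
    obtain ⟨M, hM⟩ := exists_index_two (T := H) (by
      have h8 := Nat.odd_iff.1 (Nat.not_even_iff_odd.1 ho)
      have h9 : Nat.card ↥(stabilizer H P ⊓ stabilizer H Q) % 4 = 1 ∨
        Nat.card ↥(stabilizer H P ⊓ stabilizer H Q) % 4 = 3 := by omega
      rw [h.card, h4, Nat.mul_mod, Nat.mul_mod (Nat.card _), Nat.add_mod, h7]
      rcases h9 with e | e <;> rw [e])
    exact h2 M hM) (by
      rw [show Nat.card (P : Subgroup H) = p ^ 2 from hP]
      have : 4 ≤ p ^ 2 := by nlinarith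
      omega)
  rw [show Nat.card (P : Subgroup H) = p ^ 2 from hP] at h8
  rw [h4, hf, ← mul_assoc, ← h8, Nat.add_sub_cancel]

theorem no_two (m : ℕ) : ∀ (H : Type u) [Group H] [Finite H], Hyp p m H →
    ∀ M : Subgroup H, M.index ≠ 2 := by
  induction m using Nat.strong_induction_on with
  | h m ih =>
  intro H _ _ h M hM
  obtain ⟨m', rfl, h'⟩ := h.half hM
  have h0 : 0 < m' := Nat.pos_of_ne_zero fun e => not_dvd_of_dvd h'.pr h'.dvd (e ▸ dvd_zero p)
  have h1 := h'.full (ih m' (by omega) M h')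
  have h2 := h.dvd
  rw [← h1] at h2
  have := Nat.le_of_dvd (by omega) h2
  omega

theorem card_psl {F : Type*} [Field F] [Fintype F] (hp : p.Prime) (h5 : 5 < p)
    (hF : Fintype.card F = p ^ 2) : ∃ m, 2 * m = p ^ 4 - 1 ∧
      Nat.card (Matrix.ProjectiveSpecialLinearGroup (Fin 2) F) = p ^ 2 * m := by
  have hc := card_psl2 (F := F)
  obtain ⟨k, hk⟩ : ∃ k, p ^ 2 = 2 * k + 1 := (Nat.odd_iff.2 (odd_of hp h5)).pow
  have hf : p ^ 4 - 1 = (p ^ 2 - 1) * (p ^ 2 + 1) := by rw [fac p hp.pos, fac2 p hp.pos]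
  rw [hF, Nat.gcd_eq_left (by omega)] at hc
  refine ⟨k * (p ^ 2 + 1), by rw [hf, ← mul_assoc, show p ^ 2 - 1 = 2 * k by omega], ?_⟩
  apply Nat.eq_of_mul_eq_mul_left two_pos
  rw [hc, show p ^ 2 - 1 = 2 * k by omega]
  ring

theorem Hyp.main (h : Hyp p m H) {F : Type*} [Field F] [Fintype F] (hF : Fintype.card F = p ^ 2) :
    Nonempty (H ≃* Matrix.ProjectiveSpecialLinearGroup (Fin 2) F) := by
  have h2 := no_two m H h
  obtain ⟨m', h3, h4⟩ := card_psl h.pr h.h5 hF
  have := Fact.mk h.pr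
  have : CharP F p := charP_of_card_eq_prime_pow hF
  have h5 := h.full h2
  have h6 := h.h5
  refine recog_psl2 (by rw [hF]; nlinarith) p (by rw [h4, h.card, show m = m' by omega]) h.ti
    (h.hB h.ti h2) fun ho => ?_
  obtain ⟨k, hk⟩ : ∃ k, p = 2 * k + 1 := ⟨p / 2, by have := odd_of h.pr h.h5; omega⟩
  rw [hF, hk, show (2 * k + 1) ^ 2 = 2 * (2 * (k ^ 2 + k)) + 1 by ring, Nat.add_sub_cancel,
    Nat.gcd_eq_left (dvd_mul_right _ _), Nat.mul_div_cancel_left _ two_pos] at ho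
  exact absurd ho (Nat.not_odd_iff_even.2 (even_two_mul _))

theorem final {F : Type*} [Field F] [Fintype F] (hp : p.Prime) (h5 : 5 < p)
    (hF : Fintype.card F = p ^ 2) {G : Type*} [Group G] [Finite G]
    (hcard : Nat.card G = Nat.card (Matrix.ProjectiveSpecialLinearGroup (Fin 2) F))
    {χ : G → ℂ} (hχ : IsIrrCharacter G χ) (h1 : χ 1 = (p ^ 2 : ℕ)) :
    Nonempty (G ≃* Matrix.ProjectiveSpecialLinearGroup (Fin 2) F) := by
  obtain ⟨m, h3, h4⟩ := card_psl hp h5 hF
  obtain ⟨H, _, _, f, m', hf, h⟩ := red hp h5 (hcard.trans h4) h3.dvd hχ h1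
  obtain ⟨e⟩ := h.main hF
  exact ⟨(MulEquiv.ofBijective f ((Nat.bijective_iff_surjective_and_card f).2
    ⟨hf, hcard.trans (Nat.card_congr e.toEquiv).symm⟩)).trans e⟩

end Cfsg.Agent.P2R
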