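import Cfsg.Agent.P2R.TI

/-!
# The doubly transitive action on the Sylow subgroups
-/

set_option autoImplicit false
set_option linter.unusedSectionVars false

namespace Cfsg.Agent.P2R

open Subgroup Cfsg.Agent.Local MulAction Cfsg.Agent.PSL2Rec
open scoped Pointwise

section Gen

variable {G Ω : Type*} [Group G] [Finite G] [MulAction G Ω] [Finite Ω]

theorem fix_modEq {r : ℕ} (hr : r.Prime) {g : G} (hg : g ^ r = 1) :
    Nat.card Ω ≡ Nat.card (fixedBy Ω g) [MOD r] := by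
  have := Fact.mk hr
  refine ((IsPGroup.of_card_dvd_pow (n := 1) (G := zpowers g) (by
    rw [Nat.card_zpowers, pow_one]; exact orderOf_dvd_of_pow_eq_one hg)).card_modEq_card_fixedPoints
      Ω).trans (congrArg (· % r) (Nat.card_congr (Equiv.subtypeEquivRight fun a =>
    ⟨fun e => e ⟨g, mem_zpowers g⟩, fun e x => zpowers_le_of_mem (mem_stabilizer_iff.2 e) x.2⟩)))

/-- the elements acting as even permutations -/
theorem exists_even : ∃ M : Subgroup G, (M.index = 1 ∨ M.index = 2) ∧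
    ∀ t ∈ M, t * t = 1 → Nat.card Ω ≡ Nat.card (fixedBy Ω t) [MOD 4] := by
  classical
  have := Fintype.ofFinite Ω
  refine ⟨(Equiv.Perm.sign.comp (toPermHom G Ω)).ker, ?_, fun t ht h2 => ?_⟩
  · refine (Nat.dvd_prime Nat.prime_two).1 ?_
    rw [index_ker]
    simpa using card_subgroup_dvd_card (Equiv.Perm.sign.comp (toPermHom G Ω)).range
  · have h1 := Equiv.Perm.sign_of_pow_two_eq_one (σ := toPermHom G Ω t) (by
      rw [← map_pow, sq, h2, map_one])
    rw [show Equiv.Perm.sign (toPermHom G Ω t) = 1 from ht, eq_comm,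
      neg_one_pow_eq_one_iff_even (by decide), ← Nat.card_eq_fintype_card, ← Nat.card_eq_fintype_card,
      Nat.even_iff] at h1
    have h3 := fix_modEq (Ω := Ω) Nat.prime_two (g := t) (by rw [sq, h2])
    have h4 : Nat.card (fixedBy Ω t) ≤ Nat.card Ω := Finite.card_subtype_le _
    change (Nat.card Ω - Nat.card (fixedBy Ω t)) / 2 % 2 = 0 at h1
    unfold Nat.ModEq at h3 ⊢
    omega

theorem fix_conj {s t : G} (h : IsConj s t) : Nat.card (fixedBy Ω s) = Nat.card (fixedBy Ω t) := by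
  obtain ⟨g, rfl⟩ := isConj_iff.1 h
  exact Nat.card_congr ((MulAction.toPerm g).subtypeEquiv fun a => by simp [mul_smul])

theorem exists_two {t : G} (h : 2 ≤ Nat.card (fixedBy Ω t)) :
    ∃ a b : Ω, a ≠ b ∧ t • a = a ∧ t • b = b := by
  obtain ⟨a, b, e⟩ := Finite.one_lt_card_iff_nontrivial.1 h
  exact ⟨a, b, fun e' => e (Subtype.ext e'), a.2, b.2⟩

theorem four_cent {E : Subgroup G} {t : G} (ht : t ∈ E) (h2 : orderOf t = 2) (h4 : 4 ∣ Nat.card E) :
    4 ∣ Nat.card ↥(E ⊓ centralizer {t}) := by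
  obtain ⟨T, hT, h1⟩ := exists_isSylowIn_ge (isPGroup_zpowers_of_orderOf_eq h2) (zpowers_le_of_mem ht)
  have h3 : 4 ∣ Nat.card T := (((Nat.prime_two.coprime_iff_not_dvd).2 hT.not_dvd).pow_left 2
    ).dvd_of_dvd_mul_right (card_mul_relIndex hT.le ▸ h4)
  have h5 := exists_mem_normalizer_notMem hT.isPGroup (h1.lt_of_ne fun e => by
    rw [← e, Nat.card_zpowers, h2] at h3; omega)
  obtain ⟨i, hi⟩ := (hT.isPGroup.to_le (inf_le_left : T ⊓ normalizer (zpowers t : Set G) ≤ T)).exists_card_eq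
  have h6 : Nat.card (zpowers t) < _ := (card_le_of_le h5.le).lt_of_ne fun e =>
    h5.ne (eq_of_le_of_card_ge h5.le e.ge)
  rw [Nat.card_zpowers, h2, hi] at h6
  refine (pow_dvd_pow 2 (show 2 ≤ i by
    by_contra e
    have : i ≤ 1 := by omega
    interval_cases i <;> omega)).trans (hi ▸ card_dvd_of_le fun g hg => ⟨hT.le hg.1, ?_⟩)
  have h7 := conj_mem_of_mem_normalizer hg.2 (mem_zpowers t)
  rw [mem_zpowers_two (Block.mul_self_of_orderOf h2)] at h7
  exact mem_centralizer_singleton_iff.2 (mul_inv_eq_iff_eq_mul.1 (h7.resolve_left fun e =>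
    ne_one_of_orderOf_eq_prime Nat.prime_two h2 (by simpa using e)))

theorem inv_of {A : Subgroup G} (hA : ∀ x ∈ A, ∀ y ∈ A, Commute x y) {s : G} (hs : s * s = 1)
    (hn : ∀ u ∈ A, s * u * s⁻¹ ∈ A) (h : ∀ u ∈ A, Commute s u → u = 1) {u : G} (hu : u ∈ A) :
    s * u * s⁻¹ = u⁻¹ := eq_inv_of_mul_eq_one_right (h _ (mul_mem hu (hn u hu)) (by
  have h1 := (hA _ hu _ (hn u hu)).eq
  rw [inv_eq_of_mul_eq_one_right hs] at h1 ⊢
  calc s * (u * (s * u * s)) = s * (s * u * s * u) := by rw [h1]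
    _ = (s * s) * u * s * u * 1 := by group
    _ = u * (s * u * s) * s := by rw [hs, ← hs]; simp [mul_assoc, hs]))

end Gen

variable {H : Type*} [Group H] [Finite H] {p m : ℕ} [Fact p.Prime]

/-- the standing hypotheses -/
structure HT (p m : ℕ) (H : Type*) [Group H] : Prop extends Hyp p m H where
  ti : SylowTI p H

namespace HT

variable (h : HT p m H)
include h

theorem hc (R : Sylow p H) : Nat.card (R : Subgroup H) = p ^ 2 := h.card_syl (isSylowIn_top R)

theorem card_syl' : Nat.card (Sylow p H) = p ^ 2 + 1 := by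
  obtain ⟨P⟩ : Nonempty (Sylow p H) := inferInstance
  have hp := h.pr.two_le
  have hi : (P : Subgroup H).index = m := by
    have h1 := (P : Subgroup H).card_mul_index
    rw [h.card, h.hc] at h1
    exact Nat.eq_of_mul_eq_mul_left (pow_pos h.pr.pos 2) h1
  have hf : p ^ 4 - 1 = (p ^ 2 - 1) * (p ^ 2 + 1) := by rw [fac p h.pr.pos, fac2 p h.pr.pos]
  refine (eq_one_or_eq_succ (by nlinarith) (h.hc P ▸ h.ti.card_dvd P)
    (hf ▸ ((hi ▸ P.card_dvd_index).mul_left 2).trans h.dvd)).resolve_left fun e => ?_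
  have := (Nat.card_eq_one_iff_unique.1 e).1
  have h1 := h.hc P
  rw [h.core _ P.normal_of_subsingleton P.isPGroup', card_bot] at h1
  nlinarith

theorem nrm {a : Sylow p H} {g x : H} (hg : g • a = a) (hx : x ∈ a) : g * x * g⁻¹ ∈ a :=
  (mem_normalizer_iff.1 (Sylow.smul_eq_iff_mem_normalizer.1 hg) x).1 hx

theorem free {a b : Sylow p H} (hab : a ≠ b) {x y : H} (hx : x ∈ a) (hy : y ∈ a) (e : x • b = y • b) :
    x = y := (inv_mul_eq_one.1 (h.ti.eq_one_of_smul_eq hab.symm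
      ((a : Subgroup H).mul_mem ((a : Subgroup H).inv_mem hy) hx) (by rw [mul_smul, e, inv_smul_smul]))).symm

theorem smul_ne {a b : Sylow p H} (hab : a ≠ b) {x : H} (hx : x ∈ a) : x • b ≠ a := fun e =>
  hab (smul_left_cancel x ((smul_self_of_mem hx).trans e.symm))

theorem tr {a b c : Sylow p H} (hab : a ≠ b) (hac : a ≠ c) : ∃ x ∈ a, x • b = c := by
  classical
  let f : ↥(a : Subgroup H) → {Q : Sylow p H // Q ≠ a} := fun x => ⟨(x : H) • b, h.smul_ne hab x.2⟩
  have hf : Function.Injective f := fun x y e =>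
    Subtype.ext (h.free hab x.2 y.2 (congrArg Subtype.val e))
  have := Fintype.ofFinite (Sylow p H)
  obtain ⟨x, hx⟩ := ((Nat.bijective_iff_injective_and_card f).2 ⟨hf, by
    rw [Nat.card_eq_fintype_card (α := {Q : Sylow p H // Q ≠ a}), Fintype.card_subtype_compl,
      Fintype.card_subtype_eq, ← Nat.card_eq_fintype_card, h.card_syl', Nat.add_sub_cancel, h.hc]⟩).2
    ⟨c, hac.symm⟩
  exact ⟨x, x.2, congrArg Subtype.val hx⟩

theorem fix_iff {a b : Sylow p H} (hab : a ≠ b) {g x : H} (ha : g • a = a) (hb : g • b = b)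
    (hx : x ∈ a) : g • x • b = x • b ↔ Commute g x :=
  ⟨fun e => mul_inv_eq_iff_eq_mul.1 (h.free hab (h.nrm ha hx) hx (by
    rw [mul_smul, mul_smul, inv_smul_eq_iff.2 hb.symm, e])),
    fun e => by rw [← mul_smul, e.eq, mul_smul, hb]⟩

theorem trC {a b c : Sylow p H} (hab : a ≠ b) (hac : a ≠ c) {g : H} (ha : g • a = a) (hb : g • b = b)
    (hc : g • c = c) : ∃ x ∈ a, Commute g x ∧ x • b = c := by
  obtain ⟨x, hx, rfl⟩ := h.tr hab hac
  exact ⟨x, hx, (h.fix_iff hab ha hb hx).1 hc, rfl⟩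

theorem eq_one {a b : Sylow p H} (hab : a ≠ b) {g : H} (hb : g • b = b)
    (hc : ∀ x ∈ a, Commute g x) : g = 1 :=
  h.ti.eq_one_of_smul_eq hab.symm (h.self _ (h.hc a) g hc) hb

theorem card_fix {a b : Sylow p H} (hab : a ≠ b) {g : H} (ha : g • a = a) (hb : g • b = b) :
    Nat.card (fixedBy (Sylow p H) g) = Nat.card ↥((a : Subgroup H) ⊓ centralizer {g}) + 1 := by
  rw [← Finite.card_option]
  refine (Nat.card_eq_of_bijective (fun x : Option ↥((a : Subgroup H) ⊓ centralizer {g}) =>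
    x.elim (⟨a, ha⟩ : fixedBy (Sylow p H) g) fun x => ⟨x.1 • b, (h.fix_iff hab ha hb x.2.1).2
      (mem_centralizer_singleton_iff.1 x.2.2).symm⟩) ⟨?_, fun c => ?_⟩).symm
  · rintro (_ | x) (_ | y) e
    · rfl
    · exact absurd (congrArg Subtype.val e).symm (h.smul_ne hab y.2.1)
    · exact absurd (congrArg Subtype.val e) (h.smul_ne hab x.2.1)
    · exact congrArg some (Subtype.ext (h.free hab x.2.1 y.2.1 (congrArg Subtype.val e)))
  · by_cases e : a = c.1
    · exact ⟨none, Subtype.ext e⟩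
    · obtain ⟨x, h1, h2, h3⟩ := h.trC hab e ha hb c.2
      exact ⟨some ⟨x, h1, mem_centralizer_singleton_iff.2 h2.symm⟩, Subtype.ext h3⟩

theorem cen_cases {a b : Sylow p H} (hab : a ≠ b) {g : H} (hb : g • b = b) (h1 : g ≠ 1) :
    (a : Subgroup H) ⊓ centralizer {g} = ⊥ ∨
      ∃ x, orderOf x = p ∧ (a : Subgroup H) ⊓ centralizer {g} = zpowers x := by
  refine ((a : Subgroup H) ⊓ centralizer {g}).bot_or_exists_ne_one.imp_right fun ⟨y, hy, h2⟩ => ?_
  obtain ⟨x, h3, h4⟩ := h.up (h.hc a) hy.1 h2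
  exact ⟨x, h4, (h.sub (h.hc a) inf_le_left h4 (zpowers_le_of_mem hy h3)).resolve_right fun e =>
    h1 (h.eq_one hab hb fun z hz => (mem_centralizer_singleton_iff.1 (e.ge hz).2).symm)⟩

theorem card_E {a b : Sylow p H} (hab : a ≠ b) :
    m = Nat.card ↥(stabilizer H a ⊓ stabilizer H b) * (p ^ 2 + 1) := by
  have h1 := (stabilizer H a).card_mul_index
  rw [index_stabilizer_of_transitive, h.card_syl', h.card] at h1
  have h2 := card_inf_mul_relIndex (stabilizer H b) (stabilizer H a)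
  have h3 : orbit (stabilizer H a) b = {a}ᶜ := Set.ext fun c =>
    ⟨fun ⟨k, e⟩ e' => hab (smul_left_cancel k.1 (k.2.trans (e'.symm.trans e.symm))), fun e => by
      obtain ⟨x, hx, e⟩ := h.tr hab (Ne.symm e)
      exact ⟨⟨x, smul_self_of_mem hx⟩, e⟩⟩
  rw [relIndex_stab, h3, Set.ncard_compl, h.card_syl', Set.ncard_singleton, Nat.add_sub_cancel,
    inf_comm] at h2
  exact Nat.eq_of_mul_eq_mul_left (pow_pos h.pr.pos 2) (by rw [← h1, ← h2]; ring)

theorem oddCore : pPrimeCore 2 H = ⊥ := by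
  obtain ⟨a⟩ : Nonempty (Sylow p H) := inferInstance
  have : Nontrivial (Sylow p H) := Finite.one_lt_card_iff_nontrivial.1 (by
    have := pow_pos h.pr.pos 2
    rw [h.card_syl']; omega)
  obtain ⟨b, hb⟩ := exists_ne a
  have hN : (pPrimeCore 2 H).Normal := inferInstance
  by_cases e : ∀ o ∈ pPrimeCore 2 H, o • a = a
  · have h1 : ∀ o ∈ pPrimeCore 2 H, ∀ c : Sylow p H, o • c = c := fun o ho c => by
      obtain ⟨g, rfl⟩ := exists_smul_eq H a c
      simpa [mul_smul, inv_smul_eq_iff] using e _ (hN.conj_mem o ho g⁻¹)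
    exact eq_bot_iff.2 fun o ho => h.eq_one hb.symm (h1 o ho b) fun x hx =>
      (h.fix_iff hb.symm (e o ho) (h1 o ho b) hx).1 (h1 o ho _)
  push Not at e
  obtain ⟨o, ho, e⟩ := e
  have h1 : orbit (pPrimeCore 2 H) a = Set.univ := Set.eq_univ_of_forall fun c => by
    by_cases e' : a = c
    · exact e' ▸ mem_orbit_self a
    · obtain ⟨x, hx, rfl⟩ := h.tr e.symm e'
      refine ⟨⟨_, hN.conj_mem o ho x⟩, ?_⟩
      change (x * o * x⁻¹) • a = _
      rw [mul_smul, mul_smul, smul_self_of_mem ((a : Subgroup H).inv_mem hx)]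
  have h2 := relIndex_dvd_card (stabilizer H a) (pPrimeCore 2 H)
  rw [relIndex_stab, h1, Set.ncard_univ, h.card_syl'] at h2
  have h3 := ((coprime_card_pPrimeCore (G := H) 2).coprime_dvd_left h2).symm
  obtain ⟨q, hq⟩ : ∃ q, p = 2 * q + 1 := ⟨p / 2, by have := odd_of h.pr h.h5; omega⟩
  exact absurd ⟨2 * (q * q + q) + 1, by rw [hq]; ring⟩ (Nat.prime_two.coprime_iff_not_dvd.1 h3)

end HT

end Cfsg.Agent.P2R
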