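import Cfsg.Agent.P2R.NoA

/-!
# No elements of order `p r`
-/

set_option autoImplicit false
set_option linter.unusedSectionVars false

namespace Cfsg.Agent.P2R

open Subgroup Cfsg.Agent.Local MulAction Cfsg.Agent.PSL2Rec
open scoped Pointwise

theorem a9 {p c d : ℕ} (hp : p.Prime) (h1 : d ∣ c) (h2 : d * (p * (p + 1)) ∣ p ^ 2 * (c * (p ^ 2 + 1)))
    (h3 : 2 * (c * (p ^ 2 + 1)) ∣ p ^ 4 - 1) : ∃ j, 2 * c = d * (p + 1) * j ∧ d * j ∣ p - 1 := by
  obtain ⟨k, rfl⟩ := h1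
  have h0 : 0 < d := Nat.pos_of_ne_zero fun e => by
    have := Nat.one_lt_pow (n := 4) (by omega) hp.one_lt
    rw [e, zero_mul, zero_mul, mul_zero, zero_dvd_iff] at h3
    omega
  rw [show p ^ 2 * (d * k * (p ^ 2 + 1)) = d * (p * (p * (k * (p ^ 2 + 1)))) by ring] at h2
  replace h2 := (show (p + 1).Coprime p by simp).dvd_of_dvd_mul_left
    (Nat.dvd_of_mul_dvd_mul_left hp.pos (Nat.dvd_of_mul_dvd_mul_left h0 h2))
  have h4 : k * (p ^ 2 + 1) = (p + 1) * (k * (p - 1)) + 2 * k := by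
    obtain ⟨q, rfl⟩ := Nat.exists_eq_add_of_le' hp.pos
    rw [Nat.add_sub_cancel]; ring
  obtain ⟨j, hj⟩ := (Nat.dvd_add_right (dvd_mul_right _ _)).1 (h4 ▸ h2)
  refine ⟨j, by rw [mul_left_comm, hj, mul_assoc], ?_⟩
  rw [fac p hp.pos, ← mul_assoc, mul_left_comm 2, hj, ← mul_assoc, mul_right_comm d] at h3
  exact Nat.dvd_of_mul_dvd_mul_right p.succ_pos (Nat.dvd_of_mul_dvd_mul_right (by positivity) h3)

variable {H : Type*} [Group H] [Finite H] {p m : ℕ} [Fact p.Prime]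

variable (p) in
/-- the fixed points of `g` -/
def Fx (g : H) : SubMulAction (centralizer ({g} : Set H)) (Sylow p H) where
  carrier := fixedBy _ g
  smul_mem' c a ha := by
    change g • c.1 • a = c.1 • a
    rw [← mul_smul, ← mem_centralizer_singleton_iff.1 c.2, mul_smul, show g • a = a from ha]

/-- `g` fixes two points and centralises `x` -/
structure Cfg (m : ℕ) (a b : Sylow p H) (g x : H) : Prop extends HT p m H where
  ne : a ≠ b
  g1 : g ≠ 1
  ga : g • a = a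
  gb : g • b = b
  ox : orderOf x = p
  cen : (a : Subgroup H) ⊓ centralizer {g} = zpowers x

/-- inverting a Sylow subgroup -/
def Inv (a : Sylow p H) (z : H) : Prop := ∀ u ∈ a, z * u * z⁻¹ = u⁻¹

theorem HT.inv_eq_one (h : HT p m H) {a : Sylow p H} {u : H} (hu : u ∈ a) (e : u = u⁻¹) : u = 1 := by
  have h1 : orderOf u ∣ 2 := orderOf_dvd_of_pow_eq_one (by rw [sq]; exact mul_eq_one_iff_eq_inv.2 e)
  have h2 : orderOf u ∣ p ^ 2 := h.hc a ▸ orderOf_dvd_card_of_mem (H := (a : Subgroup H)) hu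
  have := odd_of h.pr h.h5
  exact orderOf_eq_one_iff.1 (Nat.eq_one_of_dvd_coprimes
    (((Nat.prime_two.coprime_iff_not_dvd).2 (by omega)).pow_right 2) h1 h2)

theorem HT.fix_inv (h : HT p m H) {a b : Sylow p H} (hab : a ≠ b) {z : H} (ha : z • a = a)
    (hb : z • b = b) (hz : Inv a z) : Nat.card (fixedBy (Sylow p H) z) = 2 := by
  have : (a : Subgroup H) ⊓ centralizer {z} = ⊥ := eq_bot_iff.2 fun u hu => h.inv_eq_one hu.1 (by
    rw [← hz u hu.1, ← mem_centralizer_singleton_iff.1 hu.2, mul_inv_cancel_right])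
  rw [h.card_fix hab ha hb, this, card_bot]

namespace Cfg

variable {a b : Sylow p H} {g x : H} (h : Cfg m a b g x)
include h

theorem xa : x ∈ a := (h.cen.ge (mem_zpowers x)).1

theorem xg : Commute x g := mem_centralizer_singleton_iff.1 (h.cen.ge (mem_zpowers x)).2

theorem cardF : Nat.card (fixedBy (Sylow p H) g) = p + 1 := by
  rw [h.card_fix h.ne h.ga h.gb, h.cen, Nat.card_zpowers, h.ox]

theorem xb : x • b ≠ b := fun e =>
  ne_one_of_orderOf_eq_prime h.pr h.ox (h.ti.eq_one_of_smul_eq h.ne.symm h.xa e)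

theorem two {c d : Sylow p H} (hc : g • c = c) (hd : g • d = d) (hcd : c ≠ d) :
    ∃ k, Commute g k ∧ k • a = c ∧ k • b = d := by
  have hx := (h.fix_iff h.ne h.ga h.gb h.xa).2 h.xg.symm
  obtain ⟨k, h1, h2⟩ : ∃ k, Commute g k ∧ k • a = c := by
    by_cases e : b = c
    · obtain ⟨k, -, h1⟩ := h.trC (h.smul_ne h.ne h.xa) (e ▸ h.xb) hx h.ga hc
      exact ⟨k, h1⟩
    · obtain ⟨k, -, h1⟩ := h.trC h.ne.symm e h.gb h.ga hc
      exact ⟨k, h1⟩
  obtain ⟨l, h3, h4, h5⟩ := h.trC (b := k • b) (fun e => h.ne (smul_left_cancel k (h2.trans e))) hcd hc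
    (by rw [← mul_smul, h1.eq, mul_smul, h.gb]) hd
  exact ⟨l * k, h4.mul_right h1, by rw [mul_smul, h2, smul_self_of_mem h3], by rw [mul_smul, h5]⟩

theorem dec {k : H} (h1 : Commute g k) (h2 : k • a = a) : ∃ u ∈ zpowers x, u • b = k • b := by
  obtain ⟨u, h3, h4, h5⟩ := h.trC (c := k • b) h.ne (fun e => h.ne (smul_left_cancel k (h2.trans e)))
    h.ga h.gb (by rw [← mul_smul, h1.eq, mul_smul, h.gb])
  exact ⟨u, h.cen ▸ mem_inf.2 ⟨h3, mem_centralizer_singleton_iff.2 h4.symm⟩, h5⟩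

theorem cardC : Nat.card (centralizer ({g} : Set H)) =
    Nat.card ↥((stabilizer H a ⊓ stabilizer H b) ⊓ centralizer {g}) * (p * (p + 1)) := by
  have h1 := card_inf_mul_relIndex (stabilizer H a) (centralizer {g})
  have h2 := card_inf_mul_relIndex (stabilizer H b) (stabilizer H a ⊓ centralizer {g})
  have h3 : orbit (centralizer ({g} : Set H)) a = fixedBy _ g := Set.ext fun c =>
    ⟨fun ⟨k, e⟩ => e ▸ (Fx p g).smul_mem k h.ga, fun e => by
      by_cases e' : c = a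
      · exact e' ▸ mem_orbit_self _
      obtain ⟨k, h1, h2, -⟩ := h.two e h.ga e'
      exact ⟨⟨k, mem_centralizer_singleton_iff.2 h1.symm⟩, h2⟩⟩
  have h4 : orbit ↥(stabilizer H a ⊓ centralizer ({g} : Set H)) b = fixedBy _ g \ {a} := Set.ext fun c =>
    ⟨fun ⟨k, e⟩ => ⟨e ▸ (Fx p g).smul_mem ⟨k, k.2.2⟩ h.gb,
      fun e' => h.ne (smul_left_cancel k.1 (k.2.1.trans (e'.symm.trans e.symm)))⟩, fun e => by
      obtain ⟨k, h1, h2⟩ := h.two h.ga e.1 (Ne.symm e.2)
      exact ⟨⟨k, h2.1, mem_centralizer_singleton_iff.2 h1.symm⟩, h2.2⟩⟩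
  have h5 : (fixedBy (Sylow p H) g).ncard = p + 1 := h.cardF
  rw [relIndex_stab, h3, h5] at h1
  rw [relIndex_stab, h4, Set.ncard_sdiff_singleton_of_mem (s := fixedBy (Sylow p H) g) h.ga, h5, Nat.add_sub_cancel, ← inf_assoc,
    inf_comm (stabilizer H b)] at h2
  rw [← h1, ← h2, mul_assoc]

theorem num : ∃ j, 2 * Nat.card ↥(stabilizer H a ⊓ stabilizer H b) =
    Nat.card ↥((stabilizer H a ⊓ stabilizer H b) ⊓ centralizer {g}) * (p + 1) * j ∧
    Nat.card ↥((stabilizer H a ⊓ stabilizer H b) ⊓ centralizer {g}) * j ∣ p - 1 :=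
  a9 h.pr (card_dvd_of_le inf_le_left) (by
    rw [← h.cardC, ← h.card_E h.ne, ← h.card]; exact card_subgroup_dvd_card _) (h.card_E h.ne ▸ h.dvd)

theorem gD : g ∈ (stabilizer H a ⊓ stabilizer H b) ⊓ centralizer {g} :=
  ⟨⟨h.ga, h.gb⟩, mem_centralizer_singleton_iff.2 rfl⟩

theorem three (h3 : p % 4 = 3) (h2 : orderOf g = 2) : False := by
  obtain ⟨j, h4, h5⟩ := h.num
  obtain ⟨d, hd⟩ := h2 ▸ orderOf_dvd_card_of_mem h.gD
  obtain ⟨q, hq⟩ : ∃ q, p + 1 = 4 * q := ⟨(p + 1) / 4, by omega⟩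
  have := (four_cent h.gD.1 h2 ⟨d * q * j, Nat.eq_of_mul_eq_mul_left two_pos (by
    rw [h4, hd, hq]; ring)⟩).trans ((dvd_mul_right _ j).trans h5)
  omega

theorem three' (h3 : p % 4 = 3) (h2 : orderOf g % 2 = 1)
    (h4 : ∀ t : H, orderOf t = 2 → Nat.card (fixedBy (Sylow p H) t) = 2) : False := by
  obtain ⟨M, h5, h6⟩ := exists_even (G := centralizer ({g} : Set H)) (Ω := Fx p g)
  have h7 := M.card_mul_index
  obtain ⟨q, hq⟩ : ∃ q, p + 1 = 4 * q := ⟨(p + 1) / 4, by omega⟩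
  rw [h.cardC, hq, mul_left_comm p, mul_left_comm _ 4] at h7
  obtain ⟨v, hv, h8⟩ := exists_mem_orderOf_eq_of_dvd_card (H := M) Nat.prime_two (by
    rcases h5 with e | e <;> rw [e] at h7 <;> omega)
  have h9 := h6 v hv (Block.mul_self_of_orderOf h8)
  have h10 := h4 v ((orderOf_coe v).trans h8)
  have h11 : ∀ c : Sylow p H, v.1 • c = c → g • c = c := fun c hc => by
    by_contra e
    have e1 : ∀ {c : Sylow p H}, v.1 • c = c → v.1 • g • c = g • c := fun hc => by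
      rw [← mul_smul, mem_centralizer_singleton_iff.1 v.2, mul_smul, hc]
    obtain ⟨y, -, hy⟩ := (Nat.card_eq_two_iff' (⟨g • c, e1 hc⟩ : fixedBy (Sylow p H) v.1)).1 h10
    have e2 : g • g • c = c := congrArg Subtype.val ((hy ⟨_, e1 (e1 hc)⟩ fun e' =>
      e (smul_left_cancel g (congrArg Subtype.val e'))).trans
      (hy ⟨c, hc⟩ fun e' => e (congrArg Subtype.val e').symm).symm)
    have e3 : g ^ 2 ∈ stabilizer H c := by rwa [mem_stabilizer_iff, sq, mul_smul]
    have e4 := pow_mem e3 (orderOf g / 2 + 1)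
    rw [← pow_mul, show 2 * (orderOf g / 2 + 1) = orderOf g + 1 by omega, pow_succ,
      pow_orderOf_eq_one, one_mul] at e4
    exact e e4
  have h12 : Nat.card (fixedBy (Fx p g) v) = Nat.card (fixedBy (Sylow p H) v.1) := Nat.card_congr
    ⟨fun c => ⟨c.1.1, congrArg Subtype.val c.2⟩, fun c => ⟨⟨c.1, h11 c.1 c.2⟩, Subtype.ext c.2⟩,
      fun _ => rfl, fun _ => rfl⟩
  rw [h12, h10, show Nat.card (Fx p g) = p + 1 from h.cardF, Nat.ModEq] at h9
  omega

theorem mem_ker {k : centralizer ({g} : Set H)} (h1 : k.1 • a = a) (h2 : k.1 • b = b)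
    (h3 : k.1 • x • b = x • b) : toPermHom _ (Fx p g) k = 1 := by
  refine Equiv.ext fun ⟨c, hc⟩ => Subtype.ext ?_
  change k.1 • c = c
  by_cases e : a = c
  · exact e ▸ h1
  obtain ⟨u, h4, h5, rfl⟩ := h.trC h.ne e h.ga h.gb hc
  exact (h.fix_iff h.ne h1 h2 h4).2 (comm_zp (h.cen ▸ mem_inf.2 ⟨h4, mem_centralizer_singleton_iff.2 h5.symm⟩)
    ((h.fix_iff h.ne h1 h2 h.xa).1 h3))

theorem of_ker {k : centralizer ({g} : Set H)} (e : toPermHom _ (Fx p g) k = 1) {c : Sylow p H}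
    (hc : g • c = c) : k.1 • c = c :=
  congrArg Subtype.val (congrArg (fun σ : Equiv.Perm (Fx p g) => σ ⟨c, hc⟩) e)

theorem one (h1 : p % 4 = 1) :
    Nat.card ↥((stabilizer H a ⊓ stabilizer H b) ⊓ centralizer {g}) = p - 1 ∧
    (∀ k : centralizer ({g} : Set H), toPermHom _ (Fx p g) k = 1 → k.1 = 1 ∨ k.1 = g) ∧
    ∀ t : centralizer ({g} : Set H), t * t = 1 → 2 ≤ Nat.card (fixedBy (Fx p g) t) := by
  obtain ⟨j, -, h3⟩ := h.num
  set φ := toPermHom (centralizer ({g} : Set H)) (Fx p g)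
  set x' : centralizer ({g} : Set H) := ⟨x, mem_centralizer_singleton_iff.2 h.xg⟩
  set g' : centralizer ({g} : Set H) := ⟨g, h.gD.2⟩
  have hxb := (h.fix_iff h.ne h.ga h.gb h.xa).2 h.xg.symm
  have hφ : ∀ k l, φ.rangeRestrict k = φ.rangeRestrict l → ∀ c : Sylow p H, g • c = c → k.1 • c = l.1 • c :=
    fun k l e c hc => congrArg Subtype.val
      (congrArg (fun σ : Equiv.Perm (Fx p g) => σ ⟨c, hc⟩) (congrArg Subtype.val e))
  have hcm : ∀ k : centralizer ({g} : Set H), Commute g k.1 := fun k =>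
    (mem_centralizer_singleton_iff.1 k.2).symm
  have hfx : ∀ (k : centralizer ({g} : Set H)) (c : Sylow p H), g • c = c → g • k.1 • c = k.1 • c :=
    fun k c hc => (Fx p g).smul_mem k hc
  have hxf : ∀ u ∈ zpowers x, ∀ c : Sylow p H, u • c = c → u = 1 ∨ c = a := fun u hu c e =>
    or_iff_not_imp_right.2 fun e' => h.ti.eq_one_of_smul_eq e' (zpowers_le_of_mem h.xa hu) e
  have hx1 := ne_one_of_orderOf_eq_prime h.pr h.ox
  have hK : φ.ker.map (centralizer ({g} : Set H)).subtype ≤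
      (stabilizer H a ⊓ stabilizer H b) ⊓ centralizer {g} := by
    rintro _ ⟨k, hk, rfl⟩
    exact ⟨⟨h.of_ker hk h.ga, h.of_ker hk h.gb⟩, k.2⟩
  obtain ⟨e, he⟩ := card_dvd_of_le hK
  rw [card_subtype] at he
  have hg' : g' ∈ φ.ker := h.mem_ker h.ga h.gb hxb
  have hk2 : 2 ≤ Nat.card φ.ker := (one_lt_card_iff_ne_bot _).2 fun e =>
    h.g1 (congrArg Subtype.val (mem_bot.1 (e ▸ hg') : g' = 1))
  have hS : Nat.card φ.range = p * (e * (p + 1)) := by
    have := φ.ker.card_mul_index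
    rw [index_ker, h.cardC, he, mul_assoc, mul_left_comm e] at this
    exact Nat.eq_of_mul_eq_mul_left (by omega) this
  have h4 := (dvd_mul_right _ j).trans h3
  rw [he] at h4
  have h5 := Nat.le_of_dvd (by have := h.h5; omega) h4
  have h6 : 2 * e ≤ p - 1 := (Nat.mul_le_mul_right e hk2).trans h5
  obtain ⟨q, hq⟩ : ∃ q, p = 2 * q + 1 := ⟨p / 2, by omega⟩
  have hpre : Pre p (e * (p + 1)) (φ.rangeRestrict x') := by
    refine ⟨h.pr, h.h5, orderOf_eq_prime (by
      rw [← map_pow, show x' ^ p = 1 from Subtype.ext (by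
        rw [coe_pow, ← h.ox]; exact pow_orderOf_eq_one x), map_one]) fun e =>
        h.xb (by simpa using hφ x' 1 (e.trans (map_one _).symm) b h.gb),
      fun s hs => ?_, fun hn => ?_, hS, ?_⟩
    · obtain ⟨k, rfl⟩ := φ.rangeRestrict_surjective s
      have e1 := hφ (k * x') (x' * k) (by rw [map_mul, map_mul, hs.eq])
      simp only [coe_mul, mul_smul] at e1
      have e2 : k.1 • a = a := (hxf x (mem_zpowers x) _ (by
        rw [← e1 a h.ga, smul_self_of_mem h.xa])).resolve_left hx1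
      obtain ⟨_, ⟨i, rfl⟩, e3⟩ := h.dec (hcm k) e2
      have e4 := h.mem_ker (k := (x' ^ i)⁻¹ * k) (by
        rw [coe_mul, mul_smul, e2]
        exact smul_self_of_mem ((a : Subgroup H).inv_mem ((a : Subgroup H).zpow_mem h.xa i)))
        (by rw [coe_mul, mul_smul, ← e3]; exact inv_smul_smul _ _) (by
          rw [coe_mul, mul_smul, e1 b h.gb, ← e3, ← mul_smul x, ← ((Commute.refl x).zpow_left i).eq,
            mul_smul]
          exact inv_smul_smul _ _)
      refine ⟨i, Subtype.ext ?_⟩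
      rw [map_mul, map_inv, inv_mul_eq_one, map_zpow] at e4
      exact e4
    · obtain ⟨k, e1, e2, e3⟩ := h.two h.gb h.ga h.ne.symm
      obtain ⟨i, hi⟩ := hn.conj_mem _ (mem_zpowers _)
        (φ.rangeRestrict ⟨k, mem_centralizer_singleton_iff.2 e1.symm⟩)
      simp only [← map_zpow, ← map_inv, ← map_mul] at hi
      have e4 := hφ _ _ hi a h.ga
      simp only [coe_mul, coe_inv, mul_smul, coe_zpow] at e4
      rw [smul_self_of_mem ((a : Subgroup H).zpow_mem h.xa i), inv_smul_eq_iff.2 e3.symm, ← e3] at e4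
      exact h.xb (smul_left_cancel k e4).symm
    · rw [fac p h.pr.pos, mul_comm 2]
      exact Nat.mul_dvd_mul (Nat.mul_dvd_mul_right ((dvd_mul_left _ _).trans h4) _)
        ⟨2 * (q * q + q) + 1, by rw [hq]; ring⟩
  have h7 : 2 * (e * (p + 1)) ≤ p ^ 2 - 1 := by
    rw [fac2 p h.pr.pos, ← mul_assoc]; exact Nat.mul_le_mul_right _ h6
  obtain ⟨-, h8⟩ := hpre.cls (by
    rw [fac p h.pr.pos, ← fac2 p h.pr.pos]
    nlinarith [Nat.mul_le_mul h7 (show e * (p + 1) ≤ p ^ 2 + 1 by omega)])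
  replace h8 := h8.resolve_left fun ⟨⟨i, hi⟩, _⟩ => by
    have : 4 ∣ p + 1 := hi ▸ pow_dvd_pow 2 (show 2 ≤ i by
      by_contra e
      have := h.h5
      have : i ≤ 1 := by omega
      interval_cases i <;> omega)
    omega
  have h9 := card_le_card_group (normalClosure {φ.rangeRestrict x'})
  have h10 : 2 * (e * (p + 1)) = p ^ 2 - 1 := le_antisymm h7
    (Nat.le_of_mul_le_mul_left (by rw [← h8, mul_left_comm, ← hS]; omega) h.pr.pos)
  have hG : Good p (e * (p + 1)) (φ.rangeRestrict x') := ⟨hpre, eq_top_of_card_eq _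
    (Nat.eq_of_mul_eq_mul_left two_pos (by rw [h8, hS, ← h10]; ring))⟩
  rw [fac2 p h.pr.pos, ← mul_assoc] at h10
  replace h10 := Nat.eq_of_mul_eq_mul_right p.succ_pos h10
  have h11 : Nat.card φ.ker = 2 := le_antisymm (Nat.le_of_mul_le_mul_right (h5.trans h10.ge) (by
    have := h.h5; omega)) hk2
  refine ⟨by rw [he, h11, h10], fun k hk => or_iff_not_imp_left.2 fun e => ?_, fun t ht => ?_⟩
  · obtain ⟨y, -, hy⟩ := (Nat.card_eq_two_iff' (1 : φ.ker)).1 h11
    exact congrArg (·.1.1) ((hy ⟨k, hk⟩ fun e' => e (congrArg (·.1.1) e')).trans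
      (hy ⟨g', hg'⟩ fun e' => h.g1 (congrArg (·.1.1) e')).symm)
  · obtain ⟨M, e1, e2⟩ := exists_even (G := φ.range) (Ω := Fx p g)
    have e3 := e2 (φ.rangeRestrict t) (index_eq_one.1 (e1.resolve_right (hG.no_two M)) ▸ mem_top _)
      (by rw [← map_mul, ht, map_one])
    rw [show Nat.card (Fx p g) = p + 1 from h.cardF, Nat.ModEq] at e3
    change _ = Nat.card (fixedBy (Fx p g) t) % 4 at e3
    omega

theorem inv_or (hg : g * g = 1) {t : H} (ht : t * t = 1) (h1 : t • a = a) (hc : Commute t g)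
    (hx : ¬ Commute t x) : Inv a t ∨ Inv a (t * g) := by
  have hcm : ∀ u ∈ (a : Subgroup H), ∀ v ∈ (a : Subgroup H), Commute u v := fun u hu v hv =>
    h.comm (h.hc a) hu hv
  by_cases e : ∀ u ∈ (a : Subgroup H), Commute t u → u = 1
  · exact Or.inl fun u hu => inv_of hcm ht (fun u hu => h.nrm h1 hu) e hu
  push Not at e
  obtain ⟨u, h2, h3, h4⟩ := e
  have key : ∀ {s s' : H}, s * s = 1 → s • a = a → Commute s s' →
      (∀ v ∈ (a : Subgroup H), Commute s v → Commute s' v → v = 1) →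
      ∀ v ∈ (a : Subgroup H), Commute s' v → s * v * s⁻¹ = v⁻¹ := fun {s s'} e1 e2 e3 e4 v e5 e6 =>
    inv_of (A := (a : Subgroup H) ⊓ centralizer {s'}) (fun u hu v hv => hcm u hu.1 v hv.1) e1
      (fun u hu => ⟨h.nrm e2 hu.1, mem_centralizer_singleton_iff.2
        ((e3.mul_left (mem_centralizer_singleton_iff.1 hu.2)).mul_left e3.inv_left)⟩)
      (fun u hu e => e4 u hu.1 e (mem_centralizer_singleton_iff.1 hu.2).symm)
      ⟨e5, mem_centralizer_singleton_iff.2 e6.symm⟩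
  have h5 : ∀ v ∈ (a : Subgroup H), Commute t v → Commute g v → v = 1 := fun v e1 e2 e3 => by
    by_contra e4
    exact hx (comm_zp (zp_eq h.pr h.ox (h.cen ▸ mem_inf.2
      ⟨e1, mem_centralizer_singleton_iff.2 e3.symm⟩) e4 ▸ mem_zpowers x) e2)
  have h6 := key ht h1 hc h5 x h.xa h.xg.symm
  have h7 := key hg h.ga hc.symm (fun v e1 e2 e3 => h5 v e1 e3 e2) u h2 h3
  have h8 := h.sup (h.hc a) h.ox h.xa h2 fun e => h4 (h5 u h2 h3 (comm_zp e h.xg.symm))
  refine Or.inr fun w hw => ?_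
  obtain ⟨_, ⟨i, rfl⟩, _, ⟨j, rfl⟩, rfl⟩ := (mem_sup_of_right_le_normalizer (zpowers_le_of_mem
    (mem_normalizer_of_conj_mem fun n hn => by
      rwa [(comm_zp hn (hcm u h2 x h.xa)).eq, mul_inv_cancel_right]))).1 (h8.ge hw)
  have e1 : t * g * x * (t * g)⁻¹ = x⁻¹ := by
    rw [← h6, mul_assoc t g, ← h.xg.eq]; group
  have e2 : t * g * u * (t * g)⁻¹ = u⁻¹ := by
    rw [hc.eq, ← h7, mul_assoc g t, h3.eq]; group
  rw [← conj_mul, ← conj_zpow, ← conj_zpow, e1, e2, inv_zpow, inv_zpow, ← mul_inv_rev,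
    ((hcm u h2 x h.xa).zpow_zpow j i).eq]

theorem one' (h1 : p % 4 = 1) : False := by
  classical
  obtain ⟨h2, h3, h4⟩ := h.one h1
  have hxb := (h.fix_iff h.ne h.ga h.gb h.xa).2 h.xg.symm
  have hg : g * g = 1 := (h3 ⟨g * g, mul_mem h.gD.2 h.gD.2⟩ (h.mem_ker (by simp [mul_smul, h.ga])
    (by simp [mul_smul, h.gb]) (by simp [mul_smul, hxb]))).resolve_right fun e => h.g1 (by simpa using e)
  have hD : ∀ t, t * t = 1 → t ≠ 1 → t ≠ g → Commute t g → ∃ k s, Commute g k ∧ k * s * k⁻¹ = t ∧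
      s • a = a ∧ s • b = b ∧ (Inv a s ∨ Inv a (s * g)) := fun t e1 e2 e3 e4 => by
    obtain ⟨c, d, e5, e6, e7⟩ := exists_two (h4 ⟨t, mem_centralizer_singleton_iff.2 e4⟩ (Subtype.ext e1))
    obtain ⟨k, e8, e9, e10⟩ := h.two c.2 d.2 fun e => e5 (Subtype.ext e)
    have f1 : (k⁻¹ * t * k) • a = a := by
      rw [mul_smul, mul_smul, e9, inv_smul_eq_iff, e9]; exact congrArg Subtype.val e6
    have f2 : (k⁻¹ * t * k) • b = b := by
      rw [mul_smul, mul_smul, e10, inv_smul_eq_iff, e10]; exact congrArg Subtype.val e7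
    have f3 : Commute (k⁻¹ * t * k) g := (e8.symm.inv_left.mul_left e4).mul_left e8.symm
    refine ⟨k, _, e8, by group, f1, f2, h.inv_or hg (by
      rw [show k⁻¹ * t * k * (k⁻¹ * t * k) = k⁻¹ * (t * t) * k by group, e1]; group) f1 f3 fun e => ?_⟩
    rcases h3 ⟨_, mem_centralizer_singleton_iff.2 f3⟩ (h.mem_ker f1 f2
      ((h.fix_iff h.ne f1 f2 h.xa).2 e)) with e' | e'
    · exact e2 (cj1 e')
    · refine e3 ?_
      have : k⁻¹ * t * k = g := e'
      rw [← mul_inv_cancel_right g k, e8.eq, ← this]; group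
  have hz2 : ∀ {z}, z • a = a → z • b = b → Inv a z → ¬ IsConj g z := fun e1 e2 e3 e4 => by
    have := fix_conj (Ω := Sylow p H) e4
    rw [h.cardF, h.fix_inv h.ne e1 e2 e3] at this
    have := h.h5
    omega
  have huq : ∀ {z z'}, z • b = b → z' • b = b → Inv a z → Inv a z' → z = z' := fun {z z'} e1 e2 e3 e4 =>
    (inv_mul_eq_one.1 (h.eq_one h.ne (by rw [mul_smul, e1, inv_smul_eq_iff, e2]) fun u hu => by
      have := (e3 u hu).trans (e4 u hu).symm
      calc z'⁻¹ * z * u = z'⁻¹ * (z * u * z⁻¹) * z := by group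
        _ = u * (z'⁻¹ * z) := by rw [this]; group)).symm
  by_cases hI : IsIsolated g
  · have h5 : (a : Subgroup H) ≤ centralizer {g} := fun u _ => by
      have := Block.zstar hg hI u
      rw [h.oddCore, mem_bot, mul_inv_eq_one, mul_inv_eq_iff_eq_mul] at this
      exact mem_centralizer_singleton_iff.2 this
    have h6 := h.hc a
    rw [← inf_eq_left.2 h5, h.cen, Nat.card_zpowers, h.ox] at h6
    nlinarith [h.h5]
  obtain ⟨l, e1, e2⟩ : ∃ l, Commute g (l * g * l⁻¹) ∧ l * g * l⁻¹ ≠ g := by simpa [IsIsolated] using hI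
  obtain ⟨k, t, e3, e4, e5, e6, e7⟩ := hD (l * g * l⁻¹) (by rw [conj_mul, hg]; group)
    (by simpa using h.g1) e2 e1.symm
  have ht : IsConj g t := (isConj_iff.2 ⟨l, rfl⟩).trans (isConj_iff.2 ⟨k, e4⟩).symm
  replace e7 := e7.resolve_left fun e => hz2 e5 e6 e ht
  have e8 : (t * g) • a = a := by rw [mul_smul, h.ga, e5]
  have e9 : (t * g) • b = b := by rw [mul_smul, h.gb, e6]
  have hz := hz2 e8 e9 e7
  have hz1 : t * g ≠ 1 := fun e => ne_one_of_orderOf_eq_prime h.pr h.ox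
    (h.inv_eq_one h.xa (by simpa [e] using e7 x h.xa))
  have hzz : t * g * (t * g) = 1 := h.eq_one h.ne (by rw [mul_smul, e9, e9]) fun u hu => by
    calc t * g * (t * g) * u = (t * g * (t * g * u * (t * g)⁻¹) * (t * g)⁻¹) * (t * g * (t * g)) := by group
      _ = _ := by rw [e7 u hu, e7 _ ((a : Subgroup H).inv_mem hu), inv_inv]
  have hst : ∀ s, s * s = 1 → s ≠ 1 → Commute s g → ¬ IsConj g s → IsConj g (s * g) :=
    fun s f1 f2 f3 f4 => by
      obtain ⟨k, s', f5, rfl, f6, f7, f8⟩ := hD s f1 f2 (fun e => f4 (e ▸ IsConj.refl _)) f3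
      rcases f8 with f8 | f8
      · rw [huq f7 e9 f8 e7]
        refine ht.trans (isConj_iff.2 ⟨k, ?_⟩)
        rw [mul_assoc _ k⁻¹, ← f5.inv_right.eq, mul_assoc k (t * g), mul_assoc t g, ← mul_assoc g g, hg]
        group
      · rw [mul_right_cancel (huq (by rw [mul_smul, h.gb, f7]) e9 f8 e7)] at f4
        exact absurd (ht.trans (isConj_iff.2 ⟨k, rfl⟩)) f4
  generalize t * g = z at hz hz1 hzz
  have hst' : ∀ s, IsConj g s → Commute z s → IsConj g (z * s) := fun s f1 f2 => by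
    obtain ⟨n, rfl⟩ := isConj_iff.1 f1
    have f3 := f2.map (MulAut.conj n⁻¹)
    refine (hst (n⁻¹ * z * n) (by
      rw [show n⁻¹ * z * n * (n⁻¹ * z * n) = n⁻¹ * (z * z) * n by group, hzz]; group)
      (fun e => hz1 (cj1 e)) (by simpa [mul_assoc] using f3) fun e => hz (e.trans
        (isConj_iff.2 ⟨n, by group⟩))).trans (isConj_iff.2 ⟨n, by group⟩)
  have := Fintype.ofFinite H
  have h5 : ∑ _s ∈ Finset.univ.filter (IsConj g), (1 : ZMod 2) = 0 := by
    refine Finset.sum_involution (fun s _ => if Commute z s then z * s else z * s * z⁻¹)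
      (fun _ _ => rfl) (fun s _ _ => ?_) (fun s hs => ?_) fun s _ => ?_
    · split_ifs with e
      · simpa using hz1
      · exact fun e' => e (mul_inv_eq_iff_eq_mul.1 e')
    · have f1 := (Finset.mem_filter.1 hs).2
      refine Finset.mem_filter.2 ⟨Finset.mem_univ _, ?_⟩
      split_ifs with e
      · exact hst' s f1 e
      · exact f1.trans (isConj_iff.2 ⟨z, rfl⟩)
    · by_cases e : Commute z s
      · simp only [if_pos e, if_pos ((Commute.refl z).mul_right e), ← mul_assoc, hzz, one_mul]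
      · have e' : ¬ Commute z (z * s * z⁻¹) := fun e' => e (by
          simpa [mul_assoc] using e'.map (MulAut.conj z⁻¹))
        simp only [if_neg e, if_neg e']
        rw [inv_eq_of_mul_eq_one_right hzz, ← mul_assoc, ← mul_assoc, hzz, mul_assoc, hzz]
        simp
  rw [Finset.sum_const, nsmul_eq_mul, mul_one, ZMod.natCast_eq_zero_iff] at h5
  have h6 := M11.cc_mul g
  obtain ⟨j, h7, h8⟩ := h.num
  have h0 : 0 < p - 1 := by have := h.h5; omega
  rw [h2] at h7 h8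
  obtain rfl : j = 1 := Nat.dvd_one.1 (Nat.dvd_of_mul_dvd_mul_left h0 (by rwa [mul_one]))
  rw [M11.cc, h.cardC, h2, h.card, h.card_E h.ne, ← Set.ncard_coe_finset, Finset.coe_filter_univ] at *
  obtain ⟨n, hn⟩ := h5
  obtain ⟨q, hq⟩ : ∃ q, p = 2 * q + 1 := ⟨p / 2, by omega⟩
  have h9 : (p - 1) * (p * (p + 1)) * (4 * n) = (p - 1) * (p * (p + 1)) * (p * (p ^ 2 + 1)) := by
    have h10 : {w | IsConj g w}.ncard = 2 * n := hn
    rw [h10] at h6
    linear_combination 2 * h6 + p ^ 2 * (p ^ 2 + 1) * h7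
  have h10 := Nat.eq_of_mul_eq_mul_left (by have := h.pr.pos; positivity) h9
  rw [hq, show (2 * q + 1) * ((2 * q + 1) ^ 2 + 1) = 4 * (2 * q ^ 3 + 3 * q ^ 2 + 2 * q) + 2 by ring] at h10
  omega

end Cfg

theorem HT.cfg (h : HT p m H) {g : H} (h1 : g ≠ 1) (h2 : 2 < Nat.card (fixedBy (Sylow p H) g)) :
    ∃ (a b : Sylow p H) (x : H), Cfg m a b g x := by
  obtain ⟨a, b, h3, h4, h5⟩ := exists_two h2.le
  obtain ⟨x, h6, h7⟩ := (h.cen_cases h3 h5 h1).resolve_left fun e => by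
    rw [h.card_fix h3 h4 h5, e, card_bot] at h2
    omega
  exact ⟨a, b, x, h, h3, h1, h4, h5, h6, h7⟩

omit [Fact p.Prime] in
theorem Hyp.hB (h : Hyp p m H) (hti : SylowTI p H) (h2 : ∀ M : Subgroup H, M.index ≠ 2) :
    ∀ r : ℕ, r.Prime → r ≠ p → ∀ x : H, orderOf x ≠ p * r := fun r hr hrp y hy => by
  have := Fact.mk h.pr
  have h' : HT p m H := ⟨h, hti⟩
  have ho := odd_of h.pr h.h5
  have hx : orderOf (y ^ r) = p := by
    rw [orderOf_pow' y hr.ne_zero, hy, Nat.gcd_eq_right (dvd_mul_left r p), Nat.mul_div_cancel _ hr.pos]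
  have hg : orderOf (y ^ p) = r := by
    rw [orderOf_pow' y h.pr.ne_zero, hy, Nat.gcd_eq_right (dvd_mul_right p r),
      Nat.mul_div_cancel_left _ h.pr.pos]
  have hc : Commute (y ^ p) (y ^ r) := (Commute.refl y).pow_pow p r
  obtain ⟨a, ha⟩ := (isPGroup_zpowers_of_orderOf_eq hx).exists_le_sylow
  replace ha : y ^ r ∈ a := ha (mem_zpowers _)
  have hx1 := ne_one_of_orderOf_eq_prime h.pr hx
  have h3 : y ^ p • a = a := hti _ _ _ hx1 (by
    have := conj_mem_conj_smul (y ^ p) (H := a) ha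
    rwa [hc.eq, mul_inv_cancel_right] at this) ha
  obtain ⟨b, h4, h5⟩ : ∃ b : Sylow p H, a ≠ b ∧ y ^ p • b = b := by
    by_contra! e
    have h6 := fix_modEq (Ω := Sylow p H) hr (hg ▸ pow_orderOf_eq_one (y ^ p))
    have h7 : Nat.card (fixedBy (Sylow p H) (y ^ p)) = 1 := Nat.card_eq_one_iff_exists.2
      ⟨⟨a, h3⟩, fun c => Subtype.ext (by_contra fun e' => e c.1 (Ne.symm e') c.2)⟩
    rw [h'.card_syl', h7] at h6
    exact hrp ((Nat.prime_dvd_prime_iff_eq hr h.pr).1 (hr.dvd_of_dvd_pow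
      (by simpa using (Nat.modEq_iff_dvd' (by omega)).1 h6.symm)))
  obtain ⟨a', b', x, hC⟩ := h'.cfg (ne_one_of_orderOf_eq_prime hr hg) (by
    rw [h'.card_fix h4 h3 h5]
    exact Nat.succ_lt_succ ((one_lt_card_iff_ne_bot _).2 fun e => hx1
      (mem_bot.1 (e ▸ mem_inf.2 ⟨ha, mem_centralizer_singleton_iff.2 hc.symm⟩))))
  rcases (by omega : p % 4 = 1 ∨ p % 4 = 3) with e | e
  · exact hC.one' e
  have h6 : ∀ t : H, orderOf t = 2 → Nat.card (fixedBy (Sylow p H) t) = 2 := fun t ht => by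
    obtain ⟨M, e1, e2⟩ := exists_even (G := H) (Ω := Sylow p H)
    have e3 := e2 t (index_eq_one.1 (e1.resolve_right (h2 M)) ▸ mem_top _) (Block.mul_self_of_orderOf ht)
    obtain ⟨q, hq⟩ : ∃ q, p = 2 * q + 1 := ⟨p / 2, by omega⟩
    rw [h'.card_syl', show p ^ 2 + 1 = 4 * (q * q + q) + 2 by rw [hq]; ring, Nat.ModEq] at e3
    by_contra e4
    obtain ⟨a, b, x, hC⟩ := h'.cfg (ne_one_of_orderOf_eq_prime Nat.prime_two ht) (by omega)
    exact hC.three e ht
  rcases hr.eq_two_or_odd with rfl | e'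
  · exact hC.three e hg
  · exact hC.three' e (hg ▸ e') h6

end Cfsg.Agent.P2R
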