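import Cfsg.Agent.P2R.Exc

/-!
# A regular orbit on the conjugates of a subgroup of order `p`
-/

set_option autoImplicit false
set_option linter.unusedSectionVars false

namespace Cfsg.Agent.P2R

open Subgroup Cfsg.Agent.Local
open scoped Pointwise

variable {H : Type*} [Group H] [Finite H] {p m : ℕ}

theorem zp_eq (hp : p.Prime) {x y : H} (hx : orderOf x = p) (hy : y ∈ zpowers x) (h1 : y ≠ 1) :
    zpowers y = zpowers x := eq_of_le_of_card_ge (zpowers_le_of_mem hy) (by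
  have := orderOf_dvd_card_of_mem hy
  rw [Nat.card_zpowers, hx] at this
  rw [Nat.card_zpowers, Nat.card_zpowers, hx,
    (hp.eq_one_or_self_of_dvd _ this).resolve_left (orderOf_eq_one_iff.not.2 h1)])

theorem comm_zp {x y g : H} (hy : y ∈ zpowers x) (h : Commute g x) : Commute g y := by
  obtain ⟨k, rfl⟩ := hy
  exact h.zpow_right k

theorem a5 {p w w' : ℕ} (hp : p.Prime) (h5 : 5 < p) (hd : 2 * (w * w') ∣ p ^ 4 - 1) (h4 : 4 ∣ w')
    (h : (w = p + 1 ∧ ∃ j, p + 1 = 2 ^ j) ∨ 2 * w = p ^ 2 - 1) : False := by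
  obtain ⟨k, rfl⟩ := h4
  obtain ⟨q, hq⟩ : ∃ q, p = 2 * q + 1 := ⟨p / 2, by have := odd_of hp h5; omega⟩
  have h1 : p ^ 2 + 1 = 2 * (2 * (q * q + q) + 1) := by rw [hq]; ring
  rcases h with ⟨rfl, j, hj⟩ | h
  · rw [fac p hp.pos, mul_comm (p - 1), mul_assoc, mul_left_comm] at hd
    replace hd := Nat.dvd_of_mul_dvd_mul_left p.succ_pos hd
    have h2 : 4 ∣ p + 1 := hj ▸ pow_dvd_pow 2 (show 2 ≤ j by
      by_contra e
      have : j ≤ 1 := by omega
      interval_cases j <;> omega)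
    obtain ⟨r, hr⟩ : ∃ r, p - 1 = 2 * (2 * r + 1) := ⟨q / 2, by omega⟩
    rw [h1, hr, show 2 * (2 * r + 1) * (2 * (2 * (q * q + q) + 1)) =
      8 * (r * (2 * (q * q + q) + 1) + (q * q + q)) + 4 by ring] at hd
    have := (show 8 ∣ 2 * (4 * k) from ⟨k, by ring⟩).trans hd
    omega
  · rw [fac p hp.pos, ← fac2 p hp.pos, ← mul_assoc, h] at hd
    have h2 : 0 < p ^ 2 - 1 := by have := Nat.one_lt_pow two_ne_zero hp.one_lt; omega
    have := (dvd_mul_right 4 k).trans (Nat.dvd_of_mul_dvd_mul_left h2 hd)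
    omega

namespace Hyp

variable (h : Hyp p m H)
include h

theorem nd : ¬ p ∣ m := not_dvd_of_dvd h.pr h.dvd

theorem comm {P : Subgroup H} (hP : Nat.card P = p ^ 2) {x y : H} (hx : x ∈ P) (hy : y ∈ P) :
    Commute x y := by
  have := Fact.mk h.pr
  exact congrArg Subtype.val ((IsPGroup.isMulCommutative_of_card_eq_prime_sq hP).1.1 ⟨x, hx⟩ ⟨y, hy⟩)

theorem syl {P : Subgroup H} (hP : Nat.card P = p ^ 2) : IsSylowIn p P ⊤ :=
  ⟨le_top, IsPGroup.of_card hP, by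
    have := P.card_mul_index
    rw [hP, h.card] at this
    rw [relIndex_top_right, Nat.eq_of_mul_eq_mul_left (pow_pos h.pr.pos 2) this]
    exact h.nd⟩

theorem card_syl {P : Subgroup H} (hP : IsSylowIn p P ⊤) : Nat.card P = p ^ 2 := by
  have := Fact.mk h.pr
  rw [hP.card_eq, card_top, h.card, Nat.factorization_mul (pow_pos h.pr.pos 2).ne'
    fun e : m = 0 => h.nd (e ▸ dvd_zero p), Finsupp.add_apply, Nat.factorization_eq_zero_of_not_dvd h.nd,
    h.pr.factorization_pow, Finsupp.single_eq_same]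

theorem exists_ge {R : Subgroup H} (hR : IsPGroup p R) :
    ∃ P : Subgroup H, Nat.card P = p ^ 2 ∧ R ≤ P := by
  have := Fact.mk h.pr
  obtain ⟨P, h1, h2⟩ := exists_isSylowIn_ge hR le_top
  exact ⟨P, h.card_syl h1, h2⟩

theorem conj {P Q : Subgroup H} (hP : Nat.card P = p ^ 2) (hQ : Nat.card Q = p ^ 2) :
    ∃ g : H, MulAut.conj g • P = Q := by
  have := Fact.mk h.pr
  obtain ⟨g, -, e⟩ := (h.syl hP).exists_conj (h.syl hQ)
  exact ⟨g, e⟩

theorem sub {P A : Subgroup H} (hP : Nat.card P = p ^ 2) (hA : A ≤ P) {x : H} (hx : orderOf x = p)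
    (hxA : x ∈ A) : A = zpowers x ∨ A = P := by
  obtain ⟨i, h1, h2⟩ := (Nat.dvd_prime_pow h.pr).1 (hP ▸ card_dvd_of_le hA)
  rcases Nat.lt_or_ge i 2 with e | e
  · exact Or.inl (eq_of_le_of_card_ge (zpowers_le_of_mem hxA) (by
      rw [h2, Nat.card_zpowers, hx]
      exact (Nat.pow_le_pow_right h.pr.pos (by omega : i ≤ 1)).trans_eq (pow_one p))).symm
  · exact Or.inr (eq_of_le_of_card_ge hA (by rw [hP, h2]; exact Nat.pow_le_pow_right h.pr.pos e))

theorem sup {P : Subgroup H} (hP : Nat.card P = p ^ 2) {x y : H} (hx : orderOf x = p) (hxP : x ∈ P)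
    (hyP : y ∈ P) (hy : y ∉ zpowers x) : zpowers x ⊔ zpowers y = P :=
  (h.sub hP (sup_le (zpowers_le_of_mem hxP) (zpowers_le_of_mem hyP)) hx
    (mem_sup_left (mem_zpowers x))).resolve_left fun e => hy (e ▸ mem_sup_right (mem_zpowers y))

theorem mem_of_comm {P : Subgroup H} (hP : Nat.card P = p ^ 2) {x y g : H} (hx : orderOf x = p)
    (hxP : x ∈ P) (hyP : y ∈ P) (hy : y ∉ zpowers x) (h1 : Commute g x) (h2 : Commute g y) : g ∈ P :=
  h.self P hP g fun _ hz => (mem_centralizer_singleton_iff.1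
    ((h.sup hP hx hxP hyP hy).ge.trans (sup_le (zpowers_le_of_mem (mem_centralizer_singleton_iff.2 h1.symm))
      (zpowers_le_of_mem (mem_centralizer_singleton_iff.2 h2.symm))) hz)).symm

theorem exists_pair {x y : H} (hx : orderOf x = p) (hy : orderOf y = p) (c : Commute x y) :
    ∃ P : Subgroup H, Nat.card P = p ^ 2 ∧ x ∈ P ∧ y ∈ P := by
  have := Fact.mk h.pr
  obtain ⟨P, h1, h2⟩ := h.exists_ge ((isPGroup_zpowers_of_orderOf_eq hx).to_sup_of_normal_left'
    (isPGroup_zpowers_of_orderOf_eq hy) (zpowers_le_of_mem (mem_normalizer_of_conj_mem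
      fun n hn => by rw [(comm_zp hn c.symm).eq, mul_inv_cancel_right]; exact hn)))
  exact ⟨P, h1, h2 (mem_sup_left (mem_zpowers x)), h2 (mem_sup_right (mem_zpowers y))⟩

theorem good {x x' : H} (hx : orderOf x = p) (hx' : orderOf x' = p) (h1 : ¬ Commute x x')
    (hc : ∀ g ∈ closure {x, x'}, Commute g x → g ∈ zpowers x) :
    ∃ w, Good p w (⟨x, subset_closure (Or.inl rfl)⟩ : closure ({x, x'} : Set H)) := by
  have := Fact.mk h.pr
  set M := closure ({x, x'} : Set H)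
  have hxM : x ∈ M := subset_closure (Or.inl rfl)
  have hxM' : x' ∈ M := subset_closure (Or.inr rfl)
  have hS : IsSylowIn p (zpowers x) M := isSylowIn_of_maximal (zpowers_le_of_mem hxM)
    (isPGroup_zpowers_of_orderOf_eq hx) fun Q hQ h2 h3 => le_antisymm (fun g hg => by
      obtain ⟨P, hP, h4⟩ := h.exists_ge hQ
      exact hc g (h3 hg) (h.comm hP (h4 hg) (h4 (h2 (mem_zpowers x))))) h2
  have h2 := card_mul_relIndex hS.le
  rw [Nat.card_zpowers, hx] at h2
  obtain ⟨n, hn, h3⟩ := hS.exists_le_conj (isPGroup_zpowers_of_orderOf_eq hx') (zpowers_le_of_mem hxM')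
  obtain ⟨_, ⟨k, rfl⟩, hk⟩ := h3 (mem_zpowers x')
  replace hk : n * x ^ k * n⁻¹ = x' := hk
  have h4 : ((⟨n, hn⟩ : M) * (⟨x, hxM⟩ : M) ^ k * (⟨n, hn⟩ : M)⁻¹ : M) = ⟨x', hxM'⟩ := Subtype.ext hk
  refine ⟨_, ⟨h.pr, h.h5, (orderOf_mk _ _).trans hx, fun g hg => ?_, fun e => h1 ?_, h2.symm,
    (Nat.mul_dvd_mul_left 2 ?_).trans h.dvd⟩, eq_top_iff.2 fun g _ => ?_⟩
  · obtain ⟨k, hk⟩ := hc g g.2 (congrArg Subtype.val hg)
    exact ⟨k, Subtype.ext hk⟩
  · obtain ⟨l, hl⟩ := h4 ▸ e.conj_mem _ (zpow_mem (mem_zpowers _) k) ⟨n, hn⟩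
    exact comm_zp ⟨l, congrArg Subtype.val hl⟩ (Commute.refl x)
  · have h5 := card_subgroup_dvd_card M
    rw [← h2, h.card, sq, mul_assoc] at h5
    exact ((h.pr.coprime_iff_not_dvd).2 hS.not_dvd).symm.dvd_of_dvd_mul_left
      (Nat.dvd_of_mul_dvd_mul_left h.pr.pos h5)
  · have h3 : (⟨x, hxM⟩ : M) ∈ normalClosure {(⟨x, hxM⟩ : M)} := subset_normalClosure rfl
    have h2 : M ≤ (normalClosure {(⟨x, hxM⟩ : M)}).map M.subtype := by
      refine (closure_le (k := {x, x'}) _).2 ?_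
      rintro _ (rfl | rfl)
      · exact mem_map.2 ⟨_, h3, rfl⟩
      · exact mem_map.2 ⟨_, h4 ▸ normalClosure_normal.conj_mem _ (zpow_mem h3 k) _, rfl⟩
    obtain ⟨z, hz, e⟩ := h2 g.2
    exact (Subtype.ext e : z = g) ▸ hz

theorem cen3 {x x' y y' : H} (hx : orderOf x = p) (hy : orderOf y = p) (h1 : ¬ Commute x x')
    (h2 : ¬ Commute y y') (c1 : Commute x y) (c2 : Commute x y') (c3 : Commute x' y) {g : H}
    (g1 : Commute g x) (g2 : Commute g y) (g3 : Commute g y') : g ∈ zpowers x := by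
  obtain ⟨P, hP, hxP, hyP⟩ := h.exists_pair hx hy c1
  have h3 : y ∉ zpowers x := fun e => h1 (comm_zp (zp_eq h.pr hx e
    (ne_one_of_orderOf_eq_prime h.pr hy) ▸ mem_zpowers x) c3).symm
  rcases h.sub hP (inf_le_left : P ⊓ centralizer {y'} ≤ P) hx
    ⟨hxP, mem_centralizer_singleton_iff.2 c2⟩ with e | e
  · exact e ▸ mem_inf.2 ⟨h.mem_of_comm hP hx hxP hyP h3 g1 g2, mem_centralizer_singleton_iff.2 g3⟩
  · exact absurd (mem_centralizer_singleton_iff.1 (e.ge hyP).2) h2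

theorem pair {x x' y y' : H} (hx : orderOf x = p) (hx' : orderOf x' = p)
    (hy : orderOf y = p) (hy' : orderOf y' = p) (h1 : ¬ Commute x x') (h2 : ¬ Commute y y')
    (c1 : Commute x y) (c2 : Commute x y') (c3 : Commute x' y) (c4 : Commute x' y') : False := by
  have key : ∀ {a b c g : H}, Commute a c → Commute b c → g ∈ closure {a, b} → Commute g c :=
    fun {a b c g} e1 e2 hg => mem_centralizer_singleton_iff.1 ((closure_le (centralizer {c})).2 (by
      rintro _ (rfl | rfl)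
      exacts [mem_centralizer_singleton_iff.2 e1, mem_centralizer_singleton_iff.2 e2]) hg)
  obtain ⟨w, hw⟩ := h.good hx hx' h1 fun g hg e =>
    h.cen3 hx hy h1 h2 c1 c2 c3 e (key c1 c3 hg) (key c2 c4 hg)
  obtain ⟨w', hw'⟩ := h.good hy hy' h2 fun g hg e =>
    h.cen3 hy hx h2 h1 c1.symm c3.symm c2.symm e (key c1.symm c2.symm hg) (key c3.symm c4.symm hg)
  have h3 : Disjoint (closure ({x, x'} : Set H)) (closure {y, y'}) := disjoint_def.2 fun {g} g1 g2 => by
    by_contra e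
    have h4 := h.cen3 hx hy h1 h2 c1 c2 c3 (key c1.symm c2.symm g2) (key c1 c3 g1) (key c2 c4 g1)
    exact h1 (comm_zp (zp_eq h.pr hx h4 e ▸ mem_zpowers x) (key c3.symm c4.symm g2).symm).symm
  have h4 := card_subgroup_dvd_card (closure ({x, x'} : Set H) ⊔ closure {y, y'})
  rw [card_sup_of_disjoint (fun g hg => mem_normalizer_of_conj_mem fun n hn => by
    rw [(key (key c1.symm c2.symm hg).symm (key c3.symm c4.symm hg).symm hn).symm.eq,
      mul_inv_cancel_right]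
    exact hn) h3, hw.card, hw'.card, h.card, mul_mul_mul_comm, ← sq] at h4
  have h5 := (Nat.mul_dvd_mul_left 2 (Nat.dvd_of_mul_dvd_mul_left (pow_pos h.pr.pos 2) h4)).trans h.dvd
  have h6 := Nat.le_of_dvd (by have := Nat.one_lt_pow (n := 4) (by omega) h.pr.one_lt; omega) h5
  rcases le_total w w' with e | e
  · exact a5 h.pr h.h5 h5 hw'.four_dvd ((hw.cls (by nlinarith)).2.imp_left fun e => ⟨e.1, e.2.1⟩)
  · exact a5 h.pr h.h5 (mul_comm w w' ▸ h5) hw.four_dvd
      ((hw'.cls (by nlinarith)).2.imp_left fun e => ⟨e.1, e.2.1⟩)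

theorem exists_not_comm {x : H} (hx : orderOf x = p) : ∃ g : H, ¬ Commute x (g * x * g⁻¹) := by
  by_contra! e
  have h1 : ∀ a ∈ Group.conjugatesOfSet {x}, ∃ g, g * x * g⁻¹ = a := fun a ha => by
    obtain ⟨_, hy, hx'⟩ := Group.mem_conjugatesOfSet_iff.1 ha
    exact isConj_iff.1 (hy ▸ hx' : IsConj x a)
  have h2 : ∀ a ∈ Group.conjugatesOfSet {x}, ∀ b ∈ normalClosure {x}, Commute b a := fun a ha b hb =>
    mem_centralizer_singleton_iff.1 ((closure_le (centralizer {a})).2 (fun b hb => by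
      obtain ⟨g, rfl⟩ := h1 a ha
      obtain ⟨k, rfl⟩ := h1 b hb
      have := (e (k⁻¹ * g)).map (MulAut.conj k)
      exact mem_centralizer_singleton_iff.2 (by simpa [mul_assoc, Commute, SemiconjBy] using this)) hb)
  have h3 : ∀ a ∈ normalClosure {x}, ∀ b ∈ normalClosure {x}, Commute b a := fun a ha b hb =>
    mem_centralizer_singleton_iff.1 ((closure_le (centralizer {a})).2
      (fun b hb => mem_centralizer_singleton_iff.2 (h2 b hb a ha).symm) hb)
  have h4 : ∀ a ∈ normalClosure {x}, a ^ p = 1 := fun a ha => by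
    induction ha using closure_induction with
    | mem a ha =>
      obtain ⟨g, rfl⟩ := h1 a ha
      rw [conj_pow, ← hx, pow_orderOf_eq_one, mul_one, mul_inv_cancel]
    | one => exact one_pow p
    | mul a b ha hb e1 e2 => rw [(h3 b hb a ha).mul_pow, e1, e2, one_mul]
    | inv a _ e1 => rw [inv_pow, e1, inv_one]
  exact ne_one_of_orderOf_eq_prime h.pr hx (mem_bot.1 (h.core (normalClosure {x}) inferInstance
    (fun a => ⟨1, Subtype.ext (by simpa using h4 a a.2)⟩) ▸ subset_normalClosure rfl))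

theorem up {P : Subgroup H} (hP : Nat.card P = p ^ 2) {y : H} (hy : y ∈ P) (h1 : y ≠ 1) :
    ∃ z ∈ zpowers y, orderOf z = p := exists_mem_orderOf_eq_of_dvd_card h.pr (by
  obtain ⟨i, -, hi⟩ := (Nat.dvd_prime_pow h.pr).1 (hP ▸ orderOf_dvd_card_of_mem hy)
  rw [Nat.card_zpowers, hi]
  exact dvd_pow_self p fun e => h1 (orderOf_eq_one_iff.1 (by rw [hi, e, pow_zero])))

theorem reg {P Q : Subgroup H} (hP : Nat.card P = p ^ 2)
    (hQ : Nat.card Q = p ^ 2) (hPQ : P ≠ Q) {x : H} (hx : orderOf x = p) (hxP : x ∈ P) (hxQ : x ∈ Q) :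
    ∃ g : H, ∀ y ∈ P, Commute y (g * x * g⁻¹) → y = 1 := by
  by_contra! e
  obtain ⟨g, hg⟩ := h.exists_not_comm hx
  have key : ∀ R : Subgroup H, Nat.card R = p ^ 2 → ∃ y ∈ R, orderOf y = p ∧ Commute (g * x * g⁻¹) y :=
    fun R hR => by
      obtain ⟨k, rfl⟩ := h.conj hP hR
      obtain ⟨y, h1, h2, h3⟩ := e (k⁻¹ * g)
      obtain ⟨z, h4, h5⟩ := h.up hP h1 h3
      have := (comm_zp h4 h2.symm).map (MulAut.conj k)
      exact ⟨_, conj_mem_conj_smul k (zpowers_le_of_mem h1 h4), (orderOf_conj' _ _).trans h5,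
        by simpa [mul_assoc, Commute, SemiconjBy] using this⟩
  obtain ⟨y, h1, h2, h3⟩ := key P hP
  obtain ⟨y', h4, h5, h6⟩ := key Q hQ
  have h7 : ∀ {z}, orderOf z = p → Commute (g * x * g⁻¹) z → z ∉ zpowers x := fun hz c e =>
    hg (comm_zp (zp_eq h.pr hx e (ne_one_of_orderOf_eq_prime h.pr hz) ▸ mem_zpowers x) c).symm
  refine h.pair hx ((orderOf_conj' _ _).trans hx) h2 h5 hg (fun c => hPQ ?_) (h.comm hP hxP h1)
    (h.comm hQ hxQ h4) h3 h6
  rw [← h.sup hQ hx hxQ h4 (h7 h5 h6), h.sup hP hx hxP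
    (h.mem_of_comm hP hx hxP h1 (h7 h2 h3) (h.comm hQ h4 hxQ) c.symm) (h7 h5 h6)]

end Hyp

end Cfsg.Agent.P2R
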