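import Cfsg.Agent.P2R.Loc
import Cfsg.Agent.Perm1.Count

/-!
# The Sylow `p`-subgroups have trivial intersections
-/

set_option autoImplicit false
set_option linter.unusedSectionVars false

namespace Cfsg.Agent.P2R

open Subgroup Cfsg.Agent.Local MulAction Cfsg.Agent.PSL2Rec
open scoped Pointwise

variable {H : Type*} [Group H] [Finite H] {p m : ℕ}

theorem a6 {p m i j : ℕ} (hp : p.Prime) (h5 : 5 < p) (hj : p + 1 = 2 ^ j) (hd : 2 * m ∣ p ^ 4 - 1)
    (hi : 2 ^ i ∣ p ^ 2 * m) : 2 ^ i ∣ 2 * (p + 1) := by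
  obtain ⟨q, hq⟩ : ∃ q, p = 2 * q + 1 := ⟨p / 2, by have := odd_of hp h5; omega⟩
  have h1 : p ^ 2 + 1 = 2 * (2 * (q * q + q) + 1) := by rw [hq]; ring
  have h2 : 4 ∣ p + 1 := hj ▸ pow_dvd_pow 2 (show 2 ≤ j by
    by_contra e
    have : j ≤ 1 := by omega
    interval_cases j <;> omega)
  obtain ⟨r, hr⟩ : ∃ r, p - 1 = 2 * (2 * r + 1) := ⟨q / 2, by omega⟩
  have h3 : ∀ k, (2 ^ i).Coprime (2 * k + 1) := fun k =>
    ((Nat.prime_two.coprime_iff_not_dvd).2 (by omega)).pow_left i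
  rw [fac p hp.pos, h1, hr, show 2 * (2 * r + 1) * (p + 1) * (2 * (2 * (q * q + q) + 1)) =
    2 * (2 * (p + 1) * (2 * r + 1) * (2 * (q * q + q) + 1)) by ring] at hd
  exact (h3 _).dvd_of_dvd_mul_right ((h3 _).dvd_of_dvd_mul_right
    (((hq ▸ h3 q).pow_right 2).dvd_of_dvd_mul_left hi |>.trans (Nat.dvd_of_mul_dvd_mul_left two_pos hd)))

theorem a7 {p n c σ u : ℕ} (hp : p.Prime) (h5 : 5 < p) (hd : 2 * (n * c) ∣ p ^ 4 - 1)
    (h1 : p ^ 2 ∣ n + (p ^ 2 - 1) + p * (σ * (p - 1))) (h2 : σ * (p - 1) ≤ p ^ 2 - 1) (h0 : 0 < σ)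
    (h3 : σ ∣ c) (h4 : n * σ = u * (p + 1)) (hu : p ^ 2 + 1 ≤ u) :
    n = (p + 1) * (p ^ 2 + 1) ∧ 2 * c ∣ p - 1 := by
  obtain ⟨z, hz⟩ := hd
  obtain ⟨d, rfl⟩ := h3
  rw [fac2 p hp.pos, mul_comm] at h2
  replace h2 := Nat.le_of_mul_le_mul_left h2 (by omega)
  have h6 : p ^ 2 + 1 ≤ n := Nat.le_of_mul_le_mul_right
    ((Nat.mul_le_mul_right _ hu).trans (h4 ▸ Nat.mul_le_mul_left n h2)) p.succ_pos
  obtain ⟨s, hs⟩ : ∃ s, s = 2 * (σ * d) * z := ⟨_, rfl⟩
  have h7 : n * s = p ^ 4 - 1 := by rw [hz, hs]; ring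
  have h8 : s ≤ p ^ 2 - 1 := by
    rw [fac p hp.pos, ← fac2 p hp.pos, mul_comm _ (p ^ 2 + 1)] at h7
    exact Nat.le_of_mul_le_mul_left ((Nat.mul_le_mul_right s h6).trans h7.le) (by positivity)
  have e1 := Nat.one_le_pow 2 p hp.pos
  have e2 := Nat.one_le_pow 4 p hp.pos
  obtain ⟨k, hk⟩ := h1
  have h9 : s = p - 1 := by
    zify [e1, e2, hp.pos] at hk h7 h8 h2 h0 h5 hs ⊢
    have hn : (n : ℤ) = 1 + σ * p + (k - 1 - σ) * p ^ 2 := by linear_combination hk
    obtain ⟨b, hb⟩ : (p : ℤ) ∣ s + 1 :=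
      ⟨p ^ 3 - s * σ - s * (k - 1 - σ) * p, by linear_combination h7 - s * hn⟩
    obtain ⟨a, ha⟩ : (p : ℤ) ∣ b - σ := ⟨p ^ 2 - σ * b - (k - 1 - σ) * s,
      mul_left_cancel₀ (by omega : (p : ℤ) ≠ 0) (by linear_combination h7 - s * hn - (1 + σ * p) * hb)⟩
    have hb1 : 0 < b := pos_of_mul_pos_left (a := b) (b := p) (by rw [mul_comm, ← hb]; positivity)
      (by positivity)
    have hb2 : b ≤ p := le_of_mul_le_mul_left (a := (p : ℤ)) (by nlinarith) (by omega)
    have ha1 : a ≤ 0 := by nlinarith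
    have ha2 : -1 ≤ a := by nlinarith
    rcases ha1.eq_or_lt with rfl | ha3
    · have : b ∣ 1 := ⟨p - 2 * d * z, by linear_combination hb - hs + 2 * d * z * ha⟩
      rw [Int.eq_one_of_dvd_one hb1.le this] at hb
      omega
    · obtain rfl : a = -1 := by omega
      obtain rfl : b = 1 := by omega
      omega
  refine ⟨?_, z, h9 ▸ hs⟩
  rw [h9, fac p hp.pos, mul_assoc, mul_comm] at h7
  exact Nat.eq_of_mul_eq_mul_left (by omega) h7

theorem card_modEq_cen (hp : p.Prime) {A K : Subgroup H} (hA : IsPGroup p A)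
    (hK : A ≤ normalizer (K : Set H)) :
    Nat.card K ≡ Nat.card ↥(K ⊓ centralizer (A : Set H)) [MOD p] := by
  have := Fact.mk hp
  let _ := conjAction hK
  refine (hA.card_modEq_card_fixedPoints K).trans ?_
  refine congrArg (· % p) (Nat.card_congr
    { toFun := fun y => ⟨y.1, y.1.2, mem_centralizer_iff.2 fun a ha =>
        mul_inv_eq_iff_eq_mul.1 (congrArg Subtype.val (y.2 ⟨a, ha⟩))⟩
      invFun := fun y => ⟨⟨y.1, y.2.1⟩, fun a => Subtype.ext
        (mul_inv_eq_iff_eq_mul.2 (mem_centralizer_iff.1 y.2.2 a a.2))⟩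
      left_inv := fun _ => rfl
      right_inv := fun _ => rfl })

theorem cj1 {k y : H} (e : k⁻¹ * y * k = 1) : y = 1 := by
  rwa [mul_assoc, inv_mul_eq_one, eq_comm, mul_eq_right] at e

theorem IsSylowIn.relIndex_mod [Fact p.Prime] {X R : Subgroup H} (hS : IsSylowIn p X R) :
    (normalizer (X : Set H)).relIndex R % p = 1 := by
  have := card_sylow_modEq_one p R
  rw [hS.toSylow.card_eq_index_normalizer, Nat.ModEq, Nat.mod_eq_of_lt (Fact.out : p.Prime).one_lt] at this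
  rw [relIndex, subgroupOf_normalizer_eq hS.le]
  exact this

namespace Hyp

variable (h : Hyp p m H)
include h

theorem base {P Q : Subgroup H} (hP : Nat.card P = p ^ 2) (hQ : Nat.card Q = p ^ 2) (hPQ : P ≠ Q)
    {x : H} (hx : orderOf x = p) (hxP : x ∈ P) (hxQ : x ∈ Q) :
    p ^ 2 + 1 ≤ (normalizer (zpowers x : Set H)).index ∧
    (normalizer (P : Set H)).relIndex (centralizer {x}) = p + 1 ∧ (∃ j, p + 1 = 2 ^ j) ∧
      ∃ V ≤ centralizer {x}, Nat.card V = p + 1 ∧ centralizer {x} ≤ normalizer (V : Set H) := by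
  have := Fact.mk h.pr
  obtain ⟨g, hg⟩ := h.reg hP hQ hPQ hx hxP hxQ
  have h1 := h.big hP hx hxP hg
  have hPC := h.le_cen hP hxP
  obtain ⟨w, hw⟩ : p ^ 2 ∣ Nat.card (centralizer ({x} : Set H)) := hP ▸ card_dvd_of_le hPC
  have h2 := (normalizer (zpowers x : Set H)).card_mul_index
  have h3 := card_le_of_le (h.cen_le x)
  have e1 := Nat.one_lt_pow (n := 4) (by omega) h.pr.one_lt
  have h4 := Nat.le_of_dvd (by omega) h.dvd
  have e2 := pow_pos h.pr.pos 2
  rw [fac p h.pr.pos, ← fac2 p h.pr.pos] at h4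
  rw [h.card] at h2
  rw [hw] at h3
  have h6 : w * (p ^ 2 + 1) ≤ m := Nat.le_of_mul_le_mul_left (by nlinarith [Nat.mul_le_mul h3 h1]) e2
  have h7 : 2 * w ≤ p ^ 2 - 1 := Nat.le_of_mul_le_mul_right (by nlinarith) (p ^ 2).succ_pos
  obtain ⟨h8, h9⟩ := h.loc hP hQ hPQ hx hxP hxQ hw h7
  refine ⟨h1, h8, h9.resolve_right fun h9 => ?_⟩
  have hw0 : 0 < w := Nat.pos_of_ne_zero fun e => Nat.card_pos.ne' (by rw [hw, e, mul_zero])
  have hm : m = w * (p ^ 2 + 1) := le_antisymm (by rw [← h9] at h4; nlinarith) h6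
  have hu : (normalizer (zpowers x : Set H)).index = p ^ 2 + 1 := le_antisymm
    (Nat.le_of_mul_le_mul_left ((Nat.mul_le_mul_right _ h3).trans (by rw [h2, hm, mul_assoc]))
      (Nat.mul_pos e2 hw0)) h1
  have hNc : Nat.card (normalizer (zpowers x : Set H)) = p ^ 2 * w :=
    Nat.eq_of_mul_eq_mul_right (p ^ 2).succ_pos (by rw [hu, hm, ← mul_assoc] at h2; exact h2)
  have hNC : centralizer {x} = normalizer (zpowers x : Set H) :=
    eq_of_le_of_card_ge (h.cen_le x) (by rw [hNc, hw])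
  have hgN := h.notMem hx hxP hg
  have h10 := h.lt_index hgN
  have h11 := h.stab_bot hP hx hg
  set N := normalizer (zpowers x : Set H) with hN
  have h12 := card_inf_mul_relIndex (stabilizer H (g : H ⧸ N)) N
  have h13 : (stabilizer H (g : H ⧸ N)).relIndex N = p ^ 2 := le_antisymm (by omega)
    (h11 ▸ relIndex_le_of_le_right (hNC ▸ hPC) FiniteIndex.index_ne_zero)
  rw [h13, hNc, mul_comm] at h12
  replace h12 := Nat.eq_of_mul_eq_mul_left e2 h12
  set T := stabilizer H (g : H ⧸ N) ⊓ N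
  have hpw : ¬ p ∣ w := fun e => h.nd (hm ▸ e.mul_right _)
  have hcT : ∀ {z : H}, (∀ t ∈ T, Commute t z) → z ∈ normalizer (T : Set H) := fun e =>
    mem_normalizer_of_conj_mem fun t ht => by rwa [← (e t ht).eq, mul_inv_cancel_right]
  have hxR := hcT fun t ht => mem_centralizer_singleton_iff.1 (hNC.ge ht.2)
  have hxR' : g * x * g⁻¹ ∈ normalizer (T : Set H) := hcT fun t ht => by
    have := Commute.map (mem_centralizer_singleton_iff.1 (hNC.ge (mem_stab_quot.1 ht.1))) (MulAut.conj g)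
    simpa [mul_assoc, Commute, SemiconjBy] using this
  have hS : IsSylowIn p (zpowers x) (normalizer (T : Set H)) := isSylowIn_of_maximal
    (zpowers_le_of_mem hxR) (isPGroup_zpowers_of_orderOf_eq hx) fun R hR e1 e3 => by
      obtain ⟨P', hP', e4⟩ := h.exists_ge hR
      refine (h.sub hP' e4 hx (e1 (mem_zpowers x))).resolve_right fun e5 => ?_
      subst e5
      have e6 := card_modEq_cen h.pr hR e3
      have e7 : T ⊓ centralizer (R : Set H) = ⊥ := eq_bot_iff.2 fun t ht => eq_one_of_mem_of_coprime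
        (by rw [h12, hP']; exact ((h.pr.coprime_iff_not_dvd).2 hpw).symm.pow_right 2) ht.1
        (h.self R hP' t fun y hy => (mem_centralizer_iff.1 ht.2 y hy).symm)
      rw [e7, card_bot, h12] at e6
      have e8 : p ∣ 2 * w + 1 := ⟨p, by rw [h9, Nat.sub_add_cancel e2, sq]⟩
      have e9 : p ∣ 2 * (w - 1) := ((Nat.modEq_iff_dvd' hw0).1 e6.symm).mul_left 2
      have := Nat.le_of_dvd (by omega) (Nat.dvd_sub e8 e9)
      have := h.h5
      omega
  have h14 := IsSylowIn.relIndex_mod hS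
  have h15 := card_inf_mul_relIndex N (normalizer (T : Set H))
  have h16 : w * p ∣ Nat.card ↥(N ⊓ normalizer (T : Set H)) := by
    have := card_sup_of_disjoint hS.le (disjoint_def.2 (eq_one_of_mem_of_coprime (by
      rw [h12, Nat.card_zpowers, hx]; exact ((h.pr.coprime_iff_not_dvd).2 hpw).symm)))
    rw [h12, Nat.card_zpowers, hx] at this
    exact this ▸ card_dvd_of_le (sup_le (le_inf inf_le_right le_normalizer) (le_inf le_normalizer hS.le))
  have h17 : N.relIndex (normalizer (T : Set H)) ∣ p ^ 2 + 1 := by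
    have e := (Nat.mul_dvd_mul_right h16 _).trans (h15 ▸ card_subgroup_dvd_card _)
    rw [h.card, hm, show p ^ 2 * (w * (p ^ 2 + 1)) = w * p * (p * (p ^ 2 + 1)) by ring] at e
    refine ((h.pr.coprime_iff_not_dvd).2 fun e' => ?_).symm.dvd_of_dvd_mul_left
      (Nat.dvd_of_mul_dvd_mul_left (Nat.mul_pos hw0 h.pr.pos) e)
    rw [Nat.mod_eq_zero_of_dvd e'] at h14
    omega
  rcases dvd_sq_add h.pr.two_le h14 h17 with e | e
  · exact ne_one_of_orderOf_eq_prime h.pr hx (hg x hxP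
      (mem_centralizer_singleton_iff.1 (hNC.ge (relIndex_eq_one.1 e hxR')) : Commute _ _).symm)
  have h18 : orbit (normalizer (T : Set H)) ((1 : H) : H ⧸ N) = Set.univ :=
    Set.eq_of_subset_of_ncard_le (Set.subset_univ _) (by
      have := relIndex_stab (normalizer (T : Set H)) ((1 : H) : H ⧸ N)
      rw [stabilizer_quotient, e, ← hu] at this
      rw [Set.ncard_univ]
      exact this.le)
  have h19 : ∀ k : H, ∀ t ∈ T, k⁻¹ * t * k ∈ N := fun k t ht => by
    obtain ⟨r, hr⟩ : (k : H ⧸ N) ∈ orbit (normalizer (T : Set H)) ((1 : H) : H ⧸ N) := h18 ▸ Set.mem_univ _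
    have e1 : ((r.1 * 1 : H) : H ⧸ N) = k := hr
    rw [mul_one, QuotientGroup.eq] at e1
    have := mul_mem (mul_mem (inv_mem e1) (inv_conj_mem_of_mem_normalizer r.2 ht).2) e1
    simpa [mul_assoc] using this
  have h20 : normalizer (T : Set H) = ⊤ := eq_top_iff.2 fun k _ => mem_normalizer_of_conj_mem
    fun t ht => ⟨mem_stab_quot.2 (by simpa [mul_assoc] using h19 (k⁻¹ * g) t ht),
      by simpa using h19 k⁻¹ t ht⟩
  have := h.card_syl (h20 ▸ hS)
  rw [Nat.card_zpowers, hx] at this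
  nlinarith [h.pr.two_le]

theorem mem_fix [Fact p.Prime] {x : H} (hx : IsPGroup p (zpowers x)) {Q : Sylow p H} :
    Q ∈ fixedBy (Sylow p H) x ↔ x ∈ Q :=
  ⟨fun e => zpowers_le.1 ((isSylowIn_top Q).le_of_le_normalizer' hx le_top
    (zpowers_le_of_mem (Sylow.smul_eq_iff_mem_normalizer.1 e))), fun e => smul_self_of_mem e⟩

theorem fix [Fact p.Prime] {x : H} (hx : orderOf x = p) {P : Sylow p H} (hxP : x ∈ P) {A : Subgroup H}
    (h1 : centralizer {x} ≤ A) (h2 : A ≤ normalizer (zpowers x : Set H)) :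
    (normalizer ((P : Subgroup H) : Set H)).relIndex A = Nat.card (fixedBy (Sylow p H) x) := by
  have h3 := relIndex_stab A P
  rw [Sylow.stabilizer_eq_normalizer] at h3
  refine h3.trans (congrArg Set.ncard (Set.ext fun Q => ?_))
  rw [h.mem_fix (isPGroup_zpowers_of_orderOf_eq hx)]
  have key : ∀ R : Sylow p H, x ∈ R → IsSylowIn p R (centralizer {x}) := fun R hR =>
    (isSylowIn_top R).of_le (h.le_cen (h.card_syl (isSylowIn_top R)) hR) le_top
  constructor
  · rintro ⟨a, rfl⟩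
    have := conj_mem_conj_smul a.1 (zpowers_le_of_mem hxP
      (inv_conj_mem_of_mem_normalizer (h2 a.2) (mem_zpowers x)))
    rwa [show a.1 * (a.1⁻¹ * x * a) * a.1⁻¹ = x by group] at this
  · intro e
    obtain ⟨n, hn, e⟩ := (key P hxP).exists_conj (key Q e)
    exact ⟨⟨n, h1 hn⟩, Sylow.ext e⟩

theorem fuse {x x' : H} (hx : orderOf x = p) (hx' : orderOf x' = p) {j : ℕ} (hj : p + 1 = 2 ^ j)
    {V V' : Subgroup H} (h1 : V ≤ centralizer {x}) (h2 : Nat.card V = p + 1)
    (h3 : V' ≤ centralizer {x'}) (h4 : Nat.card V' = p + 1) : ∃ g : H, g⁻¹ * x' * g ∈ zpowers x := by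
  have := Fact.mk h.pr
  obtain ⟨T, hT, hVT⟩ := exists_isSylowIn_ge (IsPGroup.of_card (h2.trans hj)) le_top
  obtain ⟨k, -, hk⟩ := hT.exists_le_conj (IsPGroup.of_card (h4.trans hj)) le_top
  have h5 : MulAut.conj k⁻¹ • V' ≤ T := by
    rintro _ ⟨v, hv, rfl⟩
    simpa using mem_pointwise_smul_iff_inv_smul_mem.1 (hk hv)
  obtain ⟨i, hi⟩ := hT.isPGroup.exists_card_eq
  have h6 := Nat.le_of_dvd (by omega) (a6 h.pr h.h5 hj h.dvd (hi ▸ h.card ▸ card_subgroup_dvd_card T))
  have h7 := card_mul_relIndex hVT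
  have h8 := card_inf_mul_relIndex V (MulAut.conj k⁻¹ • V')
  have h9 := relIndex_le_of_le_right (H := V) h5 FiniteIndex.index_ne_zero
  rw [card_conj_smul, h4] at h8
  rw [h2, hi] at h7
  obtain ⟨z, hz, hz1⟩ := (V ⊓ MulAut.conj k⁻¹ • V').bot_or_exists_ne_one.resolve_left fun e => by
    rw [e, card_bot] at h8
    nlinarith [h.h5]
  have hS : IsSylowIn p (zpowers x) (centralizer {z}) := isSylowIn_of_maximal
    (zpowers_le_of_mem (mem_centralizer_singleton_iff.2 (mem_centralizer_singleton_iff.1 (h1 hz.1)).symm))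
    (isPGroup_zpowers_of_orderOf_eq hx) fun R hR e1 e3 => by
      obtain ⟨P', hP', e4⟩ := h.exists_ge hR
      refine (h.sub hP' e4 hx (e1 (mem_zpowers x))).resolve_right fun e5 => hz1 ?_
      subst e5
      exact eq_one_of_mem_of_coprime (by rw [h2, hP']; simp) hz.1
        (h.self R hP' z fun y hy => (mem_centralizer_singleton_iff.1 (e3 hy)).symm)
  obtain ⟨v, hv, rfl⟩ := hz.2
  have h10 := Commute.map (mem_centralizer_singleton_iff.1 (h3 hv)).symm (MulAut.conj k⁻¹)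
  obtain ⟨n, -, hn⟩ := hS.exists_le_conj (isPGroup_zpowers_of_orderOf_eq
    (((MulAut.conj k⁻¹).orderOf_eq x').trans hx')) (zpowers_le_of_mem (mem_centralizer_singleton_iff.2 h10))
  exact ⟨k * n, by simpa [mul_assoc] using mem_pointwise_smul_iff_inv_smul_mem.1 (hn (mem_zpowers _))⟩

theorem fin {P V : Subgroup H} (hP : Nat.card P = p ^ 2) {j : ℕ} (hj : p + 1 = 2 ^ j)
    (hV : Nat.card V = p + 1) (hPV : P ≤ normalizer (V : Set H)) (h2 : 2 * (p + 1) ∣ m) :
    2 ∣ Nat.card (normalizer (P : Set H)) := by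
  have := Fact.mk h.pr
  obtain ⟨T, hT, hVT⟩ := exists_isSylowIn_ge (IsPGroup.of_card (hV.trans hj)) le_top
  obtain ⟨i, hi⟩ := hT.isPGroup.exists_card_eq
  have hTc : Nat.card T = 2 * (p + 1) := Nat.dvd_antisymm
    (hi ▸ a6 h.pr h.h5 hj h.dvd (hi ▸ h.card ▸ card_subgroup_dvd_card T)) (by
      have h3 := card_mul_relIndex hT.le
      rw [card_top, h.card] at h3
      rw [hj, ← pow_succ'] at h2 ⊢
      exact (((Nat.prime_two.coprime_iff_not_dvd).2 hT.not_dvd).pow_left _).dvd_of_dvd_mul_right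
        (h3 ▸ h2.mul_left _))
  have h3 := card_mul_relIndex hVT
  rw [hV, hTc, mul_comm] at h3
  replace h3 := Nat.eq_of_mul_eq_mul_right p.succ_pos h3
  have h4 : T ≤ normalizer (V : Set H) := (normal_subgroupOf_iff_le_normalizer hVT).1
    (normal_of_index_eq_two h3)
  set R := normalizer (V : Set H)
  have h5 := relIndex_mul_relIndex V T R hVT h4
  have h6 := (hT.of_le h4 le_top).not_dvd
  obtain ⟨M, hM⟩ := exists_index_two (T := R ⧸ V.subgroupOf R) (by
    rw [← index, ← relIndex, ← h5, h3]; omega)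
  rw [← index_comap_of_surjective _ (QuotientGroup.mk'_surjective _)] at hM
  set M' := M.comap (QuotientGroup.mk' (V.subgroupOf R))
  have hodd : ∀ g : R, g ∉ M' → 2 ∣ orderOf g.1 := fun g hg => by
    by_contra e
    exact hg (mem_of_index_two hM (by rw [← orderOf_coe]; omega))
  obtain ⟨g, hg⟩ : ∃ g, g ∉ M' := by
    by_contra! e
    rw [show M' = ⊤ from eq_top_iff.2 fun g _ => e g, index_top] at hM
    omega
  have := normal_of_index_eq_two hM
  have h7 : IsSylowIn p (P.subgroupOf R) M' := (((h.syl hP).of_le hPV le_top).subgroupOf le_rfl).of_le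
    (fun y hy => by
      by_contra e
      have := ((hodd y e).trans (hP ▸ orderOf_dvd_card_of_mem (mem_subgroupOf.1 hy)))
      have := Nat.prime_two.dvd_of_dvd_pow this
      have := odd_of h.pr h.h5
      omega) (by simp)
  obtain ⟨n, hn, h8⟩ := h7.frattini (le_normalizer_of_normal' ⊤ M' (mem_top g))
  rw [← subgroupOf_normalizer_eq hPV] at h8
  exact (hodd _ fun e => hg ((mul_mem_cancel_left (inv_mem hn)).1 e)).trans (orderOf_dvd_card_of_mem h8)

theorem ti : SylowTI p H := by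
  classical
  have := Fact.mk h.pr
  have := Fintype.ofFinite H
  intro P Q x₀ hx1 hP₀ hQ₀
  by_contra hPQ
  have hc : ∀ R : Sylow p H, Nat.card (R : Subgroup H) = p ^ 2 := fun R => h.card_syl (isSylowIn_top R)
  obtain ⟨x, hx₀, hx⟩ := h.up (hc P) hP₀ hx1
  have hxP : x ∈ P := zpowers_le_of_mem hP₀ hx₀
  have hxQ : x ∈ Q := zpowers_le_of_mem hQ₀ hx₀
  set Y : Finset H := Finset.univ.filter fun y => y ∈ P ∧ y ≠ 1 ∧ ∃ R, R ≠ P ∧ y ∈ R with hY
  have hord : ∀ y ∈ Y, orderOf y = p := fun y hy => by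
    obtain ⟨-, h1, h2, R, h3, h4⟩ := Finset.mem_filter.1 hy
    obtain ⟨z, h5, h6⟩ := h.up (hc P) h1 h2
    rcases h.sub (hc P) (inf_le_left : (P : Subgroup H) ⊓ R ≤ P) h6
      (zpowers_le_of_mem (mem_inf.2 ⟨h1, h4⟩) h5) with e | e
    · rw [← Nat.card_zpowers, zp_eq h.pr h6 (e ▸ mem_inf.2 ⟨h1, h4⟩) h2, Nat.card_zpowers, h6]
    · exact absurd (Sylow.ext (eq_of_le_of_card_ge (inf_eq_left.1 e) (by rw [hc, hc])).symm) h3
  have hb := fun y (hy : y ∈ Y) => by
    obtain ⟨-, h1, -, h3⟩ := Finset.mem_filter.1 hy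
    exact h.base (hc P) (hc h3.choose) (fun e => h3.choose_spec.1 (Sylow.ext e.symm)) (hord y hy) h1
      h3.choose_spec.2
  have hxY : x ∈ Y := Finset.mem_filter.2
    ⟨Finset.mem_univ _, hxP, ne_one_of_orderOf_eq_prime h.pr hx, Q, Ne.symm hPQ, hxQ⟩
  obtain ⟨hu, h1, ⟨j, hj⟩, V, hV1, hV2, hV3⟩ := hb x hxY
  set N1 := normalizer ((P : Subgroup H) : Set H) with hN1
  set N := normalizer (zpowers x : Set H) with hN
  have hYP : Y ⊆ (Finset.univ.filter (· ∈ (P : Subgroup H))).erase 1 := fun y hy => by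
    obtain ⟨-, h1, h2, -⟩ := Finset.mem_filter.1 hy
    simpa using ⟨h2, h1⟩
  have hcf : ∀ A : Subgroup H, (Finset.univ.filter (· ∈ A)).card = Nat.card A := fun A => by
    rw [Nat.card_eq_fintype_card, Fintype.card_subtype]
  have h2 : ((Finset.univ.filter (· ∈ (P : Subgroup H))).erase 1).card = p ^ 2 - 1 := by
    rw [Finset.card_erase_of_mem (by simp), hcf, hc]
  have h3 := Perm1.sum_fixedBy_subgroup (Sylow p H) (P : Subgroup H)
  rw [← Finset.add_sum_erase _ _ (a := 1) (by simp), Finset.sum_congr rfl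
    (g := fun y => 1 + if y ∈ Y then p else 0) fun y hy => by
      split_ifs with e
      · rw [← h.fix (hord y e) (Finset.mem_filter.1 e).2.1 le_rfl (h.cen_le y), (hb y e).2.1, add_comm]
      · have hyP : y ∈ P := (Finset.mem_filter.1 (Finset.mem_of_mem_erase hy)).2
        rw [add_zero, Nat.card_eq_one_iff_exists]
        refine ⟨⟨P, smul_self_of_mem hyP⟩, fun R => Subtype.ext (by_contra fun e' => e ?_)⟩
        exact Finset.mem_filter.2 ⟨Finset.mem_univ _, hyP, Finset.ne_of_mem_erase hy, R, e',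
          (h.mem_fix (P.isPGroup'.to_le (zpowers_le_of_mem hyP))).1 R.2⟩,
    Finset.sum_add_distrib, Finset.sum_ite_mem, Finset.inter_eq_right.2 hYP, Finset.sum_const,
    Finset.sum_const, h2, hc, fixedBy_one_eq_univ, Nat.card_univ, smul_eq_mul, smul_eq_mul, mul_one,
    P.card_eq_index_normalizer, ← add_assoc, mul_comm Y.card] at h3
  have h4 : (Finset.univ.filter (· ∈ N1)).card * (p - 1) = Y.card * Nat.card ↥(N ⊓ N1) := by
    refine Finset.card_mul_eq_card_mul (fun k y => k⁻¹ * y * k ∈ zpowers x) (fun k hk => ?_) fun y hy => ?_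
    · replace hk : k ∈ N1 := by simpa using hk
      rw [← hx, ← Nat.card_zpowers, ← hcf, ← Finset.card_erase_of_mem (a := 1) (by simp)]
      refine Finset.card_nbij' (fun y => k⁻¹ * y * k) (fun y => k * y * k⁻¹) (fun y hy => ?_)
        (fun y hy => ?_) (fun y _ => by group) fun y _ => by group
      · obtain ⟨h5, h6⟩ := Finset.mem_filter.1 hy
        exact Finset.mem_erase.2 ⟨fun e => (Finset.mem_filter.1 h5).2.2.1 (cj1 e),
          Finset.mem_filter.2 ⟨Finset.mem_univ _, h6⟩⟩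
      · obtain ⟨h6, h5⟩ : y ∈ zpowers x ∧ y ≠ 1 := by simpa using hy
        refine Finset.mem_filter.2 ⟨Finset.mem_filter.2 ⟨Finset.mem_univ _,
          conj_mem_of_mem_normalizer hk (zpowers_le_of_mem hxP h6), by simpa using h5, k • Q,
          fun e => hPQ (smul_left_cancel k ((Sylow.smul_eq_iff_mem_normalizer.2 hk).trans e.symm)),
          conj_mem_conj_smul k (zpowers_le_of_mem hxQ h6)⟩, by simpa [mul_assoc] using h6⟩
    · obtain ⟨-, -, -, V', h5, h6, -⟩ := hb y hy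
      obtain ⟨-, h7, h8, -⟩ := Finset.mem_filter.1 hy
      obtain ⟨g, hg⟩ := h.fuse hx (hord y hy) hj hV1 hV2 h5 h6
      have := IsPGroup.isMulCommutative_of_card_eq_prime_sq (hc P)
      obtain ⟨n, hn, e⟩ := P.conj_eq_normalizer_conj_of_mem y g h7 (zpowers_le_of_mem hxP hg)
      rw [e] at hg
      have h9 : ∀ {k : H}, k⁻¹ * y * k ∈ zpowers x → zpowers (k⁻¹ * y * k) = zpowers x := fun hk =>
        zp_eq h.pr hx hk fun e => h8 (cj1 e)
      rw [← hcf]
      refine Finset.card_nbij' (fun k => n⁻¹ * k) (fun k => n * k) (fun k hk => ?_)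
        (fun k hk => ?_) (fun y _ => by group) fun y _ => by group
      · obtain ⟨h10, h11⟩ : k ∈ N1 ∧ k⁻¹ * y * k ∈ zpowers x := by simpa using hk
        refine Finset.mem_filter.2 ⟨Finset.mem_univ _, mem_normalizer_of_conj_mem fun t ht => ?_,
          N1.mul_mem (N1.inv_mem hn) h10⟩
        obtain ⟨i, rfl⟩ := h9 h11 ▸ ht
        simp only [← conj_zpow]
        exact zpow_mem (by simpa [mul_assoc] using hg) i
      · obtain ⟨h10, h11⟩ : k ∈ N ∧ k ∈ N1 := by simpa using hk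
        have := inv_conj_mem_of_mem_normalizer h10 hg
        exact Finset.mem_filter.2 ⟨Finset.mem_filter.2 ⟨Finset.mem_univ _, N1.mul_mem hn h11⟩,
          by simpa [mul_assoc] using this⟩
  have hPN : (P : Subgroup H) ≤ N ⊓ N1 := le_inf ((h.le_cen (hc P) hxP).trans (h.cen_le x)) le_normalizer
  obtain ⟨c', hc'⟩ := card_dvd_of_le hPN
  have h5 := card_inf_mul_relIndex N N1
  have h6 := card_inf_mul_relIndex N1 N
  rw [h.fix hx hxP (h.cen_le x) le_rfl, ← h.fix hx hxP le_rfl (h.cen_le x), h1, inf_comm] at h6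
  have h7 := N1.card_mul_index
  have h8 := N.card_mul_index
  have h0 : 0 < Nat.card ↥(N ⊓ N1) := Nat.card_pos
  have h9 : Y.card = N.relIndex N1 * (p - 1) := Nat.eq_of_mul_eq_mul_left h0 (by
    rw [mul_comm, ← h4, hcf, ← h5, mul_assoc])
  have hm : m = N1.index * (c' * N.relIndex N1) := Nat.eq_of_mul_eq_mul_left (pow_pos h.pr.pos 2) (by
    rw [← h.card, ← h7, ← h5, hc', hc]; ring)
  obtain ⟨h10, h11⟩ := a7 (σ := N.relIndex N1) h.pr h.h5 (hm ▸ h.dvd) (h9 ▸ Dvd.intro_left _ h3.symm)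
    (by rw [← h9, ← h2]; exact Finset.card_le_card hYP) (Nat.pos_of_ne_zero FiniteIndex.index_ne_zero)
    (dvd_mul_left _ _) (Nat.eq_of_mul_eq_mul_left h0 (by
      rw [mul_comm N1.index, ← mul_assoc, h5, h7, ← h8, ← h6]; ring)) hu
  obtain ⟨q, hq⟩ : ∃ q, p = 2 * q + 1 := ⟨p / 2, by have := odd_of h.pr h.h5; omega⟩
  have h12 := h.fin (hc P) hj hV2 ((h.le_cen (hc P) hxP).trans hV3) (by
    rw [hm, h10, mul_comm 2]
    exact (Nat.mul_dvd_mul_left _ ⟨2 * (q * q + q) + 1, by rw [hq]; ring⟩).mul_right _)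
  have h13 : 4 ∣ p + 1 := hj ▸ pow_dvd_pow 2 (show 2 ≤ j by
    by_contra e
    have := h.h5
    have : j ≤ 1 := by omega
    interval_cases j <;> omega)
  rw [← h5, hc', hc, mul_assoc] at h12
  have h14 := (Nat.mul_dvd_mul_left 2 ((((Nat.prime_two.coprime_iff_not_dvd).2
    (by omega : ¬ 2 ∣ p)).pow_right 2).dvd_of_dvd_mul_left h12)).trans h11
  omega

end Hyp

end Cfsg.Agent.P2R
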